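import Mathlib

set_option autoImplicit false

/-!
# Janko–Ree type groups: the abstract set-up used for S3206

`JRSetup t N`: `t` is an involution of `G`, `N` is a subgroup of `C_G(t)` normalised by `C_G(t)`,
with `C_{C_G(t)}(N) = ⟨t⟩`, `N` non-abelian simple, and the two facts about `PSL₂(q)` that the
argument uses (abelian Sylow 2-subgroups of `N` are four-groups; an automorphism of `N` of
2-power order fixing an abelian Sylow 2-subgroup elementwise is conjugation by an element of it).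
-/

namespace Cfsg.Agent.Helper6

structure JRSetup {G : Type*} [Group G] (t : G) (N : Subgroup G) : Prop where
  ht : orderOf t = 2
  hNM : N ≤ Subgroup.centralizer ({t} : Set G)
  hnorm : ∀ m ∈ Subgroup.centralizer ({t} : Set G), ∀ n ∈ N, m * n * m⁻¹ ∈ N
  hcen : ∀ x ∈ Subgroup.centralizer ({t} : Set G), (∀ n ∈ N, x * n = n * x) →
    x ∈ Subgroup.zpowers t
  hsimp : IsSimpleGroup ↥N
  hnab : ∃ a ∈ N, ∃ b ∈ N, a * b ≠ b * a
  hsyl : ∀ V : Sylow 2 ↥N,
    (∀ a ∈ (V : Subgroup ↥N), ∀ b ∈ (V : Subgroup ↥N), a * b = b * a) →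
      Nat.card (V : Subgroup ↥N) = 4 ∧ ∀ v ∈ (V : Subgroup ↥N), v * v = 1
  haut : ∀ V : Sylow 2 ↥N,
    (∀ a ∈ (V : Subgroup ↥N), ∀ b ∈ (V : Subgroup ↥N), a * b = b * a) →
      ∀ (α : ↥N ≃* ↥N) (k : ℕ), α ^ (2 ^ k) = 1 → (∀ v ∈ (V : Subgroup ↥N), α v = v) →
        ∃ v ∈ (V : Subgroup ↥N), ∀ x : ↥N, α x = v * x * v⁻¹

end Cfsg.Agent.Helper6
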