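import Mathlib
import Cfsg.Prelude.Def_TwoFusion
import Cfsg.Agent.Helper6.JRSkel
import Cfsg.Agent.Helper67.JR3206PAUT
import Cfsg.Agent.Helper83.JR3206PSYL
import Cfsg.Agent.Helper73.JR3206TRF
import Cfsg.Agent.Helper73.JR3206ORB
import Cfsg.Agent.Helper73.JR3206ABEL
import Cfsg.Agent.Helper4.JR3206PIG
import Cfsg.Agent.Helper83.JR3206COMAP
import Cfsg.Agent.Helper67.JR3206JS
import Cfsg.Agent.Helper66.JR3206J2A
import Cfsg.Agent.Helper5.DkMin
import Cfsg.Agent.Helper35.StemSylow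

set_option autoImplicit false

/-!
# S3206: Janko–Ree type groups (assembly)
-/

namespace Cfsg.Agent.Helper6

open scoped Pointwise commutatorElement

/-- Elements of a join of two elementwise commuting subgroups are products. -/
theorem jr_mem_sup_of_commute {G : Type*} [Group G] (A B : Subgroup G)
    (h : ∀ a ∈ A, ∀ b ∈ B, a * b = b * a) (x : G) (hx : x ∈ A ⊔ B) :
    ∃ a ∈ A, ∃ b ∈ B, x = a * b := by
  let C : Subgroup G :=
    { carrier := {x | ∃ a ∈ A, ∃ b ∈ B, x = a * b}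
      mul_mem' := by
        rintro _ _ ⟨a, ha, b, hb, rfl⟩ ⟨a', ha', b', hb', rfl⟩
        refine ⟨a * a', A.mul_mem ha ha', b * b', B.mul_mem hb hb', ?_⟩
        have := h a' ha' b hb
        calc a * b * (a' * b') = a * (b * a') * b' := by group
          _ = a * (a' * b) * b' := by rw [this]
          _ = a * a' * (b * b') := by group
      one_mem' := ⟨1, A.one_mem, 1, B.one_mem, by simp⟩
      inv_mem' := by
        rintro _ ⟨a, ha, b, hb, rfl⟩
        refine ⟨a⁻¹, A.inv_mem ha, b⁻¹, B.inv_mem hb, ?_⟩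
        have := h a⁻¹ (A.inv_mem ha) b⁻¹ (B.inv_mem hb)
        rw [mul_inv_rev, this] }
  have hle : A ⊔ B ≤ C :=
    sup_le (fun a ha => ⟨a, ha, 1, B.one_mem, by simp⟩) (fun b hb => ⟨1, A.one_mem, b, hb, by simp⟩)
  exact hle hx

/-- The abstract set-up holds under the hypotheses of S3206. -/
theorem jr_setup_of_hyp {G : Type*} [Group G] [Finite G] (t : G) (ht : orderOf t = 2)
    (E : Subgroup G)
    (hE : Cfsg.IsInternalDirectProduct (Subgroup.zpowers t) E
      (Subgroup.centralizer ({t} : Set G)))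
    {F : Type*} [Field F] [Fintype F] (hFo : Odd (Fintype.card F)) (hF3 : 3 < Fintype.card F)
    (N : Subgroup ↥E) [N.Normal]
    (hN : Nonempty (↥N ≃* Matrix.ProjectiveSpecialLinearGroup (Fin 2) F))
    (hNc : Subgroup.centralizer (N : Set ↥E) = ⊥) :
    JRSetup t (N.map E.subtype) := by
  obtain ⟨hAM, hEM, hcomm, -, hsup⟩ := hE
  obtain ⟨e₀⟩ := hN
  let e₁ : ↥(N.map E.subtype) ≃* ↥N :=
    (N.equivMapOfInjective E.subtype (Subgroup.subtype_injective E)).symm
  let e : ↥(N.map E.subtype) ≃* Matrix.ProjectiveSpecialLinearGroup (Fin 2) F := e₁.trans e₀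
  have hdec : ∀ m ∈ Subgroup.centralizer ({t} : Set G),
      ∃ a ∈ Subgroup.zpowers t, ∃ b ∈ E, m = a * b := by
    intro m hm
    rw [← hsup] at hm
    exact jr_mem_sup_of_commute _ _ hcomm m hm
  have hmemN : ∀ n : G, n ∈ N.map E.subtype ↔ ∃ h : n ∈ E, (⟨n, h⟩ : ↥E) ∈ N := by
    intro n
    constructor
    · rintro ⟨x, hx, rfl⟩
      exact ⟨x.2, hx⟩
    · rintro ⟨h, hx⟩
      exact ⟨⟨n, h⟩, hx, rfl⟩
  have hsimpP : IsSimpleGroup (Matrix.ProjectiveSpecialLinearGroup (Fin 2) F) :=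
    Matrix.ProjectiveSpecialLinearGroup.rank_two_simple
      (by rw [Nat.card_eq_fintype_card]; omega)
  refine ⟨ht, ?_, ?_, ?_, ?_, ?_, ?_, ?_⟩
  · intro n hn
    obtain ⟨h, -⟩ := (hmemN n).1 hn
    exact hEM h
  · intro m hm n hn
    obtain ⟨a, ha, b, hb, rfl⟩ := hdec m hm
    obtain ⟨hnE, hnN⟩ := (hmemN n).1 hn
    have h1 : a * b * n * (a * b)⁻¹ = b * n * b⁻¹ := by
      have h2 := hcomm a ha (b * n * b⁻¹) (E.mul_mem (E.mul_mem hb hnE) (E.inv_mem hb))
      calc a * b * n * (a * b)⁻¹ = a * (b * n * b⁻¹) * a⁻¹ := by group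
        _ = (b * n * b⁻¹) * a * a⁻¹ := by rw [h2]
        _ = b * n * b⁻¹ := by group
    rw [h1, hmemN]
    refine ⟨E.mul_mem (E.mul_mem hb hnE) (E.inv_mem hb), ?_⟩
    have : (⟨b * n * b⁻¹, E.mul_mem (E.mul_mem hb hnE) (E.inv_mem hb)⟩ : ↥E) =
        ⟨b, hb⟩ * ⟨n, hnE⟩ * (⟨b, hb⟩ : ↥E)⁻¹ := rfl
    rw [this]
    exact (inferInstance : N.Normal).conj_mem _ hnN _
  · intro x hx hxc
    obtain ⟨a, ha, b, hb, rfl⟩ := hdec x hx
    have hb1 : (⟨b, hb⟩ : ↥E) ∈ Subgroup.centralizer (N : Set ↥E) := by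
      rw [Subgroup.mem_centralizer_iff]
      intro n hn
      apply Subtype.ext
      have hnm : (n : G) ∈ N.map E.subtype := ⟨n, hn, rfl⟩
      have h1 := hxc (n : G) hnm
      have h2 := hcomm a ha (n : G) n.2
      have h3 : (n : G) * b = b * (n : G) := by
        have : a * (b * (n : G)) = a * ((n : G) * b) := by
          calc a * (b * (n : G)) = a * b * (n : G) := by group
            _ = (n : G) * (a * b) := h1
            _ = ((n : G) * a) * b := by group
            _ = (a * (n : G)) * b := by rw [h2]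
            _ = a * ((n : G) * b) := by group
        exact (mul_left_cancel this).symm
      simpa using h3
    rw [hNc, Subgroup.mem_bot] at hb1
    have hb' : b = 1 := congrArg Subtype.val hb1
    rw [hb', mul_one]
    exact ha
  · have := hsimpP
    exact MulEquiv.isSimpleGroup e
  · by_contra hcon
    push Not at hcon
    apply Cfsg.Agent.Helper5.psl2_not_solvable (K := F) (by omega)
    have hcommP : ∀ a b : Matrix.ProjectiveSpecialLinearGroup (Fin 2) F, a * b = b * a := by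
      intro a b
      have h1 := hcon (e.symm a) (e.symm a).2 (e.symm b) (e.symm b).2
      have h2 : e.symm a * e.symm b = e.symm b * e.symm a := Subtype.ext h1
      have h3 := congrArg e h2
      simpa using h3
    let _ : CommGroup (Matrix.ProjectiveSpecialLinearGroup (Fin 2) F) :=
      { (inferInstance : Group (Matrix.ProjectiveSpecialLinearGroup (Fin 2) F)) with
        mul_comm := hcommP }
    infer_instance
  · intro V hV
    exact Cfsg.Agent.Helper83.jr_psl2_sylow hFo hF3 e V hV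
  · intro V hV α k hα hfix
    exact Cfsg.Agent.Helper67.jr_psl2_aut hFo hF3 e V hV α k hα hfix

/-- A Sylow 2-subgroup through `t`. -/
theorem jr_exists_sylow {G : Type*} [Group G] [Finite G] (t : G) (ht : orderOf t = 2) :
    ∃ S : Sylow 2 G, t ∈ (S : Subgroup G) := by
  have hp : IsPGroup 2 (Subgroup.zpowers t) := by
    rw [IsPGroup.iff_card, Nat.card_zpowers, ht]
    exact ⟨1, by norm_num⟩
  obtain ⟨S, hS⟩ := hp.exists_le_sylow
  exact ⟨S, hS (Subgroup.mem_zpowers t)⟩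

/-- Structure + transitivity for a Sylow 2-subgroup through `t`. -/
theorem jr_sylow_facts {G : Type*} [Group G] [Finite G] (hperf : commutator G = ⊤)
    (hab : ∀ S : Sylow 2 G, ∀ a ∈ (S : Subgroup G), ∀ b ∈ (S : Subgroup G), a * b = b * a)
    {t : G} {N : Subgroup G} (h : JRSetup t N) (S : Sylow 2 G) (htS : t ∈ (S : Subgroup G)) :
    Nat.card (S : Subgroup G) = 8 ∧ (∀ s ∈ (S : Subgroup G), s * s = 1) ∧
      ∀ a ∈ (S : Subgroup G), a ≠ 1 → ∀ b ∈ (S : Subgroup G), b ≠ 1 →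
        ∃ n ∈ Subgroup.normalizer ((S : Subgroup G) : Set G), n * a * n⁻¹ = b := by
  obtain ⟨h8, hexp⟩ := Cfsg.Agent.Helper67.jr_sylow_structure h S (hab S) htS
  refine ⟨h8, hexp, ?_⟩
  have : Fact (Nat.Prime 2) := ⟨Nat.prime_two⟩
  exact Cfsg.Agent.Helper73.jr_normalizer_transitive S (hab S) h8
    (fun s hs hc => Cfsg.Agent.Helper73.jr_transfer_fixed hperf 2 S (hab S) s hs hc)

/-- Part 1 of S3206. -/
theorem jr_part1 {G : Type*} [Group G] [Finite G] (hperf : commutator G = ⊤)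
    (hab : ∀ S : Sylow 2 G, ∀ a ∈ (S : Subgroup G), ∀ b ∈ (S : Subgroup G), a * b = b * a)
    {t : G} {N : Subgroup G} (h : JRSetup t N)
    (L : Type*) [Group L] [Finite L] (Z : Subgroup L) [Z.Normal] (hL : commutator L = ⊤)
    (hZc : Z ≤ Subgroup.center L) (hZ2 : IsPGroup 2 ↥Z) (e : L ⧸ Z ≃* G) : Z = ⊥ := by
  have hp2 : Fact (Nat.Prime 2) := ⟨Nat.prime_two⟩
  obtain ⟨S, htS⟩ := jr_exists_sylow t h.ht
  obtain ⟨h8, hexp, htr⟩ := jr_sylow_facts hperf hab h S htS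
  let π : L →* G := e.toMonoidHom.comp (QuotientGroup.mk' Z)
  have hπ : Function.Surjective π := e.surjective.comp (QuotientGroup.mk'_surjective Z)
  have hker : π.ker = Z := by
    ext x
    simp [π]
  have hπ1 : ∀ x : L, π x = 1 ↔ x ∈ Z := by
    intro x
    rw [← hker, MonoidHom.mem_ker]
  set T : Subgroup L := (S : Subgroup G).comap π with hT
  set X : Subgroup L := (Subgroup.normalizer ((S : Subgroup G) : Set G)).comap π with hX
  have hZT : Z ≤ T := by
    intro z hz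
    rw [hT, Subgroup.mem_comap, (hπ1 z).2 hz]
    exact Subgroup.one_mem _
  have hXT : X ≤ Subgroup.normalizer (T : Set L) := by
    intro x hx
    rw [hX, Subgroup.mem_comap, Subgroup.mem_normalizer_iff] at hx
    rw [Subgroup.mem_normalizer_iff]
    intro y
    rw [hT, Subgroup.mem_comap, Subgroup.mem_comap, map_mul, map_mul, map_inv]
    exact hx (π y)
  have hcard : Nat.card T = 8 * Nat.card Z := by
    rw [hT, Cfsg.Agent.Helper83.jr_card_comap π hπ, hker, h8, mul_comm]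
  have hexpT : ∀ a ∈ T, a * a ∈ Z := by
    intro a ha
    rw [← hπ1, map_mul]
    exact hexp _ ha
  have htrT : ∀ a ∈ T, a ∉ Z → ∀ b ∈ T, b ∉ Z → ∃ x ∈ X, ∃ z ∈ Z, x * a * x⁻¹ = b * z := by
    intro a ha haZ b hb hbZ
    have ha1 : π a ≠ 1 := fun h1 => haZ ((hπ1 a).1 h1)
    have hb1 : π b ≠ 1 := fun h1 => hbZ ((hπ1 b).1 h1)
    obtain ⟨n, hn, hnab⟩ := htr (π a) ha ha1 (π b) hb hb1
    obtain ⟨x, rfl⟩ := hπ n
    refine ⟨x, hn, b⁻¹ * (x * a * x⁻¹), ?_, by group⟩
    rw [← hπ1, map_mul, map_inv, map_mul, map_mul, map_inv, hnab, inv_mul_cancel]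
  have habT := Cfsg.Agent.Helper73.jr_cover_sylow_abelian Z T X hZc hZT hXT hcard hexpT htrT
  have hidx : T.index = (S : Subgroup G).index := by
    rw [hT]
    exact Subgroup.index_comap_of_surjective _ hπ
  rw [eq_bot_iff]
  intro z hz
  rw [Subgroup.mem_bot]
  have h1 : z ^ T.index = 1 :=
    Cfsg.Agent.Helper35.stem_pow_index_eq_one_of_comm T habT z (hZc hz) (by rw [hL]; trivial)
  obtain ⟨j, hj⟩ := (IsPGroup.iff_orderOf.mp hZ2) ⟨z, hz⟩
  rw [Subgroup.orderOf_mk] at hj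
  have h2 : orderOf z ∣ T.index := orderOf_dvd_of_pow_eq_one h1
  rw [hj, hidx] at h2
  have h3 : ¬ 2 ∣ (S : Subgroup G).index := S.not_dvd_index
  rcases Nat.eq_zero_or_pos j with rfl | hjpos
  · rw [pow_zero] at hj
    exact orderOf_eq_one_iff.mp hj
  · exact absurd (dvd_trans (dvd_pow_self 2 hjpos.ne') h2) h3

/-- Conjugating an automorphism. -/
theorem jr_conj_aut_pow {G : Type*} [Group G] (φ : G ≃* G) (c : G) (n : ℕ) (hφ : φ ^ n = 1) :
    ((MulAut.conj c : G ≃* G) * φ * (MulAut.conj c : G ≃* G)⁻¹) ^ n = 1 := by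
  rw [conj_pow, hφ, mul_one, mul_inv_cancel]

theorem jr_conj_aut_apply {G : Type*} [Group G] (φ : G ≃* G) (c x : G) :
    ((MulAut.conj c : G ≃* G) * φ * (MulAut.conj c : G ≃* G)⁻¹) x =
      c * φ (c⁻¹ * x * c) * c⁻¹ := by
  rw [MulAut.mul_apply, MulAut.mul_apply, MulAut.conj_inv_apply, MulAut.conj_apply]

/-- Two different involutions of `S`: the centraliser of the second is not inside `C(t)`. -/
theorem jr_centralizer_not_le {G : Type*} [Group G] [Finite G] {t : G} {N : Subgroup G}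
    (h : JRSetup t N) (S : Sylow 2 G)
    (htr : ∀ a ∈ (S : Subgroup G), a ≠ 1 → ∀ b ∈ (S : Subgroup G), b ≠ 1 →
        ∃ n ∈ Subgroup.normalizer ((S : Subgroup G) : Set G), n * a * n⁻¹ = b)
    (htS : t ∈ (S : Subgroup G)) (τ : G) (hτS : τ ∈ (S : Subgroup G)) (hτ1 : τ ≠ 1)
    (hτt : τ ≠ t)
    (hle : Subgroup.centralizer ({τ} : Set G) ≤ Subgroup.centralizer ({t} : Set G)) : False := by
  have ht1 : t ≠ 1 := by
    intro h1
    have := h.ht
    rw [h1, orderOf_one] at this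
    omega
  obtain ⟨n, -, hn⟩ := htr t htS ht1 τ hτS hτ1
  -- conjugation by n maps C(t) into C(τ) ≤ C(t), hence onto C(t)
  have hmap : ∀ x ∈ Subgroup.centralizer ({t} : Set G),
      n * x * n⁻¹ ∈ Subgroup.centralizer ({τ} : Set G) := by
    intro x hx
    rw [Subgroup.mem_centralizer_singleton_iff] at hx ⊢
    rw [← hn]
    calc n * x * n⁻¹ * (n * t * n⁻¹) = n * (x * t) * n⁻¹ := by group
      _ = n * (t * x) * n⁻¹ := by rw [hx]
      _ = n * t * n⁻¹ * (n * x * n⁻¹) := by group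
  let f : ↥(Subgroup.centralizer ({t} : Set G)) → ↥(Subgroup.centralizer ({t} : Set G)) :=
    fun x => ⟨n * x * n⁻¹, hle (hmap x x.2)⟩
  have hinj : Function.Injective f := by
    intro x y hxy
    have h1 : n * (x : G) * n⁻¹ = n * (y : G) * n⁻¹ := congrArg Subtype.val hxy
    apply Subtype.ext
    have h2 : n⁻¹ * (n * (x : G) * n⁻¹) * n = n⁻¹ * (n * (y : G) * n⁻¹) * n := by rw [h1]
    simpa [mul_assoc] using h2
  have hsurj : Function.Surjective f := Finite.surjective_of_injective hinj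
  have hge : Subgroup.centralizer ({t} : Set G) ≤ Subgroup.centralizer ({τ} : Set G) := by
    intro y hy
    obtain ⟨x, hx⟩ := hsurj ⟨y, hy⟩
    have h1 : n * (x : G) * n⁻¹ = y := congrArg Subtype.val hx
    rw [← h1]
    exact hmap x x.2
  -- so τ centralises C(t), in particular N
  have hτM : τ ∈ Subgroup.centralizer ({t} : Set G) :=
    hle (Subgroup.mem_centralizer_singleton_iff.mpr rfl)
  have hτc : ∀ m ∈ N, τ * m = m * τ := by
    intro m hm
    have := hge (h.hNM hm)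
    rw [Subgroup.mem_centralizer_singleton_iff] at this
    exact this.symm
  have hτz := h.hcen τ hτM hτc
  obtain ⟨k, rfl⟩ := Subgroup.mem_zpowers_iff.mp hτz
  have ht2 : t ^ (2 : ℤ) = 1 := by
    have := pow_orderOf_eq_one t
    rw [h.ht] at this
    exact_mod_cast this
  rcases Int.emod_two_eq_zero_or_one k with hk | hk
  · apply hτ1
    have : k = 2 * (k / 2) := by omega
    rw [this, zpow_mul, ht2, one_zpow]
  · apply hτt
    have : k = 2 * (k / 2) + 1 := by omega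
    rw [this, zpow_add, zpow_mul, ht2, one_zpow, one_mul, zpow_one]

/-- Part 2 of S3206 when `t` lies in the Sylow 2-subgroup fixed by `φ`. -/
theorem jr_part2_core {G : Type*} [Group G] [Finite G] (hperf : commutator G = ⊤)
    (hab : ∀ S : Sylow 2 G, ∀ a ∈ (S : Subgroup G), ∀ b ∈ (S : Subgroup G), a * b = b * a)
    {t : G} {N : Subgroup G} (h : JRSetup t N)
    (hmax : IsCoatom (Subgroup.centralizer ({t} : Set G)))
    (S : Sylow 2 G) (htS : t ∈ (S : Subgroup G)) (φ : G ≃* G) (k : ℕ) (hφ : φ ^ (2 ^ k) = 1)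
    (hfix : ∀ s ∈ (S : Subgroup G), φ s = s) : ∃ g : G, ∀ x : G, φ x = g * x * g⁻¹ := by
  obtain ⟨h8, hexp, htr⟩ := jr_sylow_facts hperf hab h S htS
  have ht1 : t ≠ 1 := by
    intro h1
    have := h.ht
    rw [h1, orderOf_one] at this
    omega
  let c : G → Set G := fun τ => {v | ∀ x ∈ Subgroup.centralizer ({τ} : Set G), φ x = v * x * v⁻¹}
  have hc1 : ∀ τ ∈ (S : Subgroup G), τ ≠ 1 → ∃ v ∈ (S : Subgroup G), v ∈ c τ := by
    intro τ hτS hτ1
    obtain ⟨n, hnN, hn⟩ := htr t htS ht1 τ hτS hτ1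
    have hnS : ∀ s ∈ (S : Subgroup G), n * s * n⁻¹ ∈ (S : Subgroup G) := fun s hs =>
      (Subgroup.mem_normalizer_iff.mp hnN s).1 hs
    set ψ : G ≃* G := (MulAut.conj n⁻¹ : G ≃* G) * φ * (MulAut.conj n⁻¹ : G ≃* G)⁻¹ with hψ
    have hψa : ∀ x : G, ψ x = n⁻¹ * φ (n * x * n⁻¹) * n := by
      intro x
      rw [hψ, jr_conj_aut_apply, inv_inv]
    have hψp : ψ ^ (2 ^ k) = 1 := jr_conj_aut_pow φ n⁻¹ _ hφ
    have hψfix : ∀ s ∈ (S : Subgroup G), ψ s = s := by
      intro s hs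
      rw [hψa, hfix _ (hnS s hs)]
      group
    obtain ⟨v, hvS, hv⟩ := Cfsg.Agent.Helper66.jr_aut_on_centralizer h S (hab S) htS ψ k hψp hψfix
    refine ⟨n * v * n⁻¹, hnS v hvS, ?_⟩
    intro y hy
    have hx : n⁻¹ * y * n ∈ Subgroup.centralizer ({t} : Set G) := by
      rw [Subgroup.mem_centralizer_singleton_iff] at hy ⊢
      rw [← hn] at hy
      have h1 : n⁻¹ * (y * (n * t * n⁻¹)) * n = n⁻¹ * ((n * t * n⁻¹) * y) * n := by rw [hy]
      calc n⁻¹ * y * n * t = n⁻¹ * (y * (n * t * n⁻¹)) * n := by group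
        _ = n⁻¹ * ((n * t * n⁻¹) * y) * n := h1
        _ = t * (n⁻¹ * y * n) := by group
    have h2 := hv _ hx
    rw [hψa] at h2
    have h3 : n * (n⁻¹ * y * n) * n⁻¹ = y := by group
    rw [h3] at h2
    calc φ y = n * (n⁻¹ * φ y * n) * n⁻¹ := by group
      _ = n * (v * (n⁻¹ * y * n) * v⁻¹) * n⁻¹ := by rw [h2]
      _ = n * v * n⁻¹ * y * (n * v * n⁻¹)⁻¹ := by group
  have hc2 : ∀ τ ∈ (S : Subgroup G), τ ≠ 1 → ∀ v ∈ c τ, v * τ ∈ c τ := by
    intro τ _ _ v hv x hx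
    rw [hv x hx]
    rw [Subgroup.mem_centralizer_singleton_iff] at hx
    calc v * x * v⁻¹ = v * (x * τ) * τ⁻¹ * v⁻¹ := by group
      _ = v * (τ * x) * τ⁻¹ * v⁻¹ := by rw [hx]
      _ = v * τ * x * (v * τ)⁻¹ := by group
  obtain ⟨τ₁, hτ₁S, τ₂, hτ₂S, hτ₁1, hτ₂1, hne, v, -, hv1, hv2⟩ :=
    Cfsg.Agent.Helper4.jr_pigeonhole (S : Subgroup G) h8 hexp c hc1 hc2
  refine ⟨v, ?_⟩
  -- the subgroup where φ = inn v
  let K : Subgroup G :=
    { carrier := {x | φ x = v * x * v⁻¹}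
      mul_mem' := by
        intro a b ha hb
        simp only [Set.mem_ofPred_eq] at ha hb ⊢
        rw [map_mul, ha, hb]
        group
      one_mem' := by simp
      inv_mem' := by
        intro a ha
        simp only [Set.mem_ofPred_eq] at ha ⊢
        rw [map_inv, ha]
        group }
  have hK1 : Subgroup.centralizer ({τ₁} : Set G) ≤ K := fun x hx => hv1 x hx
  have hK2 : Subgroup.centralizer ({τ₂} : Set G) ≤ K := fun x hx => hv2 x hx
  suffices hKtop : K = ⊤ by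
    intro x
    have : x ∈ K := by rw [hKtop]; trivial
    exact this
  by_contra hKne
  obtain ⟨n, hnN, hn⟩ := htr t htS ht1 τ₁ hτ₁S hτ₁1
  have hnS : ∀ s ∈ (S : Subgroup G), n⁻¹ * s * n ∈ (S : Subgroup G) := by
    intro s hs
    have h1 := (Subgroup.mem_normalizer_iff.mp (Subgroup.inv_mem _ hnN) s).1 hs
    simpa using h1
  let K' : Subgroup G := K.comap (MulAut.conj n : G ≃* G).toMonoidHom
  have hK'mem : ∀ x : G, x ∈ K' ↔ n * x * n⁻¹ ∈ K := by
    intro x
    rfl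
  have hMK' : Subgroup.centralizer ({t} : Set G) ≤ K' := by
    intro x hx
    rw [hK'mem]
    apply hK1
    rw [Subgroup.mem_centralizer_singleton_iff] at hx ⊢
    rw [← hn]
    calc n * x * n⁻¹ * (n * t * n⁻¹) = n * (x * t) * n⁻¹ := by group
      _ = n * (t * x) * n⁻¹ := by rw [hx]
      _ = n * t * n⁻¹ * (n * x * n⁻¹) := by group
  have hK'ne : K' ≠ ⊤ := by
    intro htop
    apply hKne
    rw [eq_top_iff]
    intro y _
    have h1 : n⁻¹ * y * n ∈ K' := by rw [htop]; trivial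
    rw [hK'mem] at h1
    have h2 : n * (n⁻¹ * y * n) * n⁻¹ = y := by group
    rwa [h2] at h1
  have hK'eq : K' = Subgroup.centralizer ({t} : Set G) := by
    rcases eq_or_lt_of_le hMK' with heq | hlt
    · exact heq.symm
    · exact absurd (hmax.2 K' hlt) hK'ne
  set τ' : G := n⁻¹ * τ₂ * n with hτ'
  have hτ'S : τ' ∈ (S : Subgroup G) := hnS τ₂ hτ₂S
  have hτ'1 : τ' ≠ 1 := by
    intro h1
    apply hτ₂1
    have : τ₂ = n * τ' * n⁻¹ := by rw [hτ']; group
    rw [this, h1]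
    group
  have hτ't : τ' ≠ t := by
    intro h1
    apply hne
    have : τ₂ = n * τ' * n⁻¹ := by rw [hτ']; group
    rw [this, h1, hn]
  have hle : Subgroup.centralizer ({τ'} : Set G) ≤ Subgroup.centralizer ({t} : Set G) := by
    rw [← hK'eq]
    intro x hx
    rw [hK'mem]
    apply hK2
    rw [Subgroup.mem_centralizer_singleton_iff] at hx ⊢
    have h2 : τ₂ = n * τ' * n⁻¹ := by rw [hτ']; group
    rw [h2]
    calc n * x * n⁻¹ * (n * τ' * n⁻¹) = n * (x * τ') * n⁻¹ := by group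
      _ = n * (τ' * x) * n⁻¹ := by rw [hx]
      _ = n * τ' * n⁻¹ * (n * x * n⁻¹) := by group
  exact jr_centralizer_not_le h S htr htS τ' hτ'S hτ'1 hτ't hle

/-- Part 2 of S3206. -/
theorem jr_part2 {G : Type*} [Group G] [Finite G] (hperf : commutator G = ⊤)
    (hab : ∀ S : Sylow 2 G, ∀ a ∈ (S : Subgroup G), ∀ b ∈ (S : Subgroup G), a * b = b * a)
    {t : G} {N : Subgroup G} (h : JRSetup t N)
    (hmax : IsCoatom (Subgroup.centralizer ({t} : Set G)))
    (φ : G ≃* G) (k : ℕ) (hφ : φ ^ (2 ^ k) = 1)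
    (hfix : ∃ S : Sylow 2 G, ∀ s ∈ (S : Subgroup G), φ s = s) :
    ∃ g : G, ∀ x : G, φ x = g * x * g⁻¹ := by
  obtain ⟨S₀, hS₀⟩ := hfix
  obtain ⟨S, htS⟩ := jr_exists_sylow t h.ht
  have hp2 : Fact (Nat.Prime 2) := ⟨Nat.prime_two⟩
  obtain ⟨g, rfl⟩ := MulAction.exists_smul_eq G S₀ S
  have hmem : ∀ x : G, x ∈ ((g • S₀ : Sylow 2 G) : Subgroup G) ↔
      g⁻¹ * x * g ∈ (S₀ : Subgroup G) := by
    intro x
    rw [Sylow.coe_subgroup_smul, Subgroup.mem_pointwise_smul_iff_inv_smul_mem]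
    simp only [MulAut.smul_def, MulAut.conj_inv_apply]
  set ψ : G ≃* G := (MulAut.conj g : G ≃* G) * φ * (MulAut.conj g : G ≃* G)⁻¹ with hψ
  have hψa : ∀ x : G, ψ x = g * φ (g⁻¹ * x * g) * g⁻¹ := fun x => jr_conj_aut_apply φ g x
  have hψp : ψ ^ (2 ^ k) = 1 := jr_conj_aut_pow φ g _ hφ
  have hψfix : ∀ s ∈ ((g • S₀ : Sylow 2 G) : Subgroup G), ψ s = s := by
    intro s hs
    rw [hψa, hS₀ _ ((hmem s).1 hs)]
    group
  obtain ⟨v, hv⟩ := jr_part2_core hperf hab h hmax (g • S₀) htS ψ k hψp hψfix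
  refine ⟨g⁻¹ * v * g, ?_⟩
  intro x
  have h1 := hv (g * x * g⁻¹)
  rw [hψa] at h1
  have h2 : g⁻¹ * (g * x * g⁻¹) * g = x := by group
  rw [h2] at h1
  calc φ x = g⁻¹ * (g * φ x * g⁻¹) * g := by group
    _ = g⁻¹ * (v * (g * x * g⁻¹) * v⁻¹) * g := by rw [h1]
    _ = g⁻¹ * v * g * x * (g⁻¹ * v * g)⁻¹ := by group

/-- S3206. -/
theorem jr_main {G : Type*} [Group G] [Finite G] [IsSimpleGroup G]
    (hG : ¬ IsMulCommutative G) (hab : ∀ S : Sylow 2 G, IsMulCommutative ↥(S : Subgroup G))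
    (t : G) (ht : orderOf t = 2) (hmax : IsCoatom (Subgroup.centralizer ({t} : Set G)))
    (E : Subgroup G)
    (hE : Cfsg.IsInternalDirectProduct (Subgroup.zpowers t) E
      (Subgroup.centralizer ({t} : Set G)))
    {F : Type*} [Field F] [Fintype F] (hFo : Odd (Fintype.card F)) (hF3 : 3 < Fintype.card F)
    (N : Subgroup ↥E) [N.Normal]
    (hN : Nonempty (↥N ≃* Matrix.ProjectiveSpecialLinearGroup (Fin 2) F))
    (hNc : Subgroup.centralizer (N : Set ↥E) = ⊥) :
    (∀ (L : Type) (_ : Group L) (_ : Finite L) (Z : Subgroup L) (_ : Z.Normal),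
        commutator L = ⊤ → Z ≤ Subgroup.center L →
        IsPGroup 2 ↥Z → Nonempty (L ⧸ Z ≃* G) → Z = ⊥) ∧
    (∀ (φ : G ≃* G) (k : ℕ), φ ^ (2 ^ k) = 1 →
        (∃ S : Sylow 2 G, ∀ s ∈ (S : Subgroup G), φ s = s) →
        ∃ g : G, ∀ x : G, φ x = g * x * g⁻¹) := by
  have hperf : commutator G = ⊤ := by
    rcases (inferInstance : (commutator G).Normal).eq_bot_or_eq_top with hbot | htop
    · exfalso
      apply hG
      refine ⟨⟨fun a b => ?_⟩⟩
      have h1 : ⁅a, b⁆ ∈ commutator G := Subgroup.commutator_mem_commutator (Subgroup.mem_top a)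
        (Subgroup.mem_top b)
      rw [hbot, Subgroup.mem_bot] at h1
      exact commutatorElement_eq_one_iff_mul_comm.mp h1
    · exact htop
  have hab' : ∀ S : Sylow 2 G, ∀ a ∈ (S : Subgroup G), ∀ b ∈ (S : Subgroup G),
      a * b = b * a := by
    intro S a ha b hb
    have h1 := (hab S).is_comm.comm ⟨a, ha⟩ ⟨b, hb⟩
    exact congrArg Subtype.val h1
  have hset := jr_setup_of_hyp t ht E hE hFo hF3 N hN hNc
  refine ⟨?_, ?_⟩
  · intro L _ _ Z _ hL hZc hZ2 ⟨e⟩
    exact jr_part1 hperf hab' hset L Z hL hZc hZ2 e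
  · intro φ k hφ hfix
    exact jr_part2 hperf hab' hset hmax φ k hφ hfix

end Cfsg.Agent.Helper6
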