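import Cfsg.Agent.Helper3.RMD43FIX
import Cfsg.Agent.Helper12.RMD43SUM1
import Cfsg.Agent.Helper42.RMD43MULT
import Cfsg.Agent.Helper86.RMD43CHAR
import Cfsg.Agent.Helper67.RMD43KLEIN
import Cfsg.Agent.Helper67.RMD43NUM
import Cfsg.Agent.Helper67.RMD43PARAM
import Cfsg.Agent.Helper12.RMD43ASUM

/-!
# Minimal degree of the small Ree groups: the abstract character computation (S2343)
-/

set_option autoImplicit false

namespace Cfsg.Agent.Helper6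

open Cfsg.Agent.Helper90.MD

theorem rmd43_trace_conj {G : Type*} [Group G] {V : Type*} [AddCommGroup V] [Module ℂ V]
    (ρ : Representation ℂ G V) (g x : G) :
    LinearMap.trace ℂ V (ρ (g * x * g⁻¹)) = LinearMap.trace ℂ V (ρ x) := by
  have h : ρ (g * x * g⁻¹) = ρ (g * x) * ρ g⁻¹ := map_mul ρ _ _
  rw [h, LinearMap.trace_mul_comm, ← map_mul, ← mul_assoc, inv_mul_cancel, one_mul]

theorem rmd43_subg {G : Type*} [Group G] [Finite G] {V : Type*} [AddCommGroup V] [Module ℂ V]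
    [FiniteDimensional ℂ V] (ρ : Representation ℂ G V) (Z A : Subgroup G) (q : ℕ)
    (hZ : Nat.card Z = q) (hA : Nat.card A = q * q) (hZA : Z ≤ A)
    (hcomm : ∀ x ∈ A, ∀ y ∈ A, x * y = y * x)
    (h1 : ∀ x ∈ Z, ∀ y ∈ Z, x ≠ 1 → y ≠ 1 → ∃ g : G, g * x * g⁻¹ = y)
    (h2 : ∀ x ∈ A, x ∉ Z → ∀ z ∈ Z, ∃ g : G, g * x * g⁻¹ = x * z)
    (t : G) (ht : ∀ z ∈ Z, t * z * t⁻¹ = z⁻¹)
    (hinv : ∀ j : G, j ≠ 1 → j * j = 1 → ∃ g : G, g * j * g⁻¹ = t)
    (a b : G) (ha : a ≠ 1) (hb : b ≠ 1) (hab : a ≠ b) (ha2 : a * a = 1) (hb2 : b * b = 1)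
    (hc : a * b = b * a) (hfaith : ∀ g : G, ρ g = 1 → g = 1) (hq : q % 4 = 3) :
    q ^ 2 - q + 1 ≤ Module.finrank ℂ V := by
  classical
  letI : Fintype Z := Fintype.ofFinite _
  letI : Fintype A := Fintype.ofFinite _
  -- a nontrivial element of `Z`
  obtain ⟨z0, hz0, hz01⟩ : ∃ z0 ∈ Z, z0 ≠ 1 := by
    by_contra hcon
    have hbot : Z = ⊥ := by
      rw [Subgroup.eq_bot_iff_forall]
      intro x hx
      by_contra hx1
      exact hcon ⟨x, hx, hx1⟩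
    rw [hbot, Subgroup.card_bot] at hZ
    omega
  set f : G → ℂ := fun g => LinearMap.trace ℂ V (ρ g) with hf
  have hf1 : f 1 = (Module.finrank ℂ V : ℂ) := by
    rw [hf]
    show LinearMap.trace ℂ V (ρ 1) = _
    rw [map_one]
    exact LinearMap.trace_one ℂ V
  have hfc : ∀ g x : G, f (g * x * g⁻¹) = f x := fun g x => rmd43_trace_conj ρ g x
  have hfZ : ∀ z ∈ Z, z ≠ 1 → f z = f z0 := by
    intro z hz hz1
    obtain ⟨g, hg⟩ := h1 z0 hz0 z hz hz01 hz1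
    rw [← hg, hfc]
  -- the fixed points of `Z`
  obtain ⟨r, hr1, hr2, hr3⟩ := Cfsg.Agent.Helper3.rmd43_fix ρ Z
  have e1 := Cfsg.Agent.Helper12.rmd43_sum1 Z f (f z0) hfZ
  have E1 : (Module.finrank ℂ V : ℂ) + ((q : ℂ) - 1) * f z0 = (q : ℂ) * (r : ℂ) := by
    rw [← hZ, ← hr1, ← hf1]
    exact e1.symm
  -- a character of `A` nontrivial on `Z`
  obtain ⟨lam, hl, hlz0⟩ := Cfsg.Agent.Helper86.rmd43_char A hcomm z0 (hZA hz0) hz01
  have hlZ : IsCharOn Z lam := ⟨hl.1, fun x hx y hy => hl.2 x (hZA hx) y (hZA hy)⟩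
  obtain ⟨n, hn⟩ := Cfsg.Agent.Helper42.rmd43_mult ρ A lam hl
  have hfA : ∀ x ∈ A, x ∉ Z → ∀ z ∈ Z, f (x * z) = f x := by
    intro x hx hxZ z hz
    obtain ⟨g, hg⟩ := h2 x hx hxZ z hz
    rw [← hg, hfc]
  have e2 := Cfsg.Agent.Helper12.rmd43_asum Z A hZA f hfA lam hl ⟨z0, hz0, hlz0⟩
  have e3 := Cfsg.Agent.Helper12.rmd43_sum2 Z f (f z0) hfZ lam hlZ ⟨z0, hz0, hlz0⟩
  have E2 : (Module.finrank ℂ V : ℂ) - f z0 = (q : ℂ) * (q : ℂ) * (n : ℂ) := by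
    rw [← hf1, ← e3, ← e2]
    have : (∑ a : A, lam ((a : G)⁻¹) * f (a : G)) = (Nat.card A : ℂ) * (n : ℂ) := hn
    rw [this, hA, Nat.cast_mul]
  -- `Z` acts nontrivially
  have hrd : r ≠ Module.finrank ℂ V := by
    intro h
    exact hz01 (hfaith z0 (hr2 h z0 hz0))
  -- the case `r = 0`
  have h4 : r = 0 → 4 ∣ Module.finrank ℂ V := by
    intro hr0
    have hodd : Odd (Nat.card Z) := by
      rw [hZ, Nat.odd_iff]
      omega
    have ht0 : f t = 0 := Cfsg.Agent.Helper12.rmd43_inv ρ Z hodd t ht (hr3 hr0 t)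
    have hj : ∀ j : G, j ≠ 1 → j * j = 1 → f j = 0 := by
      intro j hj1 hj2
      obtain ⟨g, hg⟩ := hinv j hj1 hj2
      rw [← hfc g j, hg, ht0]
    have hab1 : a * b ≠ 1 := by
      intro h
      apply hab
      have : a * b = a * a := by rw [h, ha2]
      exact (mul_left_cancel this).symm
    have hab2 : a * b * (a * b) = 1 := by
      calc a * b * (a * b) = a * (b * a) * b := by group
        _ = a * (a * b) * b := by rw [hc]
        _ = (a * a) * (b * b) := by group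
        _ = 1 := by rw [ha2, hb2, one_mul]
    exact Cfsg.Agent.Helper67.rmd43_klein ρ a b ha2 hb2 hc (hj a ha ha2) (hj b hb hb2) (hj _ hab1 hab2)
  exact Cfsg.Agent.Helper67.rmd43_num q (Module.finrank ℂ V) r n (f z0) hq E1 E2 hrd h4

theorem rmd43_abs {G : Type*} [Group G] [Finite G] {V : Type*} [AddCommGroup V] [Module ℂ V]
    [FiniteDimensional ℂ V] (ρ : Representation ℂ G V) {K : Type*} [Field K] [Fintype K]
    (x : K → K → G)
    (hmul : ∀ u v u' v' : K, x u v * x u' v' = x (u + u') (v + v'))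
    (hinj : ∀ u v : K, x u v = 1 → u = 0 ∧ v = 0)
    (hZ : ∀ z : K, z ≠ 0 → ∃ g : G, ∀ v : K, g * x 0 v * g⁻¹ = x 0 (z * v))
    (hA : ∀ u v w : K, u ≠ 0 → ∃ g : G, g * x u v * g⁻¹ = x u (v + w))
    (t : G) (ht : ∀ v : K, t * x 0 v * t⁻¹ = x 0 (-v))
    (hinv : ∀ j : G, j ≠ 1 → j * j = 1 → ∃ g : G, g * j * g⁻¹ = t)
    (a b : G) (ha : a ≠ 1) (hb : b ≠ 1) (hab : a ≠ b) (ha2 : a * a = 1) (hb2 : b * b = 1)
    (hc : a * b = b * a) (hfaith : ∀ g : G, ρ g = 1 → g = 1)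
    (hq : Fintype.card K % 4 = 3) :
    Fintype.card K ^ 2 - Fintype.card K + 1 ≤ Module.finrank ℂ V := by
  obtain ⟨Z, A, hZc, hAc, hZA, hcomm, h1, h2, ht'⟩ := Cfsg.Agent.Helper67.rmd43_param x hmul hinj hZ hA t ht
  exact rmd43_subg ρ Z A (Fintype.card K) hZc hAc hZA hcomm h1 h2 t ht' hinv a b ha hb hab
    ha2 hb2 hc hfaith hq

end Cfsg.Agent.Helper6
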