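import Cfsg.Agent.Helper6.RMDAbs
import Cfsg.Agent.Helper6.ReeJ
import Cfsg.Agent.Helper64.MDBR
import Cfsg.Agent.Helper46.RMD43FAITH
import Cfsg.Agent.Helper66.RMD43KL2

/-!
# Minimal degree of the small Ree groups (S2343)
-/

set_option autoImplicit false

namespace Cfsg.Agent.Helper6

open Cfsg Cfsg.Lie Cfsg.Agent.Helper36 Cfsg.Agent.Helper17 Matrix

section rmdRee

variable {K : Type*} [Field K] [CharP K 3] [Fintype K] {m : ℕ}
  {σ : ↥(chevG2.group K) →* ↥(chevG2.group K)}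

/-- The elements `X(0,u,v)` of `G¹`. -/
noncomputable def rmdX (K : Type*) [Field K] [CharP K 3] [Fintype K] (m : ℕ) (u v : K) :
    ↥(twistedG2 K (3 ^ m)) :=
  ⟨wordGL (xAdd_of_mem (F := K) g2_mem) (reeWordU (3 ^ m) 0 u v),
    reeU_mem_G1 (xAdd_of_mem (F := K) g2_mem) 0 u v⟩

theorem rmdX_mul (hK : Fintype.card K = 3 ^ (2 * m + 1)) (hσ : ReeSig m σ) (u v u' v' : K) :
    rmdX K m u v * rmdX K m u' v' = rmdX K m (u + u') (v + v') := by
  apply Subtype.ext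
  have h := reeX_mul hK hσ (xAdd_of_mem (F := K) g2_mem) 0 u v 0 u' v'
  have e1 : (0 : K) + 0 = 0 := by ring
  have e2 : u + u' - 0 * frL K m 0 = u + u' := by ring
  have e3 : v + v' - 0 * u + 0 * 0 * frL K m 0 - 0 ^ 2 * frL K m 0 = v + v' := by ring
  rw [e1, e2, e3] at h
  exact h

theorem rmdX_eq_one {u v : K} (h : rmdX K m u v = 1) : u = 0 ∧ v = 0 := by
  have h1 : wordGL (xAdd_of_mem (F := K) g2_mem) (reeWordU (3 ^ m) 0 u v) = 1 :=
    congrArg Subtype.val h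
  exact (reeX_eq_one (xAdd_of_mem (F := K) g2_mem) h1).2

theorem rmdX_torus (hK : Fintype.card K = 3 ^ (2 * m + 1)) (hσ : ReeSig m σ) (z : K)
    (hz : z ≠ 0) :
    ∃ g : ↥(twistedG2 K (3 ^ m)), ∀ v : K, g * rmdX K m 0 v * g⁻¹ = rmdX K m 0 (z * v) := by
  refine ⟨⟨hGL (xAdd_of_mem (F := K) g2_mem) 7 (frT K m z) *
    hGL (xAdd_of_mem (F := K) g2_mem) 6 z, reeH_mem hK _ hz⟩, fun v => ?_⟩
  apply Subtype.ext
  have h := ree_h_conj hK hσ (xAdd_of_mem (F := K) g2_mem) hz rfl 0 0 v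
  rw [mul_zero, mul_zero] at h
  exact h

theorem rmdX_shift (hK : Fintype.card K = 3 ^ (2 * m + 1)) (hσ : ReeSig m σ) (u v w : K)
    (hu : u ≠ 0) :
    ∃ g : ↥(twistedG2 K (3 ^ m)), g * rmdX K m u v * g⁻¹ = rmdX K m u (v + w) := by
  refine ⟨⟨wordGL (xAdd_of_mem (F := K) g2_mem) (reeWordU (3 ^ m) (w / u) 0 0),
    reeU_mem_G1 _ _ _ _⟩, ?_⟩
  rw [mul_inv_eq_iff_eq_mul]
  apply Subtype.ext
  show wordGL (xAdd_of_mem (F := K) g2_mem) (reeWordU (3 ^ m) (w / u) 0 0) *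
      wordGL (xAdd_of_mem (F := K) g2_mem) (reeWordU (3 ^ m) 0 u v) =
    wordGL (xAdd_of_mem (F := K) g2_mem) (reeWordU (3 ^ m) 0 u (v + w)) *
      wordGL (xAdd_of_mem (F := K) g2_mem) (reeWordU (3 ^ m) (w / u) 0 0)
  rw [reeX_mul hK hσ, reeX_mul hK hσ]
  have e1 : w / u + 0 = 0 + w / u := by ring
  have e2 : 0 + u - w / u * frL K m 0 = u + 0 - 0 * frL K m (w / u) := by
    rw [map_zero]; ring
  have e3 : 0 + v - 0 * 0 + w / u * 0 * frL K m 0 - (w / u) ^ 2 * frL K m 0 =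
      v + w + 0 - w / u * u + 0 * (w / u) * frL K m (w / u) - 0 ^ 2 * frL K m (w / u) := by
    rw [map_zero]
    field_simp
    ring
  rw [e1, e2, e3]

theorem rmdX_inv (hK : Fintype.card K = 3 ^ (2 * m + 1)) (hσ : ReeSig m σ) (v : K) :
    reeA hK * rmdX K m 0 v * (reeA hK)⁻¹ = rmdX K m 0 (-v) := by
  apply Subtype.ext
  have h := ree_h_conj hK hσ (xAdd_of_mem (F := K) g2_mem)
    (neg_ne_zero.mpr (one_ne_zero (α := K))) rfl 0 0 v
  rw [mul_zero, mul_zero, neg_one_mul] at h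
  exact h

/-- Every irreducible complex representation of degree at least 2 of `²G₂(q)` has degree at
least `q² − q + 1`. -/
theorem ree_min_degree (hK : Fintype.card K = 3 ^ (2 * m + 1)) (hσ : ReeSig m σ) (hm : 1 ≤ m)
    (k : ℕ) (ρ : Representation ℂ ↥(twistedG2 K (3 ^ m)) (Fin k → ℂ)) (hirr : ρ.IsIrreducible)
    (hk : 2 ≤ k) : (3 ^ (2 * m + 1)) ^ 2 - 3 ^ (2 * m + 1) + 1 ≤ k := by
  have : Fact (Nat.Prime 2) := ⟨Nat.prime_two⟩
  have : IsSimpleGroup ↥(twistedG2 K (3 ^ m)) := ree_simple hK hσ hm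
  have hnt := Cfsg.Agent.Helper64.mdbr_nontrivial k hk ρ hirr
  have hfaith := Cfsg.Agent.Helper46.rmd43_faith ρ hnt
  obtain ⟨S⟩ : Nonempty (Sylow 2 ↥(twistedG2 K (3 ^ m))) := inferInstance
  obtain ⟨hS8, hSexp⟩ := ree_sylow_two hK hσ S
  obtain ⟨a, b, ha, hb, hab, ha2, hb2, hc⟩ :=
    Cfsg.Agent.Helper66.rmd43_kl2 (S : Subgroup ↥(twistedG2 K (3 ^ m))) hS8 hSexp
  have h := rmd43_abs ρ (rmdX K m) (rmdX_mul hK hσ) (fun u v h => rmdX_eq_one h)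
    (rmdX_torus hK hσ) (rmdX_shift hK hσ) (reeA hK) (rmdX_inv hK hσ)
    (ree_inv_conj hK hσ hm) a b ha hb hab ha2 hb2 hc hfaith
    (by rw [hK]; exact three_pow_mod_four m)
  rwa [hK, Module.finrank_fin_fun] at h

end rmdRee

end Cfsg.Agent.Helper6
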