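import Cfsg.Agent.Helper6.ReeU

/-!
# The small Ree groups: ingredients for the numbers of elements of each order (S2357)
-/

set_option autoImplicit false

namespace Cfsg.Agent.Helper6

open Cfsg Cfsg.Lie Cfsg.Agent.Helper36 Cfsg.Agent.Helper17 Matrix
open Cfsg.Agent.Helper39 Cfsg.Agent.Helper20 Cfsg.Agent.Helper53 Cfsg.Agent.Helper66
open Cfsg.Agent.Helper42 Cfsg.Agent.Helper28 Cfsg.Agent.Helper33 Cfsg.Agent.Helper83
open Cfsg.Agent.Helper31 Cfsg.Agent.Helper67 Cfsg.Agent.Helper46 Cfsg.Agent.Helper3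
open Cfsg.Agent.Helper80 Cfsg.Agent.Helper14 Cfsg.Agent.Helper34

theorem mem_normalizer_of_forall_conj_mem {G : Type*} [Group G] [Finite G] (D : Subgroup G)
    (y : G) (h : ∀ d ∈ D, y * d * y⁻¹ ∈ D) : y ∈ Subgroup.normalizer (D : Set G) := by
  have hle : D.map (MulAut.conj y).toMonoidHom ≤ D := by
    rintro x ⟨d, hd, rfl⟩
    exact h d hd
  have hcard : Nat.card ↥(D.map (MulAut.conj y).toMonoidHom) = Nat.card D :=
    Subgroup.card_map_of_injective (MulAut.conj y).injective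
  have heq := Subgroup.eq_of_le_of_card_ge hle (by rw [hcard])
  rw [Subgroup.mem_normalizer_iff]
  intro x
  constructor
  · exact h x
  · intro hx
    rw [← heq] at hx
    obtain ⟨d, hd, hdx⟩ := hx
    have : d = x := by
      have e : y * d * y⁻¹ = y * x * y⁻¹ := hdx
      have e2 : d = y⁻¹ * (y * d * y⁻¹) * y := by group
      rw [e2, e]; group
    rw [← this]; exact hd

section reeV

variable {K : Type*} [Field K] [CharP K 3] [Fintype K] {m : ℕ}
  {σ : ↥(chevG2.group K) →* ↥(chevG2.group K)}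

/-- Conjugating a non-trivial element of `U¹` into `U¹` forces the conjugator into `B¹`. -/
theorem reeUG_conj_mem_B (hK : Fintype.card K = 3 ^ (2 * m + 1)) (hσ : ReeSig m σ)
    (y s : ↥(twistedG2 K (3 ^ m))) (hs : s ∈ reeUG K m) (hs1 : s ≠ 1)
    (h : y * s * y⁻¹ ∈ reeUG K m) : y ∈ reeBG K m := by
  by_contra hy
  apply hs1
  have hyB : (y : GL chevG2.Idx K) ∉ chevG2.borelSubgroup K := fun h => hy ((mem_reeBG y).mpr h)
  exact Subtype.ext (ree_U_TI hK hσ y.2 hyB ((mem_reeUG s).mp hs) ((mem_reeUG _).mp h))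

omit [CharP K 3] [Fintype K] in
theorem reeBG_le_normalizer_U :
    reeBG K m ≤ Subgroup.normalizer ((reeUG K m : Subgroup ↥(twistedG2 K (3 ^ m))) :
      Set ↥(twistedG2 K (3 ^ m))) := by
  intro y hy
  rw [Subgroup.mem_normalizer_iff]
  intro x
  rw [mem_reeUG, mem_reeUG]
  exact (g2_B_conj_U ((mem_reeBG y).mp hy)).symm

/-- `N(U¹) = B¹`. -/
theorem reeUG_normalizer (hK : Fintype.card K = 3 ^ (2 * m + 1)) (hσ : ReeSig m σ) :
    Subgroup.normalizer ((reeUG K m : Subgroup ↥(twistedG2 K (3 ^ m))) :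
      Set ↥(twistedG2 K (3 ^ m))) = reeBG K m := by
  apply le_antisymm _ reeBG_le_normalizer_U
  intro y hy
  have hX := xAdd_of_mem (F := K) g2_mem
  have hs : (⟨wordGL hX (reeWordU (3 ^ m) (0 : K) 1 0), reeU_mem_G1 _ _ _ _⟩ :
      ↥(twistedG2 K (3 ^ m))) ∈ reeUG K m := (mem_reeUG _).mpr (reeU_mem_U _ _ _ _)
  refine reeUG_conj_mem_B hK hσ y _ hs ?_ ((Subgroup.mem_normalizer_iff.mp hy _).mp hs)
  intro h
  have h1 := congrArg Subtype.val h
  exact one_ne_zero (reeX_eq_one hX h1).2.1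

/-- The number of elements of order `3` of `U¹`. -/
theorem reeUG_order_three_card (hK : Fintype.card K = 3 ^ (2 * m + 1)) (hσ : ReeSig m σ) :
    Nat.card {g : ↥(twistedG2 K (3 ^ m)) // g ∈ reeUG K m ∧ orderOf g = 3} =
      (3 ^ (2 * m + 1)) ^ 2 - 1 := by
  rw [← ree_U_order_three_card hK hσ]
  apply Nat.card_congr
  refine ⟨fun g => ⟨⟨(g.1 : GL chevG2.Idx K), Subgroup.mem_inf.mpr
      ⟨(mem_reeUG g.1).mp g.2.1, g.1.2⟩⟩, ?_⟩,
    fun u => ⟨⟨(u.1 : GL chevG2.Idx K), u.1.2.2⟩, (mem_reeUG _).mpr u.1.2.1, ?_⟩, ?_, ?_⟩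
  · rw [← Subgroup.orderOf_coe]
    have := g.2.2
    rw [← Subgroup.orderOf_coe] at this
    exact this
  · rw [← Subgroup.orderOf_coe]
    have := u.2
    rw [← Subgroup.orderOf_coe] at this
    exact this
  · intro g; rfl
  · intro u; rfl

/-- `X(t,u,v)` has order `9` iff `t ≠ 0`. -/
theorem reeX_order_nine (hK : Fintype.card K = 3 ^ (2 * m + 1)) (hσ : ReeSig m σ)
    (hX : XAdd chevG2 K) (t u v : K) :
    orderOf (wordGL hX (reeWordU (3 ^ m) t u v)) = 9 ↔ t ≠ 0 := by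
  have : Fact (Nat.Prime 3) := ⟨Nat.prime_three⟩
  have h9 : wordGL hX (reeWordU (3 ^ m) t u v) ^ 9 = 1 := by
    rw [show (9 : ℕ) = 3 * 3 from rfl, pow_mul, reeX_cube hK hσ hX, reeX_cube hK hσ hX,
      ← reeX_zero hK hσ hX]
    exact reeX_congr hX rfl rfl (by simp)
  constructor
  · intro ho ht
    subst ht
    have h3 : wordGL hX (reeWordU (3 ^ m) (0 : K) u v) ^ 3 = 1 := by
      rw [reeX_cube hK hσ hX, ← reeX_zero hK hσ hX]
      exact reeX_congr hX rfl rfl (by simp)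
    have := orderOf_dvd_of_pow_eq_one h3
    rw [ho] at this
    omega
  · intro ht
    refine orderOf_eq_prime_pow (p := 3) (n := 1) ?_ h9
    intro h
    rw [pow_one, reeX_cube hK hσ hX] at h
    have h2 := (reeX_eq_one hX h).2.2
    rw [neg_eq_zero] at h2
    rcases mul_eq_zero.mp h2 with h3 | h3
    · exact ht (pow_eq_zero_iff (by norm_num) |>.mp h3)
    · exact ht ((map_eq_zero _).mp h3)

/-- The number of elements of order `9` of `U¹`. -/
theorem reeUG_order_nine_card (hK : Fintype.card K = 3 ^ (2 * m + 1)) (hσ : ReeSig m σ) :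
    Nat.card {g : ↥(twistedG2 K (3 ^ m)) // g ∈ reeUG K m ∧ orderOf g = 9} =
      (3 ^ (2 * m + 1) - 1) * (3 ^ (2 * m + 1)) ^ 2 := by
  classical
  have hX := xAdd_of_mem (F := K) g2_mem
  let φ : {t : K // ¬ (t = 0)} × K × K →
      {g : ↥(twistedG2 K (3 ^ m)) // g ∈ reeUG K m ∧ orderOf g = 9} := fun p =>
    ⟨⟨wordGL hX (reeWordU (3 ^ m) p.1.1 p.2.1 p.2.2), reeU_mem_G1 _ _ _ _⟩,
      (mem_reeUG _).mpr (reeU_mem_U _ _ _ _), by
      rw [← Subgroup.orderOf_coe]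
      exact (reeX_order_nine hK hσ hX _ _ _).mpr p.1.2⟩
  have hφ : Function.Bijective φ := by
    constructor
    · intro p p' h
      have h' := congrArg (fun x => ((x.1 : ↥(twistedG2 K (3 ^ m))) : GL chevG2.Idx K)) h
      obtain ⟨h0, h1, h2⟩ := reeU_inj hX h'
      exact Prod.ext (Subtype.ext h0) (Prod.ext h1 h2)
    · rintro ⟨g, hg, ho⟩
      obtain ⟨t, u, v, e⟩ := (ree_U_iff hK hσ hX (g : GL chevG2.Idx K)).mp
        (Subgroup.mem_inf.mpr ⟨(mem_reeUG g).mp hg, g.2⟩)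
      rw [← Subgroup.orderOf_coe, e] at ho
      have ht := (reeX_order_nine hK hσ hX t u v).mp ho
      exact ⟨(⟨t, ht⟩, u, v), Subtype.ext (Subtype.ext e.symm)⟩
  rw [← Nat.card_congr (Equiv.ofBijective φ hφ), Nat.card_eq_fintype_card, Fintype.card_prod,
    Fintype.card_prod, Fintype.card_subtype_compl, hK, Fintype.card_subtype_eq, pow_two]

end reeV

end Cfsg.Agent.Helper6
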