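import Cfsg.Agent.Helper6.ReeV
import Cfsg.Agent.Helper20.Ree2357ARI357
import Cfsg.Agent.Helper20.Ree2357UNIC
import Cfsg.Agent.Helper28.Ree2357M2I
import Cfsg.Agent.Helper28.Ree2357ORD3C
import Cfsg.Agent.Helper29.Ree2357CYCT
import Cfsg.Agent.Helper29.Ree2357ORD6

/-!
# The small Ree groups: the numbers of elements of each order (S2357)
-/

set_option autoImplicit false

namespace Cfsg.Agent.Helper6

open Cfsg Cfsg.Lie Cfsg.Agent.Helper36 Cfsg.Agent.Helper17 Matrix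
open Cfsg.Agent.Helper39 Cfsg.Agent.Helper20 Cfsg.Agent.Helper53 Cfsg.Agent.Helper66
open Cfsg.Agent.Helper42 Cfsg.Agent.Helper28 Cfsg.Agent.Helper33 Cfsg.Agent.Helper83
open Cfsg.Agent.Helper31 Cfsg.Agent.Helper67 Cfsg.Agent.Helper46 Cfsg.Agent.Helper3
open Cfsg.Agent.Helper80 Cfsg.Agent.Helper14 Cfsg.Agent.Helper34
open Cfsg.Agent.Helper29

section reeW

variable {K : Type*} [Field K] [CharP K 3] [Fintype K] {m : ℕ}
  {σ : ↥(chevG2.group K) →* ↥(chevG2.group K)}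

/-- Involutions. -/
theorem ree_count_two (hK : Fintype.card K = 3 ^ (2 * m + 1)) (hσ : ReeSig m σ) (hm : 1 ≤ m) :
    Nat.card {g : ↥(twistedG2 K (3 ^ m)) // orderOf g = 2} =
      (3 ^ (2 * m + 1)) ^ 2 * ((3 ^ (2 * m + 1)) ^ 2 - 3 ^ (2 * m + 1) + 1) := by
  have : Fact (Nat.Prime 2) := ⟨Nat.prime_two⟩
  rw [← ree_inv_count hK hσ hm]
  apply Nat.card_congr
  refine Equiv.subtypeEquivRight (fun g => ?_)
  rw [orderOf_eq_prime_iff, pow_two]
  exact and_comm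

/-- Elements of order `3`. -/
theorem ree_count_three (hK : Fintype.card K = 3 ^ (2 * m + 1)) (hσ : ReeSig m σ)
    (hm : 1 ≤ m) :
    Nat.card {g : ↥(twistedG2 K (3 ^ m)) // orderOf g = 3} =
      ((3 ^ (2 * m + 1)) ^ 2 - 1) * ((3 ^ (2 * m + 1)) ^ 3 + 1) := by
  have h := card_orderOf_mul_card_normalizer (reeUG K m) 3 ?_ ?_
  · rw [reeUG_normalizer hK hσ, reeBG_card hK hσ, ree_card hK hσ,
      reeUG_order_three_card hK hσ] at h
    exact (ree_order_arith _ (q_ge_27 m hm)).2.2.2.2.1 _ h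
  · intro g hg
    exact ree_three_conj_U hK hσ g 1 (by
      have h := pow_orderOf_eq_one g
      rw [hg] at h
      rw [pow_one]; exact h)
  · intro g hgU hg y hy
    rw [reeUG_normalizer hK hσ]
    refine reeUG_conj_mem_B hK hσ y g hgU ?_ hy
    rintro rfl
    rw [orderOf_one] at hg
    omega

/-- Elements of order `9`. -/
theorem ree_count_nine (hK : Fintype.card K = 3 ^ (2 * m + 1)) (hσ : ReeSig m σ)
    (hm : 1 ≤ m) :
    Nat.card {g : ↥(twistedG2 K (3 ^ m)) // orderOf g = 9} =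
      (3 ^ (2 * m + 1)) ^ 2 * (3 ^ (2 * m + 1) - 1) * ((3 ^ (2 * m + 1)) ^ 3 + 1) := by
  have h := card_orderOf_mul_card_normalizer (reeUG K m) 9 ?_ ?_
  · rw [reeUG_normalizer hK hσ, reeBG_card hK hσ, ree_card hK hσ,
      reeUG_order_nine_card hK hσ] at h
    exact (ree_order_arith _ (q_ge_27 m hm)).2.2.2.2.2.1 _ h
  · intro g hg
    exact ree_three_conj_U hK hσ g 2 (by
      have h := pow_orderOf_eq_one g
      rw [hg] at h
      exact h)
  · intro g hgU hg y hy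
    rw [reeUG_normalizer hK hσ]
    refine reeUG_conj_mem_B hK hσ y g hgU ?_ hy
    rintro rfl
    rw [orderOf_one] at hg
    omega

/-- Elements of order `6`. -/
theorem ree_count_six (hK : Fintype.card K = 3 ^ (2 * m + 1)) (hσ : ReeSig m σ)
    (hm : 1 ≤ m) :
    Nat.card {g : ↥(twistedG2 K (3 ^ m)) // orderOf g = 6} =
      (3 ^ (2 * m + 1)) ^ 2 * (3 ^ (2 * m + 1) - 1) * ((3 ^ (2 * m + 1)) ^ 3 + 1) := by
  obtain ⟨e⟩ := reeA_cent hK hσ
  rw [card_orderOf_six (reeA hK) (reeA_ne_one hK) (reeA_sq hK) (ree_inv_conj hK hσ hm),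
    ree_inv_count hK hσ hm, card_orderOf_three_centralizer (reeA hK) e, hK]
  exact (ree_order_arith _ (q_ge_27 m hm)).2.2.2.2.2.2

/-- Elements of order `i ∣ q - 1`, `i > 2`. -/
theorem ree_count_split (hK : Fintype.card K = 3 ^ (2 * m + 1)) (hσ : ReeSig m σ)
    (hm : 1 ≤ m) (i : ℕ) (hi2 : 2 < i) (hi : i ∣ 3 ^ (2 * m + 1) - 1) :
    2 * Nat.card {g : ↥(twistedG2 K (3 ^ m)) // orderOf g = i} =
      Nat.totient i * (3 ^ (2 * m + 1)) ^ 3 * ((3 ^ (2 * m + 1)) ^ 3 + 1) := by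
  have h8 := three_pow_mod_eight m
  have hq := q_ge_27 m hm
  have h := card_orderOf_mul_card_normalizer (reeD K m) i ?_ ?_
  · rw [reeD_normalizer_card hK hσ hm, ree_card hK hσ,
      card_orderOf_eq_totient_of_isCyclic (reeD K m) (reeD_cyclic hK hσ)
        (by rw [reeD_card hK hσ]; exact hi)] at h
    exact (ree_order_arith _ hq).1 _ _ h
  · intro g hg
    rcases Nat.eq_two_pow_or_exists_odd_prime_and_dvd i with ⟨k, hk⟩ | ⟨s, hsp, hsd, hso⟩
    · exfalso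
      have hk2 : 2 ≤ k := by
        by_contra hk2
        have : k = 0 ∨ k = 1 := by omega
        rcases this with rfl | rfl <;> simp at hk <;> omega
      have h4 : 4 ∣ i := by
        rw [hk]
        exact pow_dvd_pow 2 hk2
      have := h4.trans hi
      omega
    · have hs2 : s ≠ 2 := by
        rintro rfl
        exact absurd hso (by decide)
      exact ree_qm1_conj_D hK hσ g hsp hs2 (hsd.trans hi) (hg ▸ hsd)
  · intro g hgD hg y hy
    apply mem_normalizer_of_forall_conj_mem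
    intro d hd
    refine reeD_selfcent hK hσ _ hy ?_ _ ?_
    · intro h2
      have h3 : g * g = 1 := by
        have e : g * g = y⁻¹ * (y * g * y⁻¹ * (y * g * y⁻¹)) * y := by group
        rw [e, h2]; group
      have := orderOf_dvd_of_pow_eq_one (show g ^ 2 = 1 by rw [pow_two]; exact h3)
      rw [hg] at this
      have := Nat.le_of_dvd (by norm_num) this
      omega
    · have hc := reeD_comm hK hσ d hd g hgD
      calc y * d * y⁻¹ * (y * g * y⁻¹) = y * (d * g) * y⁻¹ := by group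
        _ = y * (g * d) * y⁻¹ := by rw [hc]
        _ = y * g * y⁻¹ * (y * d * y⁻¹) := by group

/-- Elements of order `i` or `2i`, `1 < i ∣ (q + 1)/4`. -/
theorem ree_count_quarter (hK : Fintype.card K = 3 ^ (2 * m + 1)) (hσ : ReeSig m σ)
    (hm : 1 ≤ m) (i : ℕ) (hi1 : 1 < i) (hi : i ∣ (3 ^ (2 * m + 1) + 1) / 4) :
    6 * Nat.card {g : ↥(twistedG2 K (3 ^ m)) // orderOf g = i} =
        Nat.totient i * (3 ^ (2 * m + 1)) ^ 3 * (3 ^ (2 * m + 1) - 1) *
          ((3 ^ (2 * m + 1)) ^ 2 - 3 ^ (2 * m + 1) + 1) ∧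
      2 * Nat.card {g : ↥(twistedG2 K (3 ^ m)) // orderOf g = 2 * i} =
        Nat.totient i * (3 ^ (2 * m + 1)) ^ 3 * (3 ^ (2 * m + 1) - 1) *
          ((3 ^ (2 * m + 1)) ^ 2 - 3 ^ (2 * m + 1) + 1) := by
  obtain ⟨M, hM⟩ := ree_torus_exists hK hσ hm
  obtain ⟨n, hn, hn7, hq⟩ := ree_quarter m hm
  have hq27 := q_ge_27 m hm
  have hn' : (3 ^ (2 * m + 1) + 1) / 4 = n := by omega
  rw [hn'] at hi
  have hiodd : Odd i := Odd.of_dvd_nat hn hi
  obtain ⟨c1, c2⟩ := card_orderOf_torus M hM.comm hn (by rw [hM.card, hq]) (ree_two_elem hK hσ)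
    hM.count hi1 hi
  -- an odd prime dividing `i`
  have hs : (i.minFac).Prime := Nat.minFac_prime (by omega)
  have hsi : i.minFac ∣ i := Nat.minFac_dvd i
  have hs2 : i.minFac ≠ 2 := by
    intro h
    rw [h] at hsi
    have := Nat.odd_iff.mp hiodd
    omega
  have hsq : i.minFac ∣ 3 ^ (2 * m + 1) + 1 := by
    rw [hq]; exact Dvd.dvd.mul_left (hsi.trans hi) 4
  have hNM : ∀ (j : ℕ), 2 < j → ∀ g ∈ M, orderOf g = j →
      ∀ y : ↥(twistedG2 K (3 ^ m)), y * g * y⁻¹ ∈ M →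
        y ∈ Subgroup.normalizer (M : Set ↥(twistedG2 K (3 ^ m))) := by
    intro j hj g hgM hg y hy
    refine (hM.normalizer hσ hm).2 g hgM ?_ y hy
    intro h3
    have := orderOf_dvd_of_pow_eq_one (show g ^ 2 = 1 by rw [pow_two]; exact h3)
    rw [hg] at this
    have := Nat.le_of_dvd (by norm_num) this
    omega
  have hi3 : 2 < i := by
    rcases Nat.lt_or_ge 2 i with h | h
    · exact h
    · have : i = 2 := by omega
      rw [this] at hiodd
      exact absurd hiodd (by decide)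
  constructor
  · have h := card_orderOf_mul_card_normalizer M i ?_ (hNM i hi3)
    · rw [hM.normalizer_card hσ hm, ree_card hK hσ, c1] at h
      exact (ree_order_arith _ hq27).2.1 _ _ h
    · intro g hg
      exact hM.conj g _ hs hs2 hsq (hg ▸ hsi)
  · have h := card_orderOf_mul_card_normalizer M (2 * i) ?_ (hNM (2 * i) (by omega))
    · rw [hM.normalizer_card hσ hm, ree_card hK hσ, c2] at h
      exact (ree_order_arith _ hq27).2.2.1 _ _ h
    · intro g hg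
      exact hM.conj g _ hs hs2 hsq (hg ▸ (hsi.trans (Dvd.intro_left 2 rfl)))

/-- Elements of order `i > 1` dividing the order of an exotic torus. -/
theorem ree_count_exotic (hK : Fintype.card K = 3 ^ (2 * m + 1)) (hσ : ReeSig m σ)
    (hm : 1 ≤ m) (T : Subgroup ↥(twistedG2 K (3 ^ m))) (hT : IsCyclic T)
    (hTI : ∀ y ∈ T, y ≠ 1 → ∀ c : ↥(twistedG2 K (3 ^ m)), c * y = y * c → c ∈ T)
    (hTN : Nat.card (Subgroup.normalizer (T : Set ↥(twistedG2 K (3 ^ m)))) = 6 * Nat.card T)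
    (t' : ℕ) (htt : Nat.card T * t' = (3 ^ (2 * m + 1)) ^ 2 - 3 ^ (2 * m + 1) + 1)
    (i : ℕ) (hi1 : 1 < i) (hi : i ∣ Nat.card T) :
    6 * Nat.card {g : ↥(twistedG2 K (3 ^ m)) // orderOf g = i} =
      Nat.totient i * (3 ^ (2 * m + 1)) ^ 3 * ((3 ^ (2 * m + 1)) ^ 2 - 1) * t' := by
  have h := card_orderOf_mul_card_normalizer T i ?_ ?_
  · rw [hTN, ree_card hK hσ, card_orderOf_eq_totient_of_isCyclic T hT hi] at h
    exact (ree_order_arith _ (q_ge_27 m hm)).2.2.2.1 _ _ _ _ htt h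
  · intro g hg
    have hp : (i.minFac).Prime := Nat.minFac_prime (by omega)
    have hpi : i.minFac ∣ i := Nat.minFac_dvd i
    have : Fact (i.minFac).Prime := ⟨hp⟩
    obtain ⟨k, hk1, hkp⟩ := exists_prime_order_pow g hp (hg ▸ hpi)
    have hfac := factorization_eq_of_TI T hTI hp (hpi.trans hi)
    obtain ⟨c, hc⟩ := exists_conj_mem_of_factorization_eq T hfac (g ^ k) 1 (by simpa using hkp)
    refine ⟨c, hTI _ hc ?_ _ (conj_pow_comm c g k)⟩
    intro h1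
    apply hk1
    have e : g ^ k = c⁻¹ * (c * g ^ k * c⁻¹) * c := by group
    rw [e, h1]; group
  · intro g hgT hg y hy
    apply mem_normalizer_of_forall_conj_mem
    intro d hd
    refine hTI _ hy ?_ _ ?_
    · intro h1
      have h2 : g = 1 := by
        have e : g = y⁻¹ * (y * g * y⁻¹) * y := by group
        rw [e, h1]; group
      rw [h2, orderOf_one] at hg
      omega
    · have hc := cyclic_subgroup_comm T hT d hd g hgT
      calc y * d * y⁻¹ * (y * g * y⁻¹) = y * (d * g) * y⁻¹ := by group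
        _ = y * (g * d) * y⁻¹ := by rw [hc]
        _ = y * g * y⁻¹ * (y * d * y⁻¹) := by group

/-- **S2357: the numbers of elements of each order.** -/
theorem ree_order_counts (hK : Fintype.card K = 3 ^ (2 * m + 1)) (hσ : ReeSig m σ)
    (hm : 1 ≤ m) :
    Nat.card {g : ↥(twistedG2 K (3 ^ m)) // orderOf g = 2} =
      (3 ^ (2 * m + 1)) ^ 2 * ((3 ^ (2 * m + 1)) ^ 2 - 3 ^ (2 * m + 1) + 1) ∧
    Nat.card {g : ↥(twistedG2 K (3 ^ m)) // orderOf g = 3} =
      ((3 ^ (2 * m + 1)) ^ 2 - 1) * ((3 ^ (2 * m + 1)) ^ 3 + 1) ∧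
    Nat.card {g : ↥(twistedG2 K (3 ^ m)) // orderOf g = 6} =
      (3 ^ (2 * m + 1)) ^ 2 * (3 ^ (2 * m + 1) - 1) * ((3 ^ (2 * m + 1)) ^ 3 + 1) ∧
    Nat.card {g : ↥(twistedG2 K (3 ^ m)) // orderOf g = 9} =
      (3 ^ (2 * m + 1)) ^ 2 * (3 ^ (2 * m + 1) - 1) * ((3 ^ (2 * m + 1)) ^ 3 + 1) ∧
    (∀ i : ℕ, 2 < i → i ∣ 3 ^ (2 * m + 1) - 1 →
      2 * Nat.card {g : ↥(twistedG2 K (3 ^ m)) // orderOf g = i} =
        Nat.totient i * (3 ^ (2 * m + 1)) ^ 3 * ((3 ^ (2 * m + 1)) ^ 3 + 1)) ∧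
    (∀ i : ℕ, 1 < i → i ∣ (3 ^ (2 * m + 1) + 1) / 4 →
      6 * Nat.card {g : ↥(twistedG2 K (3 ^ m)) // orderOf g = i} =
          Nat.totient i * (3 ^ (2 * m + 1)) ^ 3 * (3 ^ (2 * m + 1) - 1) *
            ((3 ^ (2 * m + 1)) ^ 2 - 3 ^ (2 * m + 1) + 1) ∧
        2 * Nat.card {g : ↥(twistedG2 K (3 ^ m)) // orderOf g = 2 * i} =
          Nat.totient i * (3 ^ (2 * m + 1)) ^ 3 * (3 ^ (2 * m + 1) - 1) *
            ((3 ^ (2 * m + 1)) ^ 2 - 3 ^ (2 * m + 1) + 1)) ∧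
    (∀ i : ℕ, 1 < i → i ∣ 3 ^ (2 * m + 1) - 3 ^ (m + 1) + 1 →
      6 * Nat.card {g : ↥(twistedG2 K (3 ^ m)) // orderOf g = i} =
        Nat.totient i * (3 ^ (2 * m + 1)) ^ 3 * ((3 ^ (2 * m + 1)) ^ 2 - 1) *
          (3 ^ (2 * m + 1) + 3 ^ (m + 1) + 1)) ∧
    (∀ i : ℕ, 1 < i → i ∣ 3 ^ (2 * m + 1) + 3 ^ (m + 1) + 1 →
      6 * Nat.card {g : ↥(twistedG2 K (3 ^ m)) // orderOf g = i} =
        Nat.totient i * (3 ^ (2 * m + 1)) ^ 3 * ((3 ^ (2 * m + 1)) ^ 2 - 1) *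
          (3 ^ (2 * m + 1) - 3 ^ (m + 1) + 1)) := by
  obtain ⟨⟨Tp, hTpc, hTpI, hTpn, hTpN⟩, ⟨Tm, hTmc, hTmI, hTmn, hTmN⟩, -⟩ :=
    ree_exotic_tori hK hσ hm
  refine ⟨ree_count_two hK hσ hm, ree_count_three hK hσ hm, ree_count_six hK hσ hm,
    ree_count_nine hK hσ hm, fun i hi2 hi => ree_count_split hK hσ hm i hi2 hi,
    fun i hi1 hi => ree_count_quarter hK hσ hm i hi1 hi, ?_, ?_⟩
  · intro i hi1 hi
    exact ree_count_exotic hK hσ hm Tm hTmc hTmI (by rw [hTmN, hTmn]) _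
      (by rw [hTmn]; exact ree_torus_prod m) i hi1 (by rw [hTmn]; exact hi)
  · intro i hi1 hi
    exact ree_count_exotic hK hσ hm Tp hTpc hTpI (by rw [hTpN, hTpn]) _
      (by rw [hTpn, mul_comm]; exact ree_torus_prod m) i hi1 (by rw [hTpn]; exact hi)

end reeW

end Cfsg.Agent.Helper6
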