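import Cfsg.Agent.Helper6.ReeU
import Cfsg.Agent.Helper73.Ree2361GC
import Cfsg.Agent.Helper73.Ree2361TIN
import Cfsg.Agent.Helper19.Ree2361SOLV

/-!
# The small Ree groups: solvable subgroups (S2361)
-/

set_option autoImplicit false

namespace Cfsg.Agent.Helper6

open Cfsg Cfsg.Lie Cfsg.Agent.Helper36 Cfsg.Agent.Helper17 Matrix
open Cfsg.Agent.Helper39 Cfsg.Agent.Helper20 Cfsg.Agent.Helper53 Cfsg.Agent.Helper66
open Cfsg.Agent.Helper42 Cfsg.Agent.Helper28 Cfsg.Agent.Helper33 Cfsg.Agent.Helper83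
open Cfsg.Agent.Helper31 Cfsg.Agent.Helper67 Cfsg.Agent.Helper46 Cfsg.Agent.Helper3
open Cfsg.Agent.Helper80 Cfsg.Agent.Helper14 Cfsg.Agent.Helper34
open Cfsg.Agent.Helper73 Cfsg.Agent.Helper19

theorem map_conj_le_normalizer {G : Type*} [Group G] (S Q : Subgroup G) (c : G)
    (h : S ≤ Subgroup.normalizer (Q : Set G)) :
    S.map (MulAut.conj c).toMonoidHom ≤
      Subgroup.normalizer ((Q.map (MulAut.conj c).toMonoidHom : Subgroup G) : Set G) := by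
  rw [← Subgroup.map_equiv_normalizer_eq Q (MulAut.conj c)]
  exact Subgroup.map_mono h

theorem mem_map_conj {G : Type*} [Group G] (Q : Subgroup G) (c x : G) (hx : x ∈ Q) :
    c * x * c⁻¹ ∈ Q.map (MulAut.conj c).toMonoidHom :=
  ⟨x, hx, by simp [MulAut.conj_apply]⟩

theorem map_conj_comm {G : Type*} [Group G] (Q : Subgroup G) (c : G)
    (h : ∀ x ∈ Q, ∀ y ∈ Q, x * y = y * x) :
    ∀ x ∈ Q.map (MulAut.conj c).toMonoidHom, ∀ y ∈ Q.map (MulAut.conj c).toMonoidHom,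
      x * y = y * x := by
  rintro _ ⟨x, hx, rfl⟩ _ ⟨y, hy, rfl⟩
  rw [← map_mul, ← map_mul, h x hx y hy]

theorem map_conj_card {G : Type*} [Group G] (Q : Subgroup G) (c : G) :
    Nat.card ↥(Q.map (MulAut.conj c).toMonoidHom) = Nat.card Q :=
  Subgroup.card_map_of_injective (MulAut.conj c).injective

/-- A group of exponent `2` is commutative. -/
theorem comm_of_sq_eq_one {G : Type*} [Group G] (Q : Subgroup G) (h : ∀ x ∈ Q, x * x = 1) :
    ∀ x ∈ Q, ∀ y ∈ Q, x * y = y * x := by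
  intro x hx y hy
  have h1 := h (x * y) (mul_mem hx hy)
  have h2 := h x hx
  have h3 := h y hy
  calc x * y = x * (x * y * (x * y)) * y := by rw [h1, mul_one]
    _ = (x * x) * y * x * (y * y) := by group
    _ = y * x := by rw [h2, h3, one_mul, mul_one]

section reeX

variable {K : Type*} [Field K] [CharP K 3] [Fintype K] {m : ℕ}
  {σ : ↥(chevG2.group K) →* ↥(chevG2.group K)}

/-- The conclusion of S2361. -/
def ReeGood (K : Type*) [Field K] (m : ℕ) (S : Subgroup ↥(twistedG2 K (3 ^ m))) : Prop :=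
  ∃ A : Subgroup ↥(twistedG2 K (3 ^ m)),
    S ≤ Subgroup.normalizer (A : Set ↥(twistedG2 K (3 ^ m))) ∧
      ((∃ P : Sylow 2 ↥(twistedG2 K (3 ^ m)), A = P) ∨
       (∃ P : Sylow 3 ↥(twistedG2 K (3 ^ m)), A = P) ∨
       (IsCyclic A ∧ (Nat.card A = (3 ^ (2 * m + 1) - 1) / 2 ∨
          Nat.card A = (3 ^ (2 * m + 1) + 1) / 4 ∨
          Nat.card A = 3 ^ (2 * m + 1) - 3 ^ (m + 1) + 1 ∨
          Nat.card A = 3 ^ (2 * m + 1) + 3 ^ (m + 1) + 1)))

omit [CharP K 3] in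
theorem reeGood_conj (S : Subgroup ↥(twistedG2 K (3 ^ m))) (c : ↥(twistedG2 K (3 ^ m)))
    (h : ReeGood K m (S.map (MulAut.conj c).toMonoidHom)) : ReeGood K m S := by
  obtain ⟨A, hA, hgood⟩ := h
  obtain ⟨h1, h2, h3, h4⟩ := normalizer_conj_transfer S A c hA
  refine ⟨A.map (MulAut.conj c⁻¹).toMonoidHom, h1, ?_⟩
  rcases hgood with ⟨P, hP⟩ | ⟨P, hP⟩ | ⟨hc, hcard⟩
  · have : Fact (Nat.Prime 2) := ⟨Nat.prime_two⟩
    exact Or.inl (h4 2 P hP)
  · have : Fact (Nat.Prime 3) := ⟨Nat.prime_three⟩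
    exact Or.inr (Or.inl (h4 3 P hP))
  · exact Or.inr (Or.inr ⟨h3 hc, by rw [h2]; exact hcard⟩)

/-- The torus of a given element. -/
theorem ree_torus_of (hK : Fintype.card K = 3 ^ (2 * m + 1)) (hσ : ReeSig m σ) (hm : 1 ≤ m)
    {s : ℕ} (hs : s.Prime) (hs2 : s ≠ 2) (hsq : s ∣ 3 ^ (2 * m + 1) + 1)
    (y : ↥(twistedG2 K (3 ^ m))) (hy1 : y ≠ 1) (hys : y ^ s = 1)
    (hya : y * reeA hK = reeA hK * y) :
    ReeTorus hK (Subgroup.centralizer ({y} : Set ↥(twistedG2 K (3 ^ m)))) := by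
  obtain ⟨hc, hcomm, hMa⟩ := reeA_torus hK hσ hm hs hs2 hsq y hy1 hys hya
  refine ⟨hc, ?_, reeA_torus_selfcent hK hσ hm hs hs2 hsq y hy1 hys hya,
    fun d hd => reeA_torus_count hK hσ hm hs hs2 hsq y hy1 hys hya hd, ?_,
    fun g s' hsp hs2' hsd hsg => ree_qp1_conj_M hK hσ hm hs hs2 hsq y hy1 hys hya g hsp hs2' hsd hsg⟩
  · intro x hx z hz
    exact hcomm x z (Subgroup.mem_centralizer_singleton_iff.mp hx)
      (Subgroup.mem_centralizer_singleton_iff.mp hz)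
  · rw [Subgroup.mem_centralizer_singleton_iff]
    exact hya.symm

/-- The cyclic subgroup of order `(q + 1)/4` of a torus, with the same normaliser. -/
theorem ReeTorus.odd_part {hK : Fintype.card K = 3 ^ (2 * m + 1)}
    {M : Subgroup ↥(twistedG2 K (3 ^ m))} (hM : ReeTorus hK M) (hm : 1 ≤ m) :
    ∃ O : Subgroup ↥(twistedG2 K (3 ^ m)), IsCyclic O ∧
      Nat.card O = (3 ^ (2 * m + 1) + 1) / 4 ∧
      Subgroup.normalizer (O : Set ↥(twistedG2 K (3 ^ m))) =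
        Subgroup.normalizer (M : Set ↥(twistedG2 K (3 ^ m))) := by
  obtain ⟨n, hn, hn7, hq⟩ := ree_quarter m hm
  obtain ⟨O, hOM, hOc, hOn⟩ := exists_cyclic_odd_part M hM.comm hn (by rw [hM.card, hq]) hM.count
  have hn' : (3 ^ (2 * m + 1) + 1) / 4 = n := by omega
  obtain ⟨h1, -⟩ := normalizer_family M O hM.comm hM.selfcent hOM
    (subgroup_ne_bot_of_card _ (by rw [hOn]; omega)) (by rw [hOn]; exact hn) hM.count
  exact ⟨O, hOc, by rw [hOn, hn'], h1⟩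

/-- The cyclic subgroup of order `(q - 1)/2` of `H¹`, with the same normaliser. -/
theorem reeD_odd_part (hK : Fintype.card K = 3 ^ (2 * m + 1)) (hσ : ReeSig m σ) (hm : 1 ≤ m) :
    ∃ A : Subgroup ↥(twistedG2 K (3 ^ m)), IsCyclic A ∧
      Nat.card A = (3 ^ (2 * m + 1) - 1) / 2 ∧
      Subgroup.normalizer (A : Set ↥(twistedG2 K (3 ^ m))) =
        Subgroup.normalizer ((reeD K m : Subgroup ↥(twistedG2 K (3 ^ m))) :
          Set ↥(twistedG2 K (3 ^ m))) := by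
  have hq := q_ge_27 m hm
  have h8 := three_pow_mod_eight m
  have hdvd : (3 ^ (2 * m + 1) - 1) / 2 ∣ Nat.card ↥(reeD K m) := by
    rw [reeD_card hK hσ]
    exact Nat.div_dvd_of_dvd (by omega)
  obtain ⟨x, hxD, hx⟩ := exists_orderOf_eq_of_dvd_cyclic (reeD K m) (reeD_cyclic hK hσ) hdvd
  have hcard : Nat.card ↥(Subgroup.zpowers x) = (3 ^ (2 * m + 1) - 1) / 2 := by
    rw [Nat.card_zpowers, hx]
  have hle : Subgroup.zpowers x ≤ reeD K m := (Subgroup.zpowers_le).mpr hxD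
  obtain ⟨h1, -⟩ := normalizer_family (reeD K m) (Subgroup.zpowers x) (reeD_comm hK hσ)
    (reeD_selfcent hK hσ) hle (subgroup_ne_bot_of_card _ (by rw [hcard]; omega))
    (by rw [hcard]; exact Nat.odd_iff.mpr (by omega))
    (fun d hd => card_mem_pow_eq_one_le_of_isCyclic _ (reeD_cyclic hK hσ) hd.pos)
  exact ⟨Subgroup.zpowers x, inferInstance, hcard, h1⟩

/-- Case `p = 3`. -/
theorem reeGood_three (hK : Fintype.card K = 3 ^ (2 * m + 1)) (hσ : ReeSig m σ)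
    (S Q : Subgroup ↥(twistedG2 K (3 ^ m))) (hQ1 : Q ≠ ⊥) (hQ3 : IsPGroup 3 Q)
    (hSN : S ≤ Subgroup.normalizer (Q : Set ↥(twistedG2 K (3 ^ m)))) : ReeGood K m S := by
  have : Fact (Nat.Prime 3) := ⟨Nat.prime_three⟩
  obtain ⟨P, hP⟩ := hQ3.exists_le_sylow
  exact ⟨P, hSN.trans (normalizer_le_of_sylow_TI P
    (fun P' hne => ree_sylow_TI hK hσ P' P hne) Q hP hQ1), Or.inr (Or.inl ⟨P, rfl⟩)⟩

/-- Case of a prime dividing `q² - q + 1`. -/
theorem reeGood_exotic (hK : Fintype.card K = 3 ^ (2 * m + 1)) (hσ : ReeSig m σ) (hm : 1 ≤ m)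
    (S Q : Subgroup ↥(twistedG2 K (3 ^ m))) (hQ1 : Q ≠ ⊥)
    (hQc : ∀ x ∈ Q, ∀ y ∈ Q, x * y = y * x)
    (hSN : S ≤ Subgroup.normalizer (Q : Set ↥(twistedG2 K (3 ^ m))))
    {p : ℕ} (hp : p.Prime) (hpd : p ∣ (3 ^ (2 * m + 1)) ^ 2 - 3 ^ (2 * m + 1) + 1)
    (x : ↥(twistedG2 K (3 ^ m))) (hxQ : x ∈ Q) (hx1 : x ≠ 1) (hxp : x ^ p = 1) :
    ReeGood K m S := by
  have hq := q_ge_27 m hm
  have hlt : 3 ^ (m + 1) < 3 ^ (2 * m + 1) := Nat.pow_lt_pow_right (by norm_num) (by omega)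
  have hodd3 : 3 ^ (m + 1) % 2 = 1 := Nat.odd_iff.mp (Odd.pow (by decide))
  have hoddq : 3 ^ (2 * m + 1) % 2 = 1 := Nat.odd_iff.mp (Odd.pow (by decide))
  have hr3 : 3 ≤ 3 ^ (m + 1) := by
    calc 3 = 3 ^ 1 := by norm_num
      _ ≤ 3 ^ (m + 1) := Nat.pow_le_pow_right (by norm_num) (by omega)
  have hTc := ree_exotic_cyclic hK hσ hm hp hpd x hx1 hxp
  have hTI := ree_exotic_TI hK hσ hm hp hpd x hx1 hxp
  have hTd := ree_exotic_cent_card hK hσ hm hp hpd x hx1 hxp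
  have hxT : x ∈ Subgroup.centralizer ({x} : Set ↥(twistedG2 K (3 ^ m))) :=
    Subgroup.mem_centralizer_singleton_iff.mpr rfl
  have hT1 : Subgroup.centralizer ({x} : Set ↥(twistedG2 K (3 ^ m))) ≠ ⊥ := by
    intro h
    rw [h, Subgroup.mem_bot] at hxT
    exact hx1 hxT
  have hcard := (ree_exotic_tori hK hσ hm).2.2 _ hTc hT1 hTI hTd
  have hQT : Q ≤ Subgroup.centralizer ({x} : Set ↥(twistedG2 K (3 ^ m))) := by
    intro y hy
    rw [Subgroup.mem_centralizer_singleton_iff]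
    exact hQc y hy x hxQ
  have hN := ree_hall_exotic _ hTc hTI
    (by rcases hcard with h | h <;> rw [h] <;> exact Nat.odd_iff.mpr (by omega))
    (by rcases hcard with h | h <;> rw [h] <;> omega) Q hQT hQ1
  refine ⟨_, hN ▸ hSN, Or.inr (Or.inr ⟨hTc, ?_⟩)⟩
  rcases hcard with h | h
  · exact Or.inr (Or.inr (Or.inr h))
  · exact Or.inr (Or.inr (Or.inl h))

/-- Case of an odd prime dividing `q - 1`. -/
theorem reeGood_split (hK : Fintype.card K = 3 ^ (2 * m + 1)) (hσ : ReeSig m σ) (hm : 1 ≤ m)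
    (S Q : Subgroup ↥(twistedG2 K (3 ^ m))) (hQ1 : Q ≠ ⊥)
    (hQc : ∀ x ∈ Q, ∀ y ∈ Q, x * y = y * x) (hQodd : Odd (Nat.card Q))
    (hSN : S ≤ Subgroup.normalizer (Q : Set ↥(twistedG2 K (3 ^ m))))
    {s : ℕ} (hs : s.Prime) (hs2 : s ≠ 2) (hsd : s ∣ 3 ^ (2 * m + 1) - 1)
    (x : ↥(twistedG2 K (3 ^ m))) (hxQ : x ∈ Q) (hx1 : x ≠ 1) (hxs : x ^ s = 1) :
    ReeGood K m S := by
  have : Fact s.Prime := ⟨hs⟩
  have ho : orderOf x = s := orderOf_eq_prime hxs hx1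
  obtain ⟨c, hc⟩ := ree_qm1_conj_D hK hσ x hs hs2 hsd (by rw [ho])
  apply reeGood_conj S c
  have hx'2 : (c * x * c⁻¹) * (c * x * c⁻¹) ≠ 1 := by
    intro h2
    have h1 : (c * x * c⁻¹) ^ s = 1 := by rw [conj_pow, hxs]; group
    have h3 := eq_one_of_sq_of_odd_pow _ (hs.odd_of_ne_two hs2) h2 h1
    apply hx1
    have e : x = c⁻¹ * (c * x * c⁻¹) * c := by group
    rw [e, h3]; group
  have hQ'c := map_conj_comm Q c hQc
  have hle : Q.map (MulAut.conj c).toMonoidHom ≤ reeD K m := by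
    intro y hy
    exact reeD_selfcent hK hσ _ hc hx'2 y (hQ'c y hy _ (mem_map_conj Q c x hxQ))
  have hne : Q.map (MulAut.conj c).toMonoidHom ≠ ⊥ := by
    apply subgroup_ne_bot_of_card
    rw [map_conj_card]
    exact (Subgroup.one_lt_card_iff_ne_bot Q).mpr hQ1
  have hodd : Odd (Nat.card ↥(Q.map (MulAut.conj c).toMonoidHom)) := by
    rw [map_conj_card]; exact hQodd
  have hN := normalizer_eq_of_selfcent (reeD K m) (reeD_comm hK hσ) (reeD_selfcent hK hσ)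
    (Q.map (MulAut.conj c).toMonoidHom) hle hne hodd
    (card_mem_pow_eq_one_le_of_isCyclic _ (reeD_cyclic hK hσ) hodd.pos)
  obtain ⟨A, hAc, hAcard, hAN⟩ := reeD_odd_part hK hσ hm
  refine ⟨A, ?_, Or.inr (Or.inr ⟨hAc, Or.inl hAcard⟩)⟩
  rw [hAN, ← hN]
  exact map_conj_le_normalizer S Q c hSN

/-- Case of an odd prime dividing `q + 1`. -/
theorem reeGood_quarter (hK : Fintype.card K = 3 ^ (2 * m + 1)) (hσ : ReeSig m σ) (hm : 1 ≤ m)
    (S Q : Subgroup ↥(twistedG2 K (3 ^ m))) (hQ1 : Q ≠ ⊥)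
    (hQc : ∀ x ∈ Q, ∀ y ∈ Q, x * y = y * x) (hQodd : Odd (Nat.card Q))
    (hSN : S ≤ Subgroup.normalizer (Q : Set ↥(twistedG2 K (3 ^ m))))
    {s : ℕ} (hs : s.Prime) (hs2 : s ≠ 2) (hsd : s ∣ 3 ^ (2 * m + 1) + 1)
    (x : ↥(twistedG2 K (3 ^ m))) (hxQ : x ∈ Q) (hx1 : x ≠ 1) (hxs : x ^ s = 1) :
    ReeGood K m S := by
  have : Fact s.Prime := ⟨hs⟩
  have ho : orderOf x = s := orderOf_eq_prime hxs hx1
  obtain ⟨M, hM⟩ := ree_torus_exists hK hσ hm
  obtain ⟨c, hc⟩ := hM.conj x s hs hs2 hsd (by rw [ho])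
  apply reeGood_conj S c
  have hx'2 : (c * x * c⁻¹) * (c * x * c⁻¹) ≠ 1 := by
    intro h2
    have h1 : (c * x * c⁻¹) ^ s = 1 := by rw [conj_pow, hxs]; group
    have h3 := eq_one_of_sq_of_odd_pow _ (hs.odd_of_ne_two hs2) h2 h1
    apply hx1
    have e : x = c⁻¹ * (c * x * c⁻¹) * c := by group
    rw [e, h3]; group
  have hQ'c := map_conj_comm Q c hQc
  have hle : Q.map (MulAut.conj c).toMonoidHom ≤ M := by
    intro y hy
    exact hM.selfcent _ hc hx'2 y (hQ'c y hy _ (mem_map_conj Q c x hxQ))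
  have hne : Q.map (MulAut.conj c).toMonoidHom ≠ ⊥ := by
    apply subgroup_ne_bot_of_card
    rw [map_conj_card]
    exact (Subgroup.one_lt_card_iff_ne_bot Q).mpr hQ1
  have hodd : Odd (Nat.card ↥(Q.map (MulAut.conj c).toMonoidHom)) := by
    rw [map_conj_card]; exact hQodd
  have hN := normalizer_eq_of_selfcent M hM.comm hM.selfcent
    (Q.map (MulAut.conj c).toMonoidHom) hle hne hodd (hM.count _ hodd)
  obtain ⟨O, hOc, hOcard, hON⟩ := hM.odd_part hm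
  refine ⟨O, ?_, Or.inr (Or.inr ⟨hOc, Or.inr (Or.inl hOcard)⟩)⟩
  rw [hON, ← hN]
  exact map_conj_le_normalizer S Q c hSN

/-- Case of a normal four-group. -/
theorem reeGood_four (hK : Fintype.card K = 3 ^ (2 * m + 1)) (hσ : ReeSig m σ) (hm : 1 ≤ m)
    (S Q : Subgroup ↥(twistedG2 K (3 ^ m))) (hQ4 : Nat.card Q = 4)
    (hSN : S ≤ Subgroup.normalizer (Q : Set ↥(twistedG2 K (3 ^ m)))) : ReeGood K m S := by
  have hsq : ∀ (Q' : Subgroup ↥(twistedG2 K (3 ^ m))), Nat.card Q' = 4 →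
      ∀ x ∈ Q', x * x = 1 := by
    intro Q' hQ' x hx
    apply ree_two_elem hK hσ x 2
    have h1 : (⟨x, hx⟩ : ↥Q') ^ Nat.card Q' = 1 := pow_card_eq_one'
    rw [hQ'] at h1
    exact congrArg Subtype.val h1
  have hQ1 : Q ≠ ⊥ := subgroup_ne_bot_of_card _ (by rw [hQ4]; norm_num)
  obtain ⟨t, htQ, ht1⟩ : ∃ t ∈ Q, t ≠ 1 := by
    by_contra hcon
    apply hQ1
    rw [Subgroup.eq_bot_iff_forall]
    intro x hx
    by_contra hx1
    exact hcon ⟨x, hx, hx1⟩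
  obtain ⟨c, hc⟩ := ree_inv_conj hK hσ hm t ht1 (hsq Q hQ4 t htQ)
  apply reeGood_conj S c
  have hQ'4 : Nat.card ↥(Q.map (MulAut.conj c).toMonoidHom) = 4 := by
    rw [map_conj_card]; exact hQ4
  have haQ' : reeA hK ∈ Q.map (MulAut.conj c).toMonoidHom := by
    rw [← hc]; exact mem_map_conj Q c t htQ
  have hQ'sq := hsq _ hQ'4
  have hQ'c := comm_of_sq_eq_one _ hQ'sq
  obtain ⟨e⟩ := reeA_cent hK hσ
  have h8 := three_pow_mod_eight m
  have hq27 := q_ge_27 m hm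
  have hC := card_centralizer_four_of_psl2 (F := K) ree_two_ne_zero (by rw [hK]; omega)
    (by rw [hK]; omega) (reeA hK) (reeA_ne_one hK) (reeA_sq hK) e
    (Q.map (MulAut.conj c).toMonoidHom) hQ'4 haQ' hQ'c hQ'sq
  rw [hK] at hC
  obtain ⟨n, hn, hn7, hq⟩ := ree_quarter m hm
  have hn1 : n ≠ 1 := by omega
  have hs : (n.minFac).Prime := Nat.minFac_prime hn1
  have hsn : n.minFac ∣ n := Nat.minFac_dvd n
  have hs2 : n.minFac ≠ 2 := by
    intro h
    rw [h] at hsn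
    have := Nat.odd_iff.mp hn
    omega
  have hsq' : n.minFac ∣ 3 ^ (2 * m + 1) + 1 := by
    rw [hq]; exact Dvd.dvd.mul_left hsn 4
  have : Fact (n.minFac).Prime := ⟨hs⟩
  obtain ⟨y, hy⟩ := exists_prime_orderOf_dvd_card' n.minFac
    (show n.minFac ∣ Nat.card ↥(Subgroup.centralizer
      ((Q.map (MulAut.conj c).toMonoidHom : Subgroup ↥(twistedG2 K (3 ^ m))) :
        Set ↥(twistedG2 K (3 ^ m)))) by rw [hC]; exact Dvd.dvd.mul_left hsq' 2)
  have hy1 : (y : ↥(twistedG2 K (3 ^ m))) ≠ 1 := by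
    intro h
    have : y = 1 := Subtype.ext h
    rw [this, orderOf_one] at hy
    exact hs.one_lt.ne hy
  have hys : (y : ↥(twistedG2 K (3 ^ m))) ^ n.minFac = 1 := by
    have := pow_orderOf_eq_one y
    rw [hy] at this
    exact congrArg Subtype.val this
  have hyQ : ∀ x ∈ Q.map (MulAut.conj c).toMonoidHom,
      x * (y : ↥(twistedG2 K (3 ^ m))) = (y : ↥(twistedG2 K (3 ^ m))) * x :=
    fun x hx => Subgroup.mem_centralizer_iff.mp y.2 x hx
  have hya : (y : ↥(twistedG2 K (3 ^ m))) * reeA hK = reeA hK * (y : ↥(twistedG2 K (3 ^ m))) :=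
    (hyQ _ haQ').symm
  have hM := ree_torus_of hK hσ hm hs hs2 hsq' (y : ↥(twistedG2 K (3 ^ m))) hy1 hys hya
  have hle : Q.map (MulAut.conj c).toMonoidHom ≤ sqOneSubgroup _ hM.comm := by
    intro x hx
    exact ⟨Subgroup.mem_centralizer_singleton_iff.mpr (hyQ x hx), hQ'sq x hx⟩
  have heq := Subgroup.eq_of_le_of_card_ge hle (by rw [hM.sq_card hσ hm, hQ'4])
  obtain ⟨O, hOc, hOcard, hON⟩ := hM.odd_part hm
  refine ⟨O, ?_, Or.inr (Or.inr ⟨hOc, Or.inr (Or.inl hOcard)⟩)⟩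
  rw [hON, ← (hM.normalizer hσ hm).1, ← heq]
  exact map_conj_le_normalizer S Q c hSN

/-- **S2361: solvable subgroups.** -/
theorem ree_solvable (hK : Fintype.card K = 3 ^ (2 * m + 1)) (hσ : ReeSig m σ) (hm : 1 ≤ m)
    (S : Subgroup ↥(twistedG2 K (3 ^ m))) (hS : Group.IsSolvable S) : ReeGood K m S := by
  have : Fact (Nat.Prime 2) := ⟨Nat.prime_two⟩
  by_cases hS1 : S = ⊥
  · obtain ⟨P⟩ : Nonempty (Sylow 2 ↥(twistedG2 K (3 ^ m))) := inferInstance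
    exact ⟨P, by rw [hS1]; exact bot_le, Or.inl ⟨P, rfl⟩⟩
  obtain ⟨p, Q, hp, hQS, hQ1, hQp, hSN, hcase⟩ := exists_normal_pgroup_of_solvable S hS hS1
  have : Fact p.Prime := ⟨hp⟩
  obtain ⟨k, hk⟩ := IsPGroup.iff_card.mp hQp
  have hk1 : k ≠ 0 := by
    rintro rfl
    rw [pow_zero] at hk
    exact hQ1 (Subgroup.card_eq_one.mp hk)
  by_cases hp3 : p = 3
  · subst hp3
    exact reeGood_three hK hσ S Q hQ1 hQp hSN
  by_cases hp2 : p = 2
  · subst hp2
    obtain ⟨P, hP⟩ := hQp.exists_le_sylow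
    obtain ⟨hP8, -⟩ := ree_sylow_two hK hσ P
    rcases hcase with h | h | h
    · exact absurd rfl h
    · have hdvd : 2 ^ k ∣ 2 ^ 3 := by
        rw [← hk, show (2 : ℕ) ^ 3 = 8 from rfl, ← hP8]
        exact Subgroup.card_dvd_of_le hP
      have hk3 : k ≤ 3 := (Nat.pow_dvd_pow_iff_le_right (by norm_num)).mp hdvd
      have hk2 : 2 ≤ k := by
        by_contra hlt
        have : k = 1 := by omega
        rw [hk, this] at h
        norm_num at h
      rcases Nat.lt_or_ge k 3 with hk' | hk'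
      · have : k = 2 := by omega
        exact reeGood_four hK hσ hm S Q (by rw [hk, this]; norm_num) hSN
      · have hk3' : k = 3 := by omega
        have hQP : Q = (P : Subgroup ↥(twistedG2 K (3 ^ m))) :=
          Subgroup.eq_of_le_of_card_ge hP (by rw [hP8, hk, hk3']; norm_num)
        exact ⟨P, by rw [← hQP]; exact hSN, Or.inl ⟨P, rfl⟩⟩
    · have hS2 : IsPGroup 2 ↥S := IsPGroup.of_card (n := 1) (by rw [h]; norm_num)
      obtain ⟨P', hP'⟩ := hS2.exists_le_sylow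
      exact ⟨P', hP'.trans Subgroup.le_normalizer, Or.inl ⟨P', rfl⟩⟩
  · have hp5 : 3 < p := by
      have := hp.two_le
      omega
    obtain ⟨P, hP⟩ := hQp.exists_le_sylow
    have hPc := ree_sylow_cyclic hK hσ hm hp5 P
    have hQc : ∀ x ∈ Q, ∀ y ∈ Q, x * y = y * x := fun x hx y hy =>
      cyclic_subgroup_comm _ hPc x (hP hx) y (hP hy)
    have hQodd : Odd (Nat.card Q) := by
      rw [hk]; exact Odd.pow (hp.odd_of_ne_two hp2)
    have hpQ : p ∣ Nat.card Q := by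
      rw [hk]; exact dvd_pow_self p hk1
    obtain ⟨x, hx⟩ := exists_prime_orderOf_dvd_card' p hpQ
    have hx1 : (x : ↥(twistedG2 K (3 ^ m))) ≠ 1 := by
      intro h
      have : x = 1 := Subtype.ext h
      rw [this, orderOf_one] at hx
      exact hp.one_lt.ne hx
    have hxp : (x : ↥(twistedG2 K (3 ^ m))) ^ p = 1 := by
      have := pow_orderOf_eq_one x
      rw [hx] at this
      exact congrArg Subtype.val this
    have hpG : p ∣ (3 ^ (2 * m + 1)) ^ 3 * (3 ^ (2 * m + 1) - 1) * ((3 ^ (2 * m + 1)) ^ 3 + 1) := by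
      rw [← ree_card hK hσ]
      exact hpQ.trans (Subgroup.card_subgroup_dvd_card Q)
    have hpq : ¬ p ∣ 3 ^ (2 * m + 1) := by
      intro h
      exact hp3 ((Nat.prime_dvd_prime_iff_eq hp Nat.prime_three).mp (hp.dvd_of_dvd_pow h))
    rcases ree_prime_cases (one_lt_q m) hp hpq hpG with h | h | h
    · exact reeGood_split hK hσ hm S Q hQ1 hQc hQodd hSN hp hp2 h x x.2 hx1 hxp
    · exact reeGood_quarter hK hσ hm S Q hQ1 hQc hQodd hSN hp hp2 h x x.2 hx1 hxp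
    · exact reeGood_exotic hK hσ hm S Q hQ1 hQc hSN hp h x x.2 hx1 hxp

end reeX

end Cfsg.Agent.Helper6
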