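import Mathlib
import Cfsg.Prelude.Def_DegreeGraph
import Cfsg.Agent.Helper79.Quotient

/-!
# Transport of the set of character degrees along an isomorphism
-/

set_option autoImplicit false

namespace Cfsg.Agent.Helper6

section SzCh15

theorem h6_charDegrees_subset_of_mulEquiv {S G : Type*} [Group S] [Group G] (e : S ≃* G) :
    Cfsg.charDegrees S ⊆ Cfsg.charDegrees G := by
  rintro d ⟨χ, rfl⟩
  refine ⟨⟨fun g => (χ : S → ℂ) (e.symm g),
    (Cfsg.Agent.Helper79.isIrrCharacter_mulEquiv e.symm).mpr χ.2⟩, ?_⟩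
  unfold Cfsg.charDegree
  simp

theorem h6_charDegrees_mulEquiv {S G : Type*} [Group S] [Group G] (e : S ≃* G) :
    Cfsg.charDegrees S = Cfsg.charDegrees G :=
  Set.Subset.antisymm (h6_charDegrees_subset_of_mulEquiv e)
    (h6_charDegrees_subset_of_mulEquiv e.symm)

end SzCh15

end Cfsg.Agent.Helper6
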