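import Mathlib
import Cfsg.Agent.Helper81.ClassAlgebra

/-!
# Class sums paired with irreducible characters

Products of two and three class sums, evaluated at the identity and paired with an irreducible
character.
-/

set_option autoImplicit false

namespace Cfsg.Agent.Helper6

open Classical

universe u

section SzCs1

variable {G : Type u} [Group G] [Fintype G]

theorem h6_pair_eq (ψ : Cfsg.IrrCharacter G) (h : G → ℂ) :
    ∑ y : G, h y * (ψ : G → ℂ) y = (ψ : G → ℂ) 1 * Helper81.omega (ψ : G → ℂ) h := by
  unfold Helper81.omega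
  rw [mul_div_cancel₀ _ (Helper81.irr_one_ne_zero ψ)]

theorem h6_omega_classInd (ψ : Cfsg.IrrCharacter G) (g : G) :
    Helper81.omega (ψ : G → ℂ) (Helper81.classInd g) =
      ((Subgroup.centralizer ({g} : Set G)).index : ℂ) * (ψ : G → ℂ) g / (ψ : G → ℂ) 1 := by
  rw [Helper81.omega_classInd]
  rfl

/-- a product of three class sums paired with an irreducible character -/
theorem h6_pair_conv3 (ψ : Cfsg.IrrCharacter G) (x k : G) :
    (ψ : G → ℂ) 1 * ∑ y : G, Helper81.conv (Helper81.conv (Helper81.classInd x)
      (Helper81.classInd x)) (Helper81.classInd k) y * (ψ : G → ℂ) y =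
      ((Subgroup.centralizer ({x} : Set G)).index : ℂ) ^ 2 *
        ((Subgroup.centralizer ({k} : Set G)).index : ℂ) *
        ((ψ : G → ℂ) x ^ 2 * (ψ : G → ℂ) k / (ψ : G → ℂ) 1) := by
  have h1 := Helper81.irr_one_ne_zero ψ
  rw [h6_pair_eq, Helper81.omega_conv ψ (Helper81.conv_isClassFunction
    (Helper81.classInd_isClassFunction x) (Helper81.classInd_isClassFunction x))
    (Helper81.classInd_isClassFunction k),
    Helper81.omega_conv ψ (Helper81.classInd_isClassFunction x)
    (Helper81.classInd_isClassFunction x), h6_omega_classInd, h6_omega_classInd]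
  field_simp

/-- a product of two class sums paired with an irreducible character -/
theorem h6_pair_conv2 (ψ : Cfsg.IrrCharacter G) (g h : G) :
    (ψ : G → ℂ) 1 * ∑ y : G, Helper81.conv (Helper81.classInd g) (Helper81.classInd h) y *
      (ψ : G → ℂ) y =
      ((Subgroup.centralizer ({g} : Set G)).index : ℂ) *
        ((Subgroup.centralizer ({h} : Set G)).index : ℂ) *
        ((ψ : G → ℂ) g * (ψ : G → ℂ) h) := by
  have h1 := Helper81.irr_one_ne_zero ψ
  rw [h6_pair_eq, Helper81.omega_conv ψ (Helper81.classInd_isClassFunction g)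
    (Helper81.classInd_isClassFunction h), h6_omega_classInd, h6_omega_classInd]
  field_simp

omit [Fintype G] in
theorem h6_isConj_inv {a b : G} (h : IsConj a b) : IsConj a⁻¹ b⁻¹ := by
  obtain ⟨c, hc⟩ := isConj_iff.1 h
  refine isConj_iff.2 ⟨c, ?_⟩
  rw [← hc]
  group

/-- the coefficient of the identity in a product of two class sums -/
theorem h6_conv2_one (g h : G) :
    Helper81.conv (Helper81.classInd g) (Helper81.classInd h) 1 =
      if IsConj g⁻¹ h then ((Subgroup.centralizer ({g} : Set G)).index : ℂ) else 0 := by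
  unfold Helper81.conv
  by_cases hc : IsConj g⁻¹ h
  · rw [if_pos hc, ← Helper81.card_classFinset]
    have h1 : ∀ x : G, Helper81.classInd g x * Helper81.classInd h (x⁻¹ * 1) =
        if IsConj g x then 1 else 0 := by
      intro x
      unfold Helper81.classInd
      by_cases hx : IsConj g x
      · have h2 : IsConj h (x⁻¹ * 1) := by
          rw [mul_one]
          exact hc.symm.trans (h6_isConj_inv hx)
        rw [if_pos hx, if_pos h2, mul_one]
      · rw [if_neg hx, zero_mul]
    rw [Finset.sum_congr rfl (fun x _ => h1 x), Finset.sum_boole]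
    congr 1
  · rw [if_neg hc]
    apply Finset.sum_eq_zero
    intro x _
    unfold Helper81.classInd
    by_cases hx : IsConj g x
    · have h2 : ¬ IsConj h (x⁻¹ * 1) := by
        rw [mul_one]
        intro h3
        exact hc ((h6_isConj_inv hx).trans h3.symm)
      rw [if_neg h2, mul_zero]
    · rw [if_neg hx, zero_mul]

/-- if the identity occurs in `C_x C_x C_{g⁻¹}` then `g` is a product of two conjugates of `x` -/
theorem h6_conv3_one_ne (x g : G)
    (hne : Helper81.conv (Helper81.conv (Helper81.classInd x) (Helper81.classInd x))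
      (Helper81.classInd g⁻¹) 1 ≠ 0) :
    ∃ u v : G, g = (u * x * u⁻¹) * (v * x * v⁻¹) := by
  have hcl := Helper81.conv_isClassFunction (Helper81.classInd_isClassFunction x)
    (Helper81.classInd_isClassFunction x)
  unfold Helper81.conv at hne
  obtain ⟨y, -, hy⟩ := Finset.exists_ne_zero_of_sum_ne_zero hne
  have hy1 : (∑ z : G, Helper81.classInd x z * Helper81.classInd x (z⁻¹ * y)) ≠ 0 :=
    left_ne_zero_of_mul hy
  have hy2 : Helper81.classInd g⁻¹ (y⁻¹ * 1) ≠ 0 := right_ne_zero_of_mul hy
  have hgy : IsConj g⁻¹ y⁻¹ := by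
    unfold Helper81.classInd at hy2
    by_contra hcon
    rw [mul_one, if_neg hcon] at hy2
    exact hy2 rfl
  have hgy' : IsConj y g := by
    have := h6_isConj_inv hgy.symm
    rwa [inv_inv, inv_inv] at this
  obtain ⟨c, hc⟩ := isConj_iff.1 hgy'
  have hg1 : (∑ z : G, Helper81.classInd x z * Helper81.classInd x (z⁻¹ * g)) ≠ 0 := by
    have h3 := hcl y c
    unfold Helper81.conv at h3
    rw [hc] at h3
    rw [h3]
    exact hy1
  obtain ⟨z, -, hz⟩ := Finset.exists_ne_zero_of_sum_ne_zero hg1
  have hz1 : IsConj x z := by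
    have h4 := left_ne_zero_of_mul hz
    unfold Helper81.classInd at h4
    by_contra hcon
    rw [if_neg hcon] at h4
    exact h4 rfl
  have hz2 : IsConj x (z⁻¹ * g) := by
    have h4 := right_ne_zero_of_mul hz
    unfold Helper81.classInd at h4
    by_contra hcon
    rw [if_neg hcon] at h4
    exact h4 rfl
  obtain ⟨u, hu⟩ := isConj_iff.1 hz1
  obtain ⟨v, hv⟩ := isConj_iff.1 hz2
  refine ⟨u, v, ?_⟩
  rw [hu, hv]
  group

end SzCs1

end Cfsg.Agent.Helper6
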