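import Mathlib
import Cfsg.Agent.Helper6.SzCh10

/-!
# Sums of orbit sums over all linear characters of a TI-subgroup
-/

set_option autoImplicit false

namespace Cfsg.Agent.Helper6

open scoped ComplexConjugate
open Classical

section SzCs2

variable {G : Type*} [Group G] [Fintype G]

theorem h6_commutator_bot {K : Type*} [Group K] (hcomm : ∀ a b : K, a * b = b * a) :
    commutator K = ⊥ := by
  rw [commutator_eq_bot_iff_center_eq_top]
  ext a
  simp only [Subgroup.mem_center_iff, Subgroup.mem_top, iff_true]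
  intro b
  exact hcomm b a

theorem h6_hom_sum_eval {K : Type*} [Group K] [Finite K] (hcomm : ∀ a b : K, a * b = b * a)
    [Fintype (K →* ℂˣ)] (k : K) :
    ∑ α : K →* ℂˣ, ((α k : ℂˣ) : ℂ) = if k = 1 then (Nat.card K : ℂ) else 0 := by
  by_cases hk : k = 1
  · rw [if_pos hk, hk]
    simp only [map_one, Units.val_one, Finset.sum_const, Finset.card_univ, nsmul_eq_mul, mul_one]
    rw [h6_card_hom_comm hcomm]
  · rw [if_neg hk]
    apply h6_hom_sum_eq_zero
    rw [h6_commutator_bot hcomm, Subgroup.mem_bot]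
    exact hk

theorem h6_hom_inv_conj {K : Type*} [Group K] [Finite K] (α : K →* ℂˣ) (k : K) :
    ((α k⁻¹ : ℂˣ) : ℂ) = conj ((α k : ℂˣ) : ℂ) := by
  have hpow : ((α k : ℂˣ) : ℂ) ^ Nat.card K = 1 := by
    rw [← Units.val_pow_eq_pow_val, ← map_pow, pow_card_eq_one', map_one, Units.val_one]
  have hn : ‖((α k : ℂˣ) : ℂ)‖ = 1 := Complex.norm_eq_one_of_pow_eq_one hpow Nat.card_pos.ne'
  have h1 : ((α k : ℂˣ) : ℂ) * conj ((α k : ℂˣ) : ℂ) = 1 := by
    rw [Complex.mul_conj', hn]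
    norm_num
  rw [map_inv, Units.val_inv_eq_inv_val]
  exact (eq_inv_of_mul_eq_one_right h1).symm

theorem h6_hom_norm {K : Type*} [Group K] [Finite K] (α : K →* ℂˣ) (k : K) :
    ‖((α k : ℂˣ) : ℂ)‖ = 1 := by
  have hpow : ((α k : ℂˣ) : ℂ) ^ Nat.card K = 1 := by
    rw [← Units.val_pow_eq_pow_val, ← map_pow, pow_card_eq_one', map_one, Units.val_one]
  exact Complex.norm_eq_one_of_pow_eq_one hpow Nat.card_pos.ne'

theorem tiXi_inv (H : Subgroup G) (α : H →* ℂˣ) (h : H) :
    tiXi H α h⁻¹ = conj (tiXi H α h) := by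
  unfold tiXi
  rw [map_mul, map_inv₀, Complex.conj_natCast, map_sum]
  congr 1
  refine Finset.sum_congr rfl fun x _ => ?_
  rw [map_inv, h6_hom_inv_conj]

theorem tiXi_norm_le (H : Subgroup G) (α : H →* ℂˣ) (h : H) :
    ‖tiXi H α h‖ ≤ (Nat.card (Subgroup.normalizer (H : Set G)) : ℝ) / (Nat.card H : ℝ) := by
  unfold tiXi
  rw [norm_mul, norm_inv, Complex.norm_natCast, div_eq_inv_mul]
  apply mul_le_mul_of_nonneg_left _ (by positivity)
  calc ‖∑ x : Subgroup.normalizer (H : Set G), ((α (Helper3.tiConj H x h) : ℂˣ) : ℂ)‖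
      ≤ ∑ x : Subgroup.normalizer (H : Set G), ‖((α (Helper3.tiConj H x h) : ℂˣ) : ℂ)‖ :=
        norm_sum_le _ _
    _ = (Nat.card (Subgroup.normalizer (H : Set G)) : ℝ) := by
        simp only [h6_hom_norm, Finset.sum_const, Finset.card_univ, nsmul_eq_mul, mul_one]
        rw [Nat.card_eq_fintype_card]

theorem tiXi_hom_bisum (H : Subgroup G) (hcomm : ∀ a b : H, a * b = b * a)
    [Fintype (H →* ℂˣ)] (h k : H) :
    ∑ α : H →* ℂˣ, tiXi H α h * tiXi H α k =
      (Nat.card H : ℂ)⁻¹ * ∑ x : Subgroup.normalizer (H : Set G),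
        ∑ y : Subgroup.normalizer (H : Set G),
          (if Helper3.tiConj H x h * Helper3.tiConj H y k = 1 then (1 : ℂ) else 0) := by
  have hH : (Nat.card H : ℂ) ≠ 0 := by exact_mod_cast Nat.card_pos.ne'
  have h1 : ∀ α : H →* ℂˣ, tiXi H α h * tiXi H α k =
      (Nat.card H : ℂ)⁻¹ * (Nat.card H : ℂ)⁻¹ *
        ∑ x : Subgroup.normalizer (H : Set G), ∑ y : Subgroup.normalizer (H : Set G),
          ((α (Helper3.tiConj H x h * Helper3.tiConj H y k) : ℂˣ) : ℂ) := by
    intro α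
    unfold tiXi
    rw [mul_mul_mul_comm, Finset.sum_mul_sum]
    congr 1
    refine Finset.sum_congr rfl fun x _ => Finset.sum_congr rfl fun y _ => ?_
    rw [map_mul, Units.val_mul]
  rw [Finset.sum_congr rfl (fun α _ => h1 α), ← Finset.mul_sum, Finset.sum_comm]
  have h2 : ∀ x : Subgroup.normalizer (H : Set G),
      ∑ α : H →* ℂˣ, ∑ y : Subgroup.normalizer (H : Set G),
        ((α (Helper3.tiConj H x h * Helper3.tiConj H y k) : ℂˣ) : ℂ) =
      (Nat.card H : ℂ) * ∑ y : Subgroup.normalizer (H : Set G),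
        (if Helper3.tiConj H x h * Helper3.tiConj H y k = 1 then (1 : ℂ) else 0) := by
    intro x
    rw [Finset.sum_comm, Finset.mul_sum]
    refine Finset.sum_congr rfl fun y _ => ?_
    rw [h6_hom_sum_eval hcomm]
    by_cases hc : Helper3.tiConj H x h * Helper3.tiConj H y k = 1
    · rw [if_pos hc, if_pos hc, mul_one]
    · rw [if_neg hc, if_neg hc, mul_zero]
  rw [Finset.sum_congr rfl (fun x _ => h2 x), ← Finset.mul_sum, ← mul_assoc, mul_assoc _ _ (Nat.card H : ℂ),
    inv_mul_cancel₀ hH, mul_one]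

theorem h6_sum_mem_normalizer (H : Subgroup G) :
    ∑ z : Subgroup.normalizer (H : Set G), (if (z : G) ∈ H then (1 : ℂ) else 0) =
      (Nat.card H : ℂ) := by
  rw [Finset.sum_boole, ← Fintype.card_subtype]
  congr 1
  rw [← Nat.card_eq_fintype_card]
  exact Nat.card_congr (Subgroup.subgroupOfEquivOfLe (Subgroup.le_normalizer (H := H))).toEquiv

theorem tiXi_hom_sum_inv (H : Subgroup G)
    (hfrob : ∀ h ∈ H, h ≠ 1 →
      Subgroup.normalizer (H : Set G) ⊓ Subgroup.centralizer ({h} : Set G) ≤ H)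
    (hcomm : ∀ a b : H, a * b = b * a) [Fintype (H →* ℂˣ)] (h : H) (hh : h ≠ 1) :
    ∑ α : H →* ℂˣ, tiXi H α h * tiXi H α h⁻¹ =
      (Nat.card (Subgroup.normalizer (H : Set G)) : ℂ) := by
  have hH : (Nat.card H : ℂ) ≠ 0 := by exact_mod_cast Nat.card_pos.ne'
  have hh1 : (h : G) ≠ 1 := fun e => hh (Subtype.ext e)
  rw [tiXi_hom_bisum H hcomm]
  have h1 : ∀ x y : Subgroup.normalizer (H : Set G),
      (Helper3.tiConj H x h * Helper3.tiConj H y h⁻¹ = 1) ↔ ((x * y⁻¹ : _) : G) ∈ H := by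
    intro x y
    rw [map_inv, mul_inv_eq_one]
    constructor
    · intro e
      have e1 : (x : G)⁻¹ * h * x = (y : G)⁻¹ * h * y := congrArg Subtype.val e
      apply hfrob h h.2 hh1
      refine Subgroup.mem_inf.2 ⟨(x * y⁻¹).2, ?_⟩
      rw [Subgroup.mem_centralizer_singleton_iff]
      simp only [Subgroup.coe_mul, InvMemClass.coe_inv]
      calc (x : G) * (y : G)⁻¹ * h = (x : G) * ((y : G)⁻¹ * h * y) * (y : G)⁻¹ := by group
        _ = (x : G) * ((x : G)⁻¹ * h * x) * (y : G)⁻¹ := by rw [e1]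
        _ = h * ((x : G) * (y : G)⁻¹) := by group
    · intro hm
      apply Subtype.ext
      rw [Helper3.tiConj_coe, Helper3.tiConj_coe]
      have e2 := congrArg Subtype.val (hcomm ⟨_, hm⟩ h)
      simp only [Subgroup.coe_mul, InvMemClass.coe_inv] at e2
      calc (x : G)⁻¹ * h * x = (y : G)⁻¹ * ((y : G) * (x : G)⁻¹ * h) * x := by group
        _ = (y : G)⁻¹ * ((x : G) * (y : G)⁻¹)⁻¹ * h * x := by group
        _ = (y : G)⁻¹ * ((x : G) * (y : G)⁻¹)⁻¹ * (h * ((x : G) * (y : G)⁻¹)) * y := by group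
        _ = (y : G)⁻¹ * ((x : G) * (y : G)⁻¹)⁻¹ * ((x : G) * (y : G)⁻¹ * h) * y := by rw [e2]
        _ = (y : G)⁻¹ * h * y := by group
  have h2 : ∀ x : Subgroup.normalizer (H : Set G),
      ∑ y : Subgroup.normalizer (H : Set G),
        (if Helper3.tiConj H x h * Helper3.tiConj H y h⁻¹ = 1 then (1 : ℂ) else 0) =
      (Nat.card H : ℂ) := by
    intro x
    simp only [h1]
    rw [← h6_sum_mem_normalizer H]
    refine Fintype.sum_bijective (fun y : Subgroup.normalizer (H : Set G) => x * y⁻¹) ?_ _ _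
      (fun _ => rfl)
    refine Function.bijective_iff_has_inverse.2 ⟨fun z => z⁻¹ * x, ?_, ?_⟩
    · intro y
      simp
    · intro z
      simp
  rw [Finset.sum_congr rfl (fun x _ => h2 x), Finset.sum_const, Finset.card_univ, nsmul_eq_mul,
    ← Nat.card_eq_fintype_card, ← mul_assoc, mul_comm _ (Nat.card (Subgroup.normalizer (H : Set G)) : ℂ),
    mul_assoc, inv_mul_cancel₀ hH, mul_one]

/-- the sum of the squared norms of the orbit sums, over the non-trivial linear characters -/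
theorem tiXi_erase_normsq (H : Subgroup G)
    (hfrob : ∀ h ∈ H, h ≠ 1 →
      Subgroup.normalizer (H : Set G) ⊓ Subgroup.centralizer ({h} : Set G) ≤ H)
    (hcomm : ∀ a b : H, a * b = b * a) [Fintype (H →* ℂˣ)] [DecidableEq (H →* ℂˣ)]
    (h : H) (hh : h ≠ 1) :
    ∑ α ∈ Finset.univ.erase (1 : H →* ℂˣ), ‖tiXi H α h‖ ^ 2 =
      (Nat.card (Subgroup.normalizer (H : Set G)) : ℝ) -
        ((Nat.card (Subgroup.normalizer (H : Set G)) : ℝ) / (Nat.card H : ℝ)) ^ 2 := by
  have h1 : ∑ α : H →* ℂˣ, ‖tiXi H α h‖ ^ 2 =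
      (Nat.card (Subgroup.normalizer (H : Set G)) : ℝ) := by
    apply Complex.ofReal_injective
    rw [Complex.ofReal_sum, Complex.ofReal_natCast, ← tiXi_hom_sum_inv H hfrob hcomm h hh]
    refine Finset.sum_congr rfl fun α _ => ?_
    rw [tiXi_inv, Complex.mul_conj']
    push_cast
    rfl
  rw [Finset.sum_erase_eq_sub (Finset.mem_univ _), h1, tiXi_triv]
  congr 1
  rw [← Complex.ofReal_natCast, ← Complex.ofReal_natCast, ← Complex.ofReal_div,
    Complex.norm_real, Real.norm_eq_abs, sq_abs]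

/-- the sum of the squares of the orbit sums has non-negative real part -/
theorem tiXi_erase_sq_re (H : Subgroup G) (hcomm : ∀ a b : H, a * b = b * a)
    [Fintype (H →* ℂˣ)] [DecidableEq (H →* ℂˣ)] (h : H) :
    -((Nat.card (Subgroup.normalizer (H : Set G)) : ℝ) / (Nat.card H : ℝ)) ^ 2 ≤
      (∑ α ∈ Finset.univ.erase (1 : H →* ℂˣ), tiXi H α h ^ 2).re := by
  have h1 : ∑ α : H →* ℂˣ, tiXi H α h ^ 2 =
      (((Nat.card H : ℝ)⁻¹ * ∑ x : Subgroup.normalizer (H : Set G),
        ∑ y : Subgroup.normalizer (H : Set G),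
          (if Helper3.tiConj H x h * Helper3.tiConj H y h = 1 then (1 : ℝ) else 0) : ℝ) : ℂ) := by
    have h2 : ∀ α : H →* ℂˣ, tiXi H α h ^ 2 = tiXi H α h * tiXi H α h := fun α => sq _
    rw [Finset.sum_congr rfl (fun α _ => h2 α), tiXi_hom_bisum H hcomm]
    rw [Complex.ofReal_mul, Complex.ofReal_inv, Complex.ofReal_natCast, Complex.ofReal_sum]
    congr 1
    refine Finset.sum_congr rfl fun x _ => ?_
    rw [Complex.ofReal_sum]
    refine Finset.sum_congr rfl fun y _ => ?_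
    split_ifs <;> simp
  have h3 : (0 : ℝ) ≤ (Nat.card H : ℝ)⁻¹ * ∑ x : Subgroup.normalizer (H : Set G),
        ∑ y : Subgroup.normalizer (H : Set G),
          (if Helper3.tiConj H x h * Helper3.tiConj H y h = 1 then (1 : ℝ) else 0) := by
    apply mul_nonneg (by positivity)
    apply Finset.sum_nonneg
    intro x _
    apply Finset.sum_nonneg
    intro y _
    split_ifs <;> norm_num
  rw [Finset.sum_erase_eq_sub (Finset.mem_univ _), h1, tiXi_triv, Complex.sub_re,
    Complex.ofReal_re]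
  have h4 : (((Nat.card (Subgroup.normalizer (H : Set G)) : ℂ) / (Nat.card H : ℂ)) ^ 2).re =
      ((Nat.card (Subgroup.normalizer (H : Set G)) : ℝ) / (Nat.card H : ℝ)) ^ 2 := by
    rw [← Complex.ofReal_natCast, ← Complex.ofReal_natCast, ← Complex.ofReal_div,
      ← Complex.ofReal_pow, Complex.ofReal_re]
  rw [h4]
  linarith

/-- a norm bound for weighted sums of squares of orbit sums -/
theorem tiXi_erase_norm_bound (H : Subgroup G)
    (hfrob : ∀ h ∈ H, h ≠ 1 →
      Subgroup.normalizer (H : Set G) ⊓ Subgroup.centralizer ({h} : Set G) ≤ H)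
    (hcomm : ∀ a b : H, a * b = b * a) [Fintype (H →* ℂˣ)] [DecidableEq (H →* ℂˣ)]
    (h : H) (hh : h ≠ 1) (c : (H →* ℂˣ) → ℂ) (M : ℝ) (hc : ∀ α, ‖c α‖ ≤ M) :
    ‖∑ α ∈ Finset.univ.erase (1 : H →* ℂˣ), tiXi H α h ^ 2 * c α‖ ≤
      M * ((Nat.card (Subgroup.normalizer (H : Set G)) : ℝ) -
        ((Nat.card (Subgroup.normalizer (H : Set G)) : ℝ) / (Nat.card H : ℝ)) ^ 2) := by
  rw [← tiXi_erase_normsq H hfrob hcomm h hh, Finset.mul_sum]
  refine (norm_sum_le _ _).trans (Finset.sum_le_sum fun α _ => ?_)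
  rw [norm_mul, norm_pow, mul_comm]
  exact mul_le_mul_of_nonneg_right (hc α) (by positivity)

end SzCs2

end Cfsg.Agent.Helper6
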