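import Mathlib
import Cfsg.Agent.Helper6.SzCs1
import Cfsg.Agent.Helper6.SzCs2

/-!
# Values of the irreducible characters of a group with a Suzuki-type partition, and the two
constituents of the class function `chW`
-/

set_option autoImplicit false

namespace Cfsg.Agent.Helper6

open scoped ComplexConjugate
open Classical

section SzCs3

variable {G : Type*} [Group G] [Fintype G] {s : ℕ}

/-! ### values on `U` -/

theorem SzChData.chSt_U (S : SzChData G s) (u : S.U) (hu : u ≠ 1) : S.chSt (u : G) = 0 := by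
  unfold SzChData.chSt
  rw [S.cf_U _ _ _ _ (S.uf_adm _ _) u hu]
  by_cases hz : (u : G) ∈ S.Z
  · exact S.uf_Z _ _ hu hz
  · exact S.uf_nZ _ _ hz

theorem SzChData.chX_U (S : SzChData G s) (l : S.D →* ℂˣ) (u : S.U) (hu : u ≠ 1) :
    S.chX l (u : G) = 1 := by
  unfold SzChData.chX
  rw [S.cf_U _ _ _ _ (S.uf_adm _ _) u hu]
  by_cases hz : (u : G) ∈ S.Z
  · exact S.uf_Z _ _ hu hz
  · exact S.uf_nZ _ _ hz

theorem SzChData.chY_UZ (S : SzChData G s) (l : S.A →* ℂˣ) (u : S.U) (hu : u ≠ 1)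
    (hz : (u : G) ∈ S.Z) : S.chY l (u : G) = 2 * (s : ℂ) - 1 := by
  unfold SzChData.chY
  rw [S.cf_U _ _ _ _ (S.uf_adm _ _) u hu]
  exact S.uf_Z _ _ hu hz

theorem SzChData.chY_UN (S : SzChData G s) (l : S.A →* ℂˣ) (u : S.U)
    (hz : (u : G) ∉ S.Z) : S.chY l (u : G) = -1 := by
  have hu : u ≠ 1 := by
    rintro rfl
    exact hz S.Z.one_mem
  unfold SzChData.chY
  rw [S.cf_U _ _ _ _ (S.uf_adm _ _) u hu]
  exact S.uf_nZ _ _ hz

theorem SzChData.chZ_UZ (S : SzChData G s) (l : S.B →* ℂˣ) (u : S.U) (hu : u ≠ 1)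
    (hz : (u : G) ∈ S.Z) : S.chZ l (u : G) = -(2 * (s : ℂ)) - 1 := by
  unfold SzChData.chZ
  rw [S.cf_U _ _ _ _ (S.uf_adm _ _) u hu]
  exact S.uf_Z _ _ hu hz

theorem SzChData.chZ_UN (S : SzChData G s) (l : S.B →* ℂˣ) (u : S.U)
    (hz : (u : G) ∉ S.Z) : S.chZ l (u : G) = -1 := by
  have hu : u ≠ 1 := by
    rintro rfl
    exact hz S.Z.one_mem
  unfold SzChData.chZ
  rw [S.cf_U _ _ _ _ (S.uf_adm _ _) u hu]
  exact S.uf_nZ _ _ hz

theorem SzChData.chW_UZ (S : SzChData G s) (u : S.U) (hu : u ≠ 1)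
    (hz : (u : G) ∈ S.Z) : S.chW (u : G) = -(2 * (s : ℂ)) := by
  unfold SzChData.chW
  rw [S.cf_U _ _ _ _ (S.uf_adm _ _) u hu]
  exact S.uf_Z _ _ hu hz

theorem SzChData.chW_UN (S : SzChData G s) (u : S.U)
    (hz : (u : G) ∉ S.Z) : S.chW (u : G) = 0 := by
  have hu : u ≠ 1 := by
    rintro rfl
    exact hz S.Z.one_mem
  unfold SzChData.chW
  rw [S.cf_U _ _ _ _ (S.uf_adm _ _) u hu]
  exact S.uf_nZ _ _ hz

/-! ### values on `D` -/

theorem SzChData.chSt_D (S : SzChData G s) (u : S.D) (hu : u ≠ 1) : S.chSt (u : G) = 1 := by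
  unfold SzChData.chSt
  rw [S.cf_D _ _ _ _ (tiC_adm _ _) u hu, tiC_of_ne _ _ hu]

theorem SzChData.chX_D (S : SzChData G s) (l : S.D →* ℂˣ) (u : S.D) (hu : u ≠ 1) :
    S.chX l (u : G) = tiXi S.D l u := by
  unfold SzChData.chX
  rw [S.cf_D _ _ _ _ (tiX_adm _ _ _) u hu, tiX_of_ne _ _ _ hu, one_mul]

theorem SzChData.chY_D (S : SzChData G s) (l : S.A →* ℂˣ) (u : S.D) (hu : u ≠ 1) :
    S.chY l (u : G) = 0 := by
  unfold SzChData.chY
  rw [S.cf_D _ _ _ _ (tiC_adm _ _) u hu, tiC_of_ne _ _ hu]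

theorem SzChData.chZ_D (S : SzChData G s) (l : S.B →* ℂˣ) (u : S.D) (hu : u ≠ 1) :
    S.chZ l (u : G) = 0 := by
  unfold SzChData.chZ
  rw [S.cf_D _ _ _ _ (tiC_adm _ _) u hu, tiC_of_ne _ _ hu]

theorem SzChData.chW_D (S : SzChData G s) (u : S.D) (hu : u ≠ 1) : S.chW (u : G) = 0 := by
  unfold SzChData.chW
  rw [S.cf_D _ _ _ _ (tiC_adm _ _) u hu, tiC_of_ne _ _ hu]

/-! ### values on `A` -/

theorem SzChData.chSt_A (S : SzChData G s) (u : S.A) (hu : u ≠ 1) : S.chSt (u : G) = -1 := by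
  unfold SzChData.chSt
  rw [S.cf_A _ _ _ _ (tiC_adm _ _) u hu, tiC_of_ne _ _ hu]

theorem SzChData.chX_A (S : SzChData G s) (l : S.D →* ℂˣ) (u : S.A) (hu : u ≠ 1) :
    S.chX l (u : G) = 0 := by
  unfold SzChData.chX
  rw [S.cf_A _ _ _ _ (tiC_adm _ _) u hu, tiC_of_ne _ _ hu]

theorem SzChData.chY_A (S : SzChData G s) (l : S.A →* ℂˣ) (u : S.A) (hu : u ≠ 1) :
    S.chY l (u : G) = -tiXi S.A l u := by
  unfold SzChData.chY
  rw [S.cf_A _ _ _ _ (tiX_adm _ _ _) u hu, tiX_of_ne _ _ _ hu, neg_one_mul]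

theorem SzChData.chZ_A (S : SzChData G s) (l : S.B →* ℂˣ) (u : S.A) (hu : u ≠ 1) :
    S.chZ l (u : G) = 0 := by
  unfold SzChData.chZ
  rw [S.cf_A _ _ _ _ (tiC_adm _ _) u hu, tiC_of_ne _ _ hu]

theorem SzChData.chW_A (S : SzChData G s) (u : S.A) (hu : u ≠ 1) : S.chW (u : G) = 2 := by
  unfold SzChData.chW
  rw [S.cf_A _ _ _ _ (tiC_adm _ _) u hu, tiC_of_ne _ _ hu]

/-! ### values on `B` -/

theorem SzChData.chSt_B (S : SzChData G s) (u : S.B) (hu : u ≠ 1) : S.chSt (u : G) = -1 := by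
  unfold SzChData.chSt
  rw [S.cf_B _ _ _ _ (tiC_adm _ _) u hu, tiC_of_ne _ _ hu]

theorem SzChData.chX_B (S : SzChData G s) (l : S.D →* ℂˣ) (u : S.B) (hu : u ≠ 1) :
    S.chX l (u : G) = 0 := by
  unfold SzChData.chX
  rw [S.cf_B _ _ _ _ (tiC_adm _ _) u hu, tiC_of_ne _ _ hu]

theorem SzChData.chY_B (S : SzChData G s) (l : S.A →* ℂˣ) (u : S.B) (hu : u ≠ 1) :
    S.chY l (u : G) = 0 := by
  unfold SzChData.chY
  rw [S.cf_B _ _ _ _ (tiC_adm _ _) u hu, tiC_of_ne _ _ hu]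

theorem SzChData.chZ_B (S : SzChData G s) (l : S.B →* ℂˣ) (u : S.B) (hu : u ≠ 1) :
    S.chZ l (u : G) = -tiXi S.B l u := by
  unfold SzChData.chZ
  rw [S.cf_B _ _ _ _ (tiX_adm _ _ _) u hu, tiX_of_ne _ _ _ hu, neg_one_mul]

theorem SzChData.chW_B (S : SzChData G s) (u : S.B) (hu : u ≠ 1) : S.chW (u : G) = -2 := by
  unfold SzChData.chW
  rw [S.cf_B _ _ _ _ (tiC_adm _ _) u hu, tiC_of_ne _ _ hu]

/-! ### the two constituents of `chW` -/

/-- an irreducible character outside the explicit families -/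
def SzChData.Other (S : SzChData G s) (χ : G → ℂ) : Prop :=
  χ ≠ S.chOne ∧ χ ≠ S.chSt ∧ (∀ l : S.D →* ℂˣ, l ≠ 1 → χ ≠ S.chX l) ∧
    (∀ l : S.A →* ℂˣ, l ≠ 1 → χ ≠ S.chY l) ∧ (∀ l : S.B →* ℂˣ, l ≠ 1 → χ ≠ S.chZ l)

theorem SzChData.inner_W_of_not_other (S : SzChData G s) (χ : G → ℂ) (h : ¬ S.Other χ) :
    Cfsg.classInner S.chW χ = 0 := by
  unfold SzChData.Other at h
  by_cases h1 : χ = S.chOne
  · rw [h1]; exact S.chW_chOne
  by_cases h2 : χ = S.chSt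
  · rw [h2]; exact S.chW_chSt
  by_cases h3 : ∃ l : S.D →* ℂˣ, l ≠ 1 ∧ χ = S.chX l
  · obtain ⟨l, hl, e⟩ := h3
    rw [e]; exact S.chW_chX l hl
  by_cases h4 : ∃ l : S.A →* ℂˣ, l ≠ 1 ∧ χ = S.chY l
  · obtain ⟨l, hl, e⟩ := h4
    rw [e]; exact S.chW_chY l hl
  by_cases h5 : ∃ l : S.B →* ℂˣ, l ≠ 1 ∧ χ = S.chZ l
  · obtain ⟨l, hl, e⟩ := h5
    rw [e]; exact S.chW_chZ l hl
  exfalso
  push Not at h3 h4 h5
  exact h ⟨h1, h2, h3, h4, h5⟩

theorem SzChData.inner_W_of_other (S : SzChData G s) (χ : Cfsg.IrrCharacter G)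
    (h : S.Other (χ : G → ℂ)) : Cfsg.classInner S.chW χ = 1 := by
  obtain ⟨h1, h2, h3, h4, h5⟩ := h
  have : Finite (S.D →* ℂˣ) := Helper80.finite_hom
  have : Finite (S.A →* ℂˣ) := Helper80.finite_hom
  have : Finite (S.B →* ℂˣ) := Helper80.finite_hom
  let _ : Fintype (S.D →* ℂˣ) := Fintype.ofFinite _
  let _ : Fintype (S.A →* ℂˣ) := Fintype.ofFinite _
  let _ : Fintype (S.B →* ℂˣ) := Fintype.ofFinite _
  have hreg := S.chReg_eq
  have key : Cfsg.classInner S.chReg χ =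
      ((s : ℂ) * (2 * (s : ℂ) ^ 2 - 1)) * Cfsg.classInner S.chW χ := by
    unfold SzChData.chReg
    rw [Helper15.classInner_add_left, Helper15.classInner_add_left,
      Helper15.classInner_add_left, Helper15.classInner_add_left,
      Helper15.classInner_add_left, Helper15.classInner_smul_left,
      Helper15.classInner_smul_left, Helper15.classInner_smul_left,
      Helper15.classInner_smul_left, Helper15.classInner_smul_left,
      Helper15.classInner_sum_left, Helper15.classInner_sum_left,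
      Helper15.classInner_sum_left,
      Helper15.irr_inner_ne S.chOne_irr χ.2 (Ne.symm h1),
      Helper15.irr_inner_ne S.chSt_irr χ.2 (Ne.symm h2),
      Finset.sum_eq_zero (fun l hl => Helper15.irr_inner_ne
        (S.chX_irr l (Finset.ne_of_mem_erase hl)) χ.2
        (Ne.symm (h3 l (Finset.ne_of_mem_erase hl)))),
      Finset.sum_eq_zero (fun l hl => Helper15.irr_inner_ne
        (S.chY_irr l (Finset.ne_of_mem_erase hl)) χ.2
        (Ne.symm (h4 l (Finset.ne_of_mem_erase hl)))),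
      Finset.sum_eq_zero (fun l hl => Helper15.irr_inner_ne
        (S.chZ_irr l (Finset.ne_of_mem_erase hl)) χ.2
        (Ne.symm (h5 l (Finset.ne_of_mem_erase hl))))]
    ring
  rw [hreg, Helper15.classInner_smul_left, classInner_chDelta] at key
  have hχ1 := Helper80.irr_one_eq χ
  have hdeg := S.degree_of_other χ h1 h2 h3 h4 h5
  rw [hχ1, Complex.conj_natCast, hdeg] at key
  have hG : (Nat.card G : ℂ) ≠ 0 := by exact_mod_cast Nat.card_pos.ne'
  rw [← mul_assoc, mul_inv_cancel₀ hG, one_mul, Nat.cast_mul, szc_subC1 S.hs] at key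
  have hne : (s : ℂ) * (2 * (s : ℂ) ^ 2 - 1) ≠ 0 := mul_ne_zero S.s_ne S.d_ne
  have key2 : ((s : ℂ) * (2 * (s : ℂ) ^ 2 - 1)) * (Cfsg.classInner S.chW χ - 1) = 0 := by
    rw [mul_sub, ← key, mul_one, sub_self]
  rcases mul_eq_zero.1 key2 with h6 | h6
  · exact absurd h6 hne
  · exact sub_eq_zero.1 h6

/-- `chW` is the sum of two irreducible characters of degree `s (2 s^2 - 1)` -/
theorem SzChData.exists_W (S : SzChData G s) : ∃ W₁ W₂ : Cfsg.IrrCharacter G,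
    S.chW = (W₁ : G → ℂ) + (W₂ : G → ℂ) ∧
    (W₁ : G → ℂ) 1 = (s : ℂ) * (2 * (s : ℂ) ^ 2 - 1) ∧
    (W₂ : G → ℂ) 1 = (s : ℂ) * (2 * (s : ℂ) ^ 2 - 1) := by
  have : Fintype (Cfsg.IrrCharacter G) := Fintype.ofFinite _
  have hcl := S.chW_cl
  have hm : ∀ χ : Cfsg.IrrCharacter G, Cfsg.classInner S.chW χ =
      if S.Other (χ : G → ℂ) then 1 else 0 := by
    intro χ
    by_cases h : S.Other (χ : G → ℂ)
    · rw [if_pos h]; exact S.inner_W_of_other χ h
    · rw [if_neg h]; exact S.inner_W_of_not_other _ h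
  have h1 := Helper15.classInner_eq_sum (θ := S.chW) (θ' := S.chW) hcl
  rw [S.chW_norm] at h1
  have h2 : (2 : ℂ) = ((Finset.univ.filter
      (fun χ : Cfsg.IrrCharacter G => S.Other (χ : G → ℂ))).card : ℂ) := by
    rw [h1, Finset.card_filter]
    push_cast
    refine Finset.sum_congr rfl fun χ _ => ?_
    rw [hm χ]
    split_ifs <;> simp
  have h3 : (Finset.univ.filter
      (fun χ : Cfsg.IrrCharacter G => S.Other (χ : G → ℂ))).card = 2 := by
    exact_mod_cast h2.symm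
  obtain ⟨W₁, W₂, hne, hT⟩ := Finset.card_eq_two.1 h3
  have hW₁ : S.Other (W₁ : G → ℂ) := by
    have : W₁ ∈ Finset.univ.filter (fun χ : Cfsg.IrrCharacter G => S.Other (χ : G → ℂ)) := by
      rw [hT]; simp
    exact (Finset.mem_filter.1 this).2
  have hW₂ : S.Other (W₂ : G → ℂ) := by
    have : W₂ ∈ Finset.univ.filter (fun χ : Cfsg.IrrCharacter G => S.Other (χ : G → ℂ)) := by
      rw [hT]; simp
    exact (Finset.mem_filter.1 this).2
  have hdeg : ∀ W : Cfsg.IrrCharacter G, S.Other (W : G → ℂ) →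
      (W : G → ℂ) 1 = (s : ℂ) * (2 * (s : ℂ) ^ 2 - 1) := by
    intro W hW
    obtain ⟨a1, a2, a3, a4, a5⟩ := hW
    rw [Helper80.irr_one_eq, S.degree_of_other W a1 a2 a3 a4 a5, Nat.cast_mul, szc_subC1 S.hs]
  refine ⟨W₁, W₂, ?_, hdeg W₁ hW₁, hdeg W₂ hW₂⟩
  have h4 := Helper15.classFun_eq_sum hcl
  rw [h4]
  have h5 : ∀ χ : Cfsg.IrrCharacter G, Cfsg.classInner S.chW χ • (χ : G → ℂ) =
      if χ ∈ ({W₁, W₂} : Finset (Cfsg.IrrCharacter G)) then (χ : G → ℂ) else 0 := by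
    intro χ
    rw [hm χ]
    by_cases h : S.Other (χ : G → ℂ)
    · have h6 : χ ∈ ({W₁, W₂} : Finset (Cfsg.IrrCharacter G)) := by
        rw [← hT]
        exact Finset.mem_filter.2 ⟨Finset.mem_univ _, h⟩
      rw [if_pos h, if_pos h6, one_smul]
    · have h6 : χ ∉ ({W₁, W₂} : Finset (Cfsg.IrrCharacter G)) := by
        rw [← hT]
        intro h7
        exact h (Finset.mem_filter.1 h7).2
      rw [if_neg h, if_neg h6, zero_smul]
  rw [Finset.sum_congr rfl (fun χ _ => h5 χ), Finset.sum_ite_mem, Finset.univ_inter,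
    Finset.sum_pair hne]

end SzCs3

end Cfsg.Agent.Helper6
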