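import Mathlib
import Cfsg.Agent.Helper6.SzCs3

/-!
# Weighted sums over the irreducible characters of a group with a Suzuki-type partition

`SzChData.fam` sums a functional over all irreducible characters (each family being counted with
the correct multiplicity); the decomposition of the regular character turns into orthogonality
relations and into the class multiplication formula.
-/

set_option autoImplicit false

namespace Cfsg.Agent.Helper6

open scoped ComplexConjugate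
open Classical

section SzCs4

variable {G : Type*} [Group G] [Fintype G] {s : ℕ}

/-- the pairing of two functions on the group -/
noncomputable def h6_pr (h ψ : G → ℂ) : ℂ := ∑ y : G, h y * ψ y

theorem h6_pr_add (h ψ φ : G → ℂ) : h6_pr h (ψ + φ) = h6_pr h ψ + h6_pr h φ := by
  unfold h6_pr
  rw [← Finset.sum_add_distrib]
  refine Finset.sum_congr rfl fun y _ => ?_
  rw [Pi.add_apply, mul_add]

theorem h6_pr_smul (h ψ : G → ℂ) (c : ℂ) : h6_pr h (c • ψ) = c * h6_pr h ψ := by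
  unfold h6_pr
  rw [Finset.mul_sum]
  refine Finset.sum_congr rfl fun y _ => ?_
  rw [Pi.smul_apply, smul_eq_mul]
  ring

theorem h6_pr_sum {ι : Type*} (t : Finset ι) (h : G → ℂ) (f : ι → G → ℂ) :
    h6_pr h (∑ i ∈ t, f i) = ∑ i ∈ t, h6_pr h (f i) := by
  unfold h6_pr
  rw [Finset.sum_comm]
  refine Finset.sum_congr rfl fun y _ => ?_
  rw [Finset.sum_apply, Finset.mul_sum]

theorem h6_pr_delta (h : G → ℂ) : h6_pr h (chDelta G) = h 1 := by
  unfold h6_pr chDelta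
  rw [Finset.sum_eq_single 1]
  · simp
  · intro y _ hy
    simp [hy]
  · intro h1
    exact absurd (Finset.mem_univ _) h1

/-- the weighted sum of a functional over the irreducible characters -/
noncomputable def SzChData.fam (S : SzChData G s) [Fintype (S.D →* ℂˣ)] [Fintype (S.A →* ℂˣ)]
    [Fintype (S.B →* ℂˣ)] (W₁ W₂ : G → ℂ) (Φ : (G → ℂ) → ℂ) : ℂ :=
  Φ S.chOne + Φ S.chSt + (1 / 2) * ∑ l ∈ Finset.univ.erase (1 : S.D →* ℂˣ), Φ (S.chX l) +
    (1 / 4) * ∑ α ∈ Finset.univ.erase (1 : S.A →* ℂˣ), Φ (S.chY α) +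
    (1 / 4) * ∑ β ∈ Finset.univ.erase (1 : S.B →* ℂˣ), Φ (S.chZ β) + Φ W₁ + Φ W₂

theorem SzChData.fam_reg (S : SzChData G s) [Fintype (S.D →* ℂˣ)] [Fintype (S.A →* ℂˣ)]
    [Fintype (S.B →* ℂˣ)] (W₁ W₂ : G → ℂ) (hW : S.chW = W₁ + W₂)
    (hW1 : W₁ 1 = (s : ℂ) * (2 * (s : ℂ) ^ 2 - 1))
    (hW2 : W₂ 1 = (s : ℂ) * (2 * (s : ℂ) ^ 2 - 1)) (h : G → ℂ) :
    (Nat.card G : ℂ) * h 1 = S.fam W₁ W₂ (fun ψ => ψ 1 * h6_pr h ψ) := by
  have e0 : h6_pr h S.chReg = (Nat.card G : ℂ) * h 1 := by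
    rw [S.chReg_eq, h6_pr_smul, h6_pr_delta]
  rw [← e0]
  unfold SzChData.chReg SzChData.fam
  rw [h6_pr_add, h6_pr_add, h6_pr_add, h6_pr_add, h6_pr_add, h6_pr_smul, h6_pr_smul, h6_pr_smul,
    h6_pr_smul, h6_pr_smul, h6_pr_sum, h6_pr_sum, h6_pr_sum, hW, h6_pr_add]
  simp only [S.chOne_one, S.chSt_one, S.chX_one, S.chY_one, S.chZ_one, hW1, hW2,
    ← Finset.mul_sum, Nat.cast_mul, szc_subC1 S.hs, szc_subC2 S.hs]
  push_cast
  ring

theorem SzChData.fam_scale (S : SzChData G s) [Fintype (S.D →* ℂˣ)] [Fintype (S.A →* ℂˣ)]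
    [Fintype (S.B →* ℂˣ)] (W₁ W₂ : G → ℂ) (hW₁ : Cfsg.IsIrrCharacter G W₁)
    (hW₂ : Cfsg.IsIrrCharacter G W₂) (Φ Φ' : (G → ℂ) → ℂ) (c : ℂ)
    (h : ∀ ψ : G → ℂ, Cfsg.IsIrrCharacter G ψ → Φ ψ = c * Φ' ψ) :
    S.fam W₁ W₂ Φ = c * S.fam W₁ W₂ Φ' := by
  unfold SzChData.fam
  rw [h _ S.chOne_irr, h _ S.chSt_irr, h _ hW₁, h _ hW₂,
    Finset.sum_congr rfl (fun l hl => h _ (S.chX_irr l (Finset.ne_of_mem_erase hl))),
    Finset.sum_congr rfl (fun l hl => h _ (S.chY_irr l (Finset.ne_of_mem_erase hl))),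
    Finset.sum_congr rfl (fun l hl => h _ (S.chZ_irr l (Finset.ne_of_mem_erase hl))),
    ← Finset.mul_sum, ← Finset.mul_sum, ← Finset.mul_sum]
  ring

/-- the class multiplication formula for three class sums -/
theorem SzChData.fam_tri (S : SzChData G s) [Fintype (S.D →* ℂˣ)] [Fintype (S.A →* ℂˣ)]
    [Fintype (S.B →* ℂˣ)] (W₁ W₂ : Cfsg.IrrCharacter G)
    (hW : S.chW = (W₁ : G → ℂ) + (W₂ : G → ℂ))
    (hW1 : (W₁ : G → ℂ) 1 = (s : ℂ) * (2 * (s : ℂ) ^ 2 - 1))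
    (hW2 : (W₂ : G → ℂ) 1 = (s : ℂ) * (2 * (s : ℂ) ^ 2 - 1)) (x k : G) :
    (Nat.card G : ℂ) * Helper81.conv (Helper81.conv (Helper81.classInd x)
      (Helper81.classInd x)) (Helper81.classInd k) 1 =
      ((Subgroup.centralizer ({x} : Set G)).index : ℂ) ^ 2 *
        ((Subgroup.centralizer ({k} : Set G)).index : ℂ) *
        S.fam W₁ W₂ (fun ψ => ψ x ^ 2 * ψ k / ψ 1) := by
  rw [S.fam_reg W₁ W₂ hW hW1 hW2]
  apply S.fam_scale W₁ W₂ W₁.2 W₂.2
  intro ψ hψ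
  exact h6_pair_conv3 ⟨ψ, hψ⟩ x k

/-- the multiplication formula for two class sums -/
theorem SzChData.fam_bi (S : SzChData G s) [Fintype (S.D →* ℂˣ)] [Fintype (S.A →* ℂˣ)]
    [Fintype (S.B →* ℂˣ)] (W₁ W₂ : Cfsg.IrrCharacter G)
    (hW : S.chW = (W₁ : G → ℂ) + (W₂ : G → ℂ))
    (hW1 : (W₁ : G → ℂ) 1 = (s : ℂ) * (2 * (s : ℂ) ^ 2 - 1))
    (hW2 : (W₂ : G → ℂ) 1 = (s : ℂ) * (2 * (s : ℂ) ^ 2 - 1)) (g h : G) :
    (Nat.card G : ℂ) * Helper81.conv (Helper81.classInd g) (Helper81.classInd h) 1 =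
      ((Subgroup.centralizer ({g} : Set G)).index : ℂ) *
        ((Subgroup.centralizer ({h} : Set G)).index : ℂ) *
        S.fam W₁ W₂ (fun ψ => ψ g * ψ h) := by
  rw [S.fam_reg W₁ W₂ hW hW1 hW2]
  apply S.fam_scale W₁ W₂ W₁.2 W₂.2
  intro ψ hψ
  exact h6_pair_conv2 ⟨ψ, hψ⟩ g h

omit [Fintype G] in
theorem h6_index_ne_zero [Finite G] (g : G) :
    ((Subgroup.centralizer ({g} : Set G)).index : ℂ) ≠ 0 := by
  have : (Subgroup.centralizer ({g} : Set G)).index ≠ 0 := Subgroup.index_ne_zero_of_finite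
  exact_mod_cast this

/-- column orthogonality -/
theorem SzChData.fam_col (S : SzChData G s) [Fintype (S.D →* ℂˣ)] [Fintype (S.A →* ℂˣ)]
    [Fintype (S.B →* ℂˣ)] (W₁ W₂ : Cfsg.IrrCharacter G)
    (hW : S.chW = (W₁ : G → ℂ) + (W₂ : G → ℂ))
    (hW1 : (W₁ : G → ℂ) 1 = (s : ℂ) * (2 * (s : ℂ) ^ 2 - 1))
    (hW2 : (W₂ : G → ℂ) 1 = (s : ℂ) * (2 * (s : ℂ) ^ 2 - 1)) (g h : G) :
    S.fam W₁ W₂ (fun ψ => ψ g * ψ h) =
      if IsConj g⁻¹ h then (Nat.card (Subgroup.centralizer ({h} : Set G)) : ℂ) else 0 := by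
  have h1 := S.fam_bi W₁ W₂ hW hW1 hW2 g h
  rw [h6_conv2_one] at h1
  have hg := h6_index_ne_zero g
  have hh := h6_index_ne_zero h
  have hcard : (Nat.card G : ℂ) =
      ((Subgroup.centralizer ({h} : Set G)).index : ℂ) *
        (Nat.card (Subgroup.centralizer ({h} : Set G)) : ℂ) := by
    rw [← Nat.cast_mul, Subgroup.index_mul_card]
  by_cases hc : IsConj g⁻¹ h
  · rw [if_pos hc] at h1 ⊢
    rw [hcard] at h1
    have h2 : ((Subgroup.centralizer ({g} : Set G)).index : ℂ) *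
        ((Subgroup.centralizer ({h} : Set G)).index : ℂ) *
        (S.fam W₁ W₂ (fun ψ => ψ g * ψ h) -
          (Nat.card (Subgroup.centralizer ({h} : Set G)) : ℂ)) = 0 := by
      linear_combination -h1
    rcases mul_eq_zero.1 h2 with h3 | h3
    · exact absurd h3 (mul_ne_zero hg hh)
    · exact sub_eq_zero.1 h3
  · rw [if_neg hc] at h1 ⊢
    rw [mul_zero] at h1
    rcases mul_eq_zero.1 h1.symm with h3 | h3
    · exact absurd h3 (mul_ne_zero hg hh)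
    · exact h3

end SzCs4

end Cfsg.Agent.Helper6
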