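import Mathlib
import Cfsg.Agent.Helper6.SzCs4

/-!
# Values of the two exceptional characters of a group with a Suzuki-type partition

The class function `chW` is the sum of two irreducible characters `W₁`, `W₂`; column
orthogonality determines their values on the tori, and the squares of their values on the
non-central elements of `U` (when these are not conjugate to their inverses).
-/

set_option autoImplicit false

namespace Cfsg.Agent.Helper6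

open scoped ComplexConjugate
open Classical

section SzCs5

variable {G : Type*} [Group G] [Fintype G] {s : ℕ}

theorem h6_irr_inv (ψ : Cfsg.IrrCharacter G) (g : G) :
    (ψ : G → ℂ) g⁻¹ = conj ((ψ : G → ℂ) g) :=
  Helper80.isCharacter_inv (Helper80.isCharacter_of_irr ψ.2) g

theorem h6_two_normsq_zero (a b : ℂ) (h : a * conj a + b * conj b = 0) : a = 0 ∧ b = 0 := by
  rw [Complex.mul_conj', Complex.mul_conj'] at h
  have h1 : ‖a‖ ^ 2 + ‖b‖ ^ 2 = 0 := by exact_mod_cast h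
  have ha : ‖a‖ ^ 2 = 0 := by nlinarith [sq_nonneg ‖a‖, sq_nonneg ‖b‖]
  have hb : ‖b‖ ^ 2 = 0 := by nlinarith [sq_nonneg ‖a‖, sq_nonneg ‖b‖]
  exact ⟨norm_eq_zero.1 (pow_eq_zero_iff (by norm_num) |>.1 ha),
    norm_eq_zero.1 (pow_eq_zero_iff (by norm_num) |>.1 hb)⟩

theorem h6_two_normsq_two (a b c : ℂ) (hc : conj c = c) (hc2 : c * c = 1) (hsum : a + b = 2 * c)
    (h : a * conj a + b * conj b = 2) : a = c ∧ b = c := by
  have h2 : conj a + conj b = 2 * c := by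
    rw [← map_add, hsum, map_mul, hc, map_ofNat]
  have h1 : (a - c) * conj (a - c) + (b - c) * conj (b - c) = 0 := by
    rw [map_sub, map_sub, hc]
    linear_combination h - c * h2 - c * hsum - 2 * hc2
  obtain ⟨h3, h4⟩ := h6_two_normsq_zero _ _ h1
  exact ⟨sub_eq_zero.1 h3, sub_eq_zero.1 h4⟩

theorem SzChData.cent_D (S : SzChData G s) (d : G) (hd : d ∈ S.D) (h1 : d ≠ 1) :
    Subgroup.centralizer ({d} : Set G) = S.D := by
  apply le_antisymm (S.centD d hd h1)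
  intro y hy
  rw [Subgroup.mem_centralizer_iff]
  intro z hz
  rw [Set.mem_singleton_iff] at hz
  subst hz
  exact congrArg Subtype.val (S.commD ⟨z, hd⟩ ⟨y, hy⟩)

theorem SzChData.cent_A (S : SzChData G s) (d : G) (hd : d ∈ S.A) (h1 : d ≠ 1) :
    Subgroup.centralizer ({d} : Set G) = S.A := by
  apply le_antisymm (S.centA d hd h1)
  intro y hy
  rw [Subgroup.mem_centralizer_iff]
  intro z hz
  rw [Set.mem_singleton_iff] at hz
  subst hz
  exact congrArg Subtype.val (S.commA ⟨z, hd⟩ ⟨y, hy⟩)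

theorem SzChData.cent_B (S : SzChData G s) (d : G) (hd : d ∈ S.B) (h1 : d ≠ 1) :
    Subgroup.centralizer ({d} : Set G) = S.B := by
  apply le_antisymm (S.centB d hd h1)
  intro y hy
  rw [Subgroup.mem_centralizer_iff]
  intro z hz
  rw [Set.mem_singleton_iff] at hz
  subst hz
  exact congrArg Subtype.val (S.commB ⟨z, hd⟩ ⟨y, hy⟩)

/-- the exceptional characters vanish on `D` -/
theorem SzChData.W_D (S : SzChData G s) (W₁ W₂ : Cfsg.IrrCharacter G)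
    (hW : S.chW = (W₁ : G → ℂ) + (W₂ : G → ℂ))
    (hW1 : (W₁ : G → ℂ) 1 = (s : ℂ) * (2 * (s : ℂ) ^ 2 - 1))
    (hW2 : (W₂ : G → ℂ) 1 = (s : ℂ) * (2 * (s : ℂ) ^ 2 - 1)) (d : S.D) (hd : d ≠ 1) :
    (W₁ : G → ℂ) d = 0 ∧ (W₂ : G → ℂ) d = 0 := by
  have : Finite (S.D →* ℂˣ) := Helper80.finite_hom
  have : Finite (S.A →* ℂˣ) := Helper80.finite_hom
  have : Finite (S.B →* ℂˣ) := Helper80.finite_hom
  let _ : Fintype (S.D →* ℂˣ) := Fintype.ofFinite _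
  let _ : Fintype (S.A →* ℂˣ) := Fintype.ofFinite _
  let _ : Fintype (S.B →* ℂˣ) := Fintype.ofFinite _
  have hd' : d⁻¹ ≠ 1 := inv_ne_one.2 hd
  have hdG : ((d⁻¹ : S.D) : G) ≠ 1 := fun e => hd' (Subtype.ext e)
  have hcol := S.fam_col W₁ W₂ hW hW1 hW2 (d : G) ((d⁻¹ : S.D) : G)
  have hcj : IsConj (d : G)⁻¹ ((d⁻¹ : S.D) : G) := IsConj.refl _
  rw [if_pos hcj, S.cent_D _ (d⁻¹ : S.D).2 hdG, S.cD] at hcol
  unfold SzChData.fam at hcol
  have e1 : S.chOne (d : G) * S.chOne ((d⁻¹ : S.D) : G) = 1 := by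
    rw [S.chOne_eq, one_mul]
  have e2 : S.chSt (d : G) * S.chSt ((d⁻¹ : S.D) : G) = 1 := by
    rw [S.chSt_D d hd, S.chSt_D d⁻¹ hd', one_mul]
  have h3 : ∀ l ∈ Finset.univ.erase (1 : S.D →* ℂˣ),
      S.chX l (d : G) * S.chX l ((d⁻¹ : S.D) : G) = tiXi S.D l d * tiXi S.D l d⁻¹ :=
    fun l _ => by rw [S.chX_D l d hd, S.chX_D l d⁻¹ hd']
  have e3 : ∑ l ∈ Finset.univ.erase (1 : S.D →* ℂˣ),
      S.chX l (d : G) * S.chX l ((d⁻¹ : S.D) : G) = 2 * (2 * (s : ℂ) ^ 2 - 1) - 4 := by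
    rw [Finset.sum_congr rfl h3, Finset.sum_erase_eq_sub (Finset.mem_univ _),
      tiXi_hom_sum_inv S.D S.frobD S.commD d hd, tiXi_triv, tiXi_triv, S.cND, S.cD, S.qD]
    ring
  have e4 : ∑ l ∈ Finset.univ.erase (1 : S.A →* ℂˣ),
      S.chY l (d : G) * S.chY l ((d⁻¹ : S.D) : G) = 0 :=
    Finset.sum_eq_zero fun l _ => by rw [S.chY_D l d hd, zero_mul]
  have e5 : ∑ l ∈ Finset.univ.erase (1 : S.B →* ℂˣ),
      S.chZ l (d : G) * S.chZ l ((d⁻¹ : S.D) : G) = 0 :=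
    Finset.sum_eq_zero fun l _ => by rw [S.chZ_D l d hd, zero_mul]
  have e6 : (W₁ : G → ℂ) ((d⁻¹ : S.D) : G) = conj ((W₁ : G → ℂ) (d : G)) := h6_irr_inv W₁ (d : G)
  have e7 : (W₂ : G → ℂ) ((d⁻¹ : S.D) : G) = conj ((W₂ : G → ℂ) (d : G)) := h6_irr_inv W₂ (d : G)
  simp only [] at hcol
  rw [e1, e2, e3, e4, e5, e6, e7] at hcol
  apply h6_two_normsq_zero
  linear_combination hcol

/-- the exceptional characters take the value `1` on `A` -/
theorem SzChData.W_A (S : SzChData G s) (W₁ W₂ : Cfsg.IrrCharacter G)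
    (hW : S.chW = (W₁ : G → ℂ) + (W₂ : G → ℂ))
    (hW1 : (W₁ : G → ℂ) 1 = (s : ℂ) * (2 * (s : ℂ) ^ 2 - 1))
    (hW2 : (W₂ : G → ℂ) 1 = (s : ℂ) * (2 * (s : ℂ) ^ 2 - 1)) (d : S.A) (hd : d ≠ 1) :
    (W₁ : G → ℂ) d = 1 ∧ (W₂ : G → ℂ) d = 1 := by
  have : Finite (S.D →* ℂˣ) := Helper80.finite_hom
  have : Finite (S.A →* ℂˣ) := Helper80.finite_hom
  have : Finite (S.B →* ℂˣ) := Helper80.finite_hom
  let _ : Fintype (S.D →* ℂˣ) := Fintype.ofFinite _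
  let _ : Fintype (S.A →* ℂˣ) := Fintype.ofFinite _
  let _ : Fintype (S.B →* ℂˣ) := Fintype.ofFinite _
  have hd' : d⁻¹ ≠ 1 := inv_ne_one.2 hd
  have hdG : ((d⁻¹ : S.A) : G) ≠ 1 := fun e => hd' (Subtype.ext e)
  have hcol := S.fam_col W₁ W₂ hW hW1 hW2 (d : G) ((d⁻¹ : S.A) : G)
  have hcj : IsConj (d : G)⁻¹ ((d⁻¹ : S.A) : G) := IsConj.refl _
  rw [if_pos hcj, S.cent_A _ (d⁻¹ : S.A).2 hdG, S.cA] at hcol
  unfold SzChData.fam at hcol
  have e1 : S.chOne (d : G) * S.chOne ((d⁻¹ : S.A) : G) = 1 := by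
    rw [S.chOne_eq, one_mul]
  have e2 : S.chSt (d : G) * S.chSt ((d⁻¹ : S.A) : G) = 1 := by
    rw [S.chSt_A d hd, S.chSt_A d⁻¹ hd']
    ring
  have h3 : ∀ l ∈ Finset.univ.erase (1 : S.A →* ℂˣ),
      S.chY l (d : G) * S.chY l ((d⁻¹ : S.A) : G) = tiXi S.A l d * tiXi S.A l d⁻¹ :=
    fun l _ => by rw [S.chY_A l d hd, S.chY_A l d⁻¹ hd', neg_mul_neg]
  have e3 : ∑ l ∈ Finset.univ.erase (1 : S.A →* ℂˣ),
      S.chY l (d : G) * S.chY l ((d⁻¹ : S.A) : G) =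
        4 * (2 * (s : ℂ) ^ 2 + 2 * s + 1) - 16 := by
    rw [Finset.sum_congr rfl h3, Finset.sum_erase_eq_sub (Finset.mem_univ _),
      tiXi_hom_sum_inv S.A S.frobA S.commA d hd, tiXi_triv, tiXi_triv, S.cNA, S.cA, S.qA]
    ring
  have e4 : ∑ l ∈ Finset.univ.erase (1 : S.D →* ℂˣ),
      S.chX l (d : G) * S.chX l ((d⁻¹ : S.A) : G) = 0 :=
    Finset.sum_eq_zero fun l _ => by rw [S.chX_A l d hd, zero_mul]
  have e5 : ∑ l ∈ Finset.univ.erase (1 : S.B →* ℂˣ),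
      S.chZ l (d : G) * S.chZ l ((d⁻¹ : S.A) : G) = 0 :=
    Finset.sum_eq_zero fun l _ => by rw [S.chZ_A l d hd, zero_mul]
  have e6 : (W₁ : G → ℂ) ((d⁻¹ : S.A) : G) = conj ((W₁ : G → ℂ) (d : G)) := h6_irr_inv W₁ (d : G)
  have e7 : (W₂ : G → ℂ) ((d⁻¹ : S.A) : G) = conj ((W₂ : G → ℂ) (d : G)) := h6_irr_inv W₂ (d : G)
  simp only [] at hcol
  rw [e1, e2, e3, e4, e5, e6, e7] at hcol
  have hsum : (W₁ : G → ℂ) d + (W₂ : G → ℂ) d = 2 * 1 := by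
    have := congrFun hW (d : G)
    rw [S.chW_A d hd, Pi.add_apply] at this
    rw [← this, mul_one]
  apply h6_two_normsq_two _ _ 1 (map_one _) (one_mul 1) hsum
  linear_combination hcol

/-- the exceptional characters take the value `-1` on `B` -/
theorem SzChData.W_B (S : SzChData G s) (W₁ W₂ : Cfsg.IrrCharacter G)
    (hW : S.chW = (W₁ : G → ℂ) + (W₂ : G → ℂ))
    (hW1 : (W₁ : G → ℂ) 1 = (s : ℂ) * (2 * (s : ℂ) ^ 2 - 1))
    (hW2 : (W₂ : G → ℂ) 1 = (s : ℂ) * (2 * (s : ℂ) ^ 2 - 1)) (d : S.B) (hd : d ≠ 1) :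
    (W₁ : G → ℂ) d = -1 ∧ (W₂ : G → ℂ) d = -1 := by
  have : Finite (S.D →* ℂˣ) := Helper80.finite_hom
  have : Finite (S.A →* ℂˣ) := Helper80.finite_hom
  have : Finite (S.B →* ℂˣ) := Helper80.finite_hom
  let _ : Fintype (S.D →* ℂˣ) := Fintype.ofFinite _
  let _ : Fintype (S.A →* ℂˣ) := Fintype.ofFinite _
  let _ : Fintype (S.B →* ℂˣ) := Fintype.ofFinite _
  have hd' : d⁻¹ ≠ 1 := inv_ne_one.2 hd
  have hdG : ((d⁻¹ : S.B) : G) ≠ 1 := fun e => hd' (Subtype.ext e)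
  have hcol := S.fam_col W₁ W₂ hW hW1 hW2 (d : G) ((d⁻¹ : S.B) : G)
  have hcj : IsConj (d : G)⁻¹ ((d⁻¹ : S.B) : G) := IsConj.refl _
  rw [if_pos hcj, S.cent_B _ (d⁻¹ : S.B).2 hdG, S.cB] at hcol
  unfold SzChData.fam at hcol
  have e1 : S.chOne (d : G) * S.chOne ((d⁻¹ : S.B) : G) = 1 := by
    rw [S.chOne_eq, one_mul]
  have e2 : S.chSt (d : G) * S.chSt ((d⁻¹ : S.B) : G) = 1 := by
    rw [S.chSt_B d hd, S.chSt_B d⁻¹ hd']
    ring
  have h3 : ∀ l ∈ Finset.univ.erase (1 : S.B →* ℂˣ),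
      S.chZ l (d : G) * S.chZ l ((d⁻¹ : S.B) : G) = tiXi S.B l d * tiXi S.B l d⁻¹ :=
    fun l _ => by rw [S.chZ_B l d hd, S.chZ_B l d⁻¹ hd', neg_mul_neg]
  have e3 : ∑ l ∈ Finset.univ.erase (1 : S.B →* ℂˣ),
      S.chZ l (d : G) * S.chZ l ((d⁻¹ : S.B) : G) =
        4 * (2 * (s : ℂ) ^ 2 - 2 * s + 1) - 16 := by
    rw [Finset.sum_congr rfl h3, Finset.sum_erase_eq_sub (Finset.mem_univ _),
      tiXi_hom_sum_inv S.B S.frobB S.commB d hd, tiXi_triv, tiXi_triv, S.cNB, S.cB, S.qB]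
    ring
  have e4 : ∑ l ∈ Finset.univ.erase (1 : S.D →* ℂˣ),
      S.chX l (d : G) * S.chX l ((d⁻¹ : S.B) : G) = 0 :=
    Finset.sum_eq_zero fun l _ => by rw [S.chX_B l d hd, zero_mul]
  have e5 : ∑ l ∈ Finset.univ.erase (1 : S.A →* ℂˣ),
      S.chY l (d : G) * S.chY l ((d⁻¹ : S.B) : G) = 0 :=
    Finset.sum_eq_zero fun l _ => by rw [S.chY_B l d hd, zero_mul]
  have e6 : (W₁ : G → ℂ) ((d⁻¹ : S.B) : G) = conj ((W₁ : G → ℂ) (d : G)) := h6_irr_inv W₁ (d : G)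
  have e7 : (W₂ : G → ℂ) ((d⁻¹ : S.B) : G) = conj ((W₂ : G → ℂ) (d : G)) := h6_irr_inv W₂ (d : G)
  simp only [] at hcol
  rw [e1, e2, e3, e4, e5, e6, e7] at hcol
  have hsum : (W₁ : G → ℂ) d + (W₂ : G → ℂ) d = 2 * (-1) := by
    have := congrFun hW (d : G)
    rw [S.chW_B d hd, Pi.add_apply] at this
    rw [← this]
    ring
  apply h6_two_normsq_two _ _ (-1) (by simp) (by ring) hsum
  linear_combination hcol

/-- the squares of the values of the exceptional characters on the non-central elements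
of `U` which are not conjugate to their inverses -/
theorem SzChData.W_U (S : SzChData G s) (W₁ W₂ : Cfsg.IrrCharacter G)
    (hW : S.chW = (W₁ : G → ℂ) + (W₂ : G → ℂ))
    (hW1 : (W₁ : G → ℂ) 1 = (s : ℂ) * (2 * (s : ℂ) ^ 2 - 1))
    (hW2 : (W₂ : G → ℂ) 1 = (s : ℂ) * (2 * (s : ℂ) ^ 2 - 1)) (u : S.U)
    (hz : (u : G) ∉ S.Z) (hreal : ¬ IsConj (u : G)⁻¹ (u : G)) :
    (W₁ : G → ℂ) u ^ 2 = -(s : ℂ) ^ 2 ∧ (W₂ : G → ℂ) u ^ 2 = -(s : ℂ) ^ 2 := by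
  have : Finite (S.D →* ℂˣ) := Helper80.finite_hom
  have : Finite (S.A →* ℂˣ) := Helper80.finite_hom
  have : Finite (S.B →* ℂˣ) := Helper80.finite_hom
  let _ : Fintype (S.D →* ℂˣ) := Fintype.ofFinite _
  let _ : Fintype (S.A →* ℂˣ) := Fintype.ofFinite _
  let _ : Fintype (S.B →* ℂˣ) := Fintype.ofFinite _
  have hu : u ≠ 1 := by
    rintro rfl
    exact hz S.Z.one_mem
  have hcol := S.fam_col W₁ W₂ hW hW1 hW2 (u : G) (u : G)
  rw [if_neg hreal] at hcol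
  unfold SzChData.fam at hcol
  have e1 : S.chOne (u : G) * S.chOne (u : G) = 1 := by
    rw [S.chOne_eq, one_mul]
  have e2 : S.chSt (u : G) * S.chSt (u : G) = 0 := by
    rw [S.chSt_U u hu, zero_mul]
  have h3 : ∀ l ∈ Finset.univ.erase (1 : S.D →* ℂˣ),
      S.chX l (u : G) * S.chX l (u : G) = 1 :=
    fun l _ => by rw [S.chX_U l u hu, one_mul]
  have e3 : ∑ l ∈ Finset.univ.erase (1 : S.D →* ℂˣ),
      S.chX l (u : G) * S.chX l (u : G) = 2 * (s : ℂ) ^ 2 - 1 - 1 := by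
    rw [Finset.sum_congr rfl h3, h6_sum_erase_const S.commD, S.cD, mul_one]
  have h4 : ∀ l ∈ Finset.univ.erase (1 : S.A →* ℂˣ),
      S.chY l (u : G) * S.chY l (u : G) = 1 :=
    fun l _ => by rw [S.chY_UN l u hz]; ring
  have e4 : ∑ l ∈ Finset.univ.erase (1 : S.A →* ℂˣ),
      S.chY l (u : G) * S.chY l (u : G) = 2 * (s : ℂ) ^ 2 + 2 * s + 1 - 1 := by
    rw [Finset.sum_congr rfl h4, h6_sum_erase_const S.commA, S.cA, mul_one]
  have h5 : ∀ l ∈ Finset.univ.erase (1 : S.B →* ℂˣ),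
      S.chZ l (u : G) * S.chZ l (u : G) = 1 :=
    fun l _ => by rw [S.chZ_UN l u hz]; ring
  have e5 : ∑ l ∈ Finset.univ.erase (1 : S.B →* ℂˣ),
      S.chZ l (u : G) * S.chZ l (u : G) = 2 * (s : ℂ) ^ 2 - 2 * s + 1 - 1 := by
    rw [Finset.sum_congr rfl h5, h6_sum_erase_const S.commB, S.cB, mul_one]
  simp only [] at hcol
  rw [e1, e2, e3, e4, e5] at hcol
  have hsum : (W₁ : G → ℂ) u + (W₂ : G → ℂ) u = 0 := by
    have := congrFun hW (u : G)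
    rw [S.chW_UN u hz, Pi.add_apply] at this
    exact this.symm
  have h2 : (W₂ : G → ℂ) u = -(W₁ : G → ℂ) u := by linear_combination hsum
  rw [h2] at hcol ⊢
  constructor
  · linear_combination (1 / 2 : ℂ) * hcol
  · linear_combination (1 / 2 : ℂ) * hcol

end SzCs5

end Cfsg.Agent.Helper6
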