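import Mathlib
import Cfsg.Agent.Helper6.SzCs5

/-!
# The class multiplication coefficients of a group with a Suzuki-type partition

The weighted sum `fam (fun ψ => ψ x ^ 2 * ψ k / ψ 1)` is evaluated for `x` in each of the four
subgroups of the partition, in terms of a "profile" of the second element `k`.
-/

set_option autoImplicit false

namespace Cfsg.Agent.Helper6

open scoped ComplexConjugate
open Classical

theorem h6_ne_zero_of_bound (r c M : ℝ) (E : ℂ) (hc : 0 ≤ c) (hE : ‖E‖ ≤ M) (h : c * M < r) :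
    (r : ℂ) + (c : ℂ) * E ≠ 0 := by
  intro h0
  have h1 : (c : ℂ) * E = -(r : ℂ) := by linear_combination h0
  have h2 : ‖(c : ℂ) * E‖ = |r| := by
    rw [h1, norm_neg, Complex.norm_real, Real.norm_eq_abs]
  rw [norm_mul, Complex.norm_real, Real.norm_of_nonneg hc] at h2
  have h3 : c * ‖E‖ ≤ c * M := mul_le_mul_of_nonneg_left hE hc
  have h4 := le_abs_self r
  linarith

theorem h6_ne_zero_of_re_bound (r c M : ℝ) (E : ℂ) (hc : 0 ≤ c) (hE : -M ≤ E.re)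
    (h : c * M < r) : (r : ℂ) + (c : ℂ) * E ≠ 0 := by
  intro h0
  have h1 := congrArg Complex.re h0
  rw [Complex.add_re, Complex.ofReal_re, Complex.re_ofReal_mul, Complex.zero_re] at h1
  have h2 : 0 ≤ c * (E.re + M) := mul_nonneg hc (by linarith)
  nlinarith

section SzCs6

variable {G : Type*} [Group G] [Fintype G] {s : ℕ}

theorem SzChData.rD (S : SzChData G s) : (Nat.card S.D : ℝ) = 2 * (s : ℝ) ^ 2 - 1 := by
  have h := S.cD
  exact_mod_cast h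

theorem SzChData.rA (S : SzChData G s) : (Nat.card S.A : ℝ) = 2 * (s : ℝ) ^ 2 + 2 * s + 1 := by
  have h := S.cA
  exact_mod_cast h

theorem SzChData.rB (S : SzChData G s) : (Nat.card S.B : ℝ) = 2 * (s : ℝ) ^ 2 - 2 * s + 1 := by
  have h := S.cB
  exact_mod_cast h

theorem SzChData.rND (S : SzChData G s) :
    (Nat.card (Subgroup.normalizer (S.D : Set G)) : ℝ) = 2 * (2 * (s : ℝ) ^ 2 - 1) := by
  have h := S.cND
  exact_mod_cast h

theorem SzChData.rNA (S : SzChData G s) :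
    (Nat.card (Subgroup.normalizer (S.A : Set G)) : ℝ) = 4 * (2 * (s : ℝ) ^ 2 + 2 * s + 1) := by
  have h := S.cNA
  exact_mod_cast h

theorem SzChData.rNB (S : SzChData G s) :
    (Nat.card (Subgroup.normalizer (S.B : Set G)) : ℝ) = 4 * (2 * (s : ℝ) ^ 2 - 2 * s + 1) := by
  have h := S.cNB
  exact_mod_cast h

theorem SzChData.rs (S : SzChData G s) : (2 : ℝ) ≤ (s : ℝ) := by
  exact_mod_cast S.hs

theorem SzChData.rd_pos (S : SzChData G s) : (0 : ℝ) < 2 * (s : ℝ) ^ 2 - 1 := by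
  rw [← S.rD]
  exact_mod_cast Nat.card_pos

theorem SzChData.ra_pos (S : SzChData G s) : (0 : ℝ) < 2 * (s : ℝ) ^ 2 + 2 * s + 1 := by
  rw [← S.rA]
  exact_mod_cast Nat.card_pos

theorem SzChData.rb_pos (S : SzChData G s) : (0 : ℝ) < 2 * (s : ℝ) ^ 2 - 2 * s + 1 := by
  rw [← S.rB]
  exact_mod_cast Nat.card_pos

theorem SzChData.tq_D (S : SzChData G s) :
    (Nat.card (Subgroup.normalizer (S.D : Set G)) : ℝ) / (Nat.card S.D : ℝ) = 2 := by
  rw [S.rND, S.rD, mul_div_assoc, div_self S.rd_pos.ne', mul_one]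

theorem SzChData.tq_A (S : SzChData G s) :
    (Nat.card (Subgroup.normalizer (S.A : Set G)) : ℝ) / (Nat.card S.A : ℝ) = 4 := by
  rw [S.rNA, S.rA, mul_div_assoc, div_self S.ra_pos.ne', mul_one]

theorem SzChData.tq_B (S : SzChData G s) :
    (Nat.card (Subgroup.normalizer (S.B : Set G)) : ℝ) / (Nat.card S.B : ℝ) = 4 := by
  rw [S.rNB, S.rB, mul_div_assoc, div_self S.rb_pos.ne', mul_one]

theorem SzChData.tb_D (S : SzChData G s) :
    (Nat.card (Subgroup.normalizer (S.D : Set G)) : ℝ) -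
      ((Nat.card (Subgroup.normalizer (S.D : Set G)) : ℝ) / (Nat.card S.D : ℝ)) ^ 2 =
      4 * (s : ℝ) ^ 2 - 6 := by
  rw [S.tq_D, S.rND]
  ring

theorem SzChData.tb_A (S : SzChData G s) :
    (Nat.card (Subgroup.normalizer (S.A : Set G)) : ℝ) -
      ((Nat.card (Subgroup.normalizer (S.A : Set G)) : ℝ) / (Nat.card S.A : ℝ)) ^ 2 =
      8 * (s : ℝ) ^ 2 + 8 * s - 12 := by
  rw [S.tq_A, S.rNA]
  ring

theorem SzChData.tb_B (S : SzChData G s) :
    (Nat.card (Subgroup.normalizer (S.B : Set G)) : ℝ) -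
      ((Nat.card (Subgroup.normalizer (S.B : Set G)) : ℝ) / (Nat.card S.B : ℝ)) ^ 2 =
      8 * (s : ℝ) ^ 2 - 8 * s - 12 := by
  rw [S.tq_B, S.rNB]
  ring

/-- the weighted sum computing the class multiplication coefficient, unfolded -/
theorem SzChData.fam_T (S : SzChData G s) [Fintype (S.D →* ℂˣ)] [Fintype (S.A →* ℂˣ)]
    [Fintype (S.B →* ℂˣ)] (W₁ W₂ : G → ℂ)
    (hW1 : W₁ 1 = (s : ℂ) * (2 * (s : ℂ) ^ 2 - 1))
    (hW2 : W₂ 1 = (s : ℂ) * (2 * (s : ℂ) ^ 2 - 1)) (x k : G) :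
    S.fam W₁ W₂ (fun ψ => ψ x ^ 2 * ψ k / ψ 1) =
      1 + S.chSt x ^ 2 * S.chSt k / (4 * (s : ℂ) ^ 4) +
      1 / 2 * (∑ l ∈ Finset.univ.erase (1 : S.D →* ℂˣ), S.chX l x ^ 2 * S.chX l k) /
        (4 * (s : ℂ) ^ 4 + 1) +
      1 / 4 * (∑ l ∈ Finset.univ.erase (1 : S.A →* ℂˣ), S.chY l x ^ 2 * S.chY l k) /
        ((2 * (s : ℂ) ^ 2 - 1) * (2 * (s : ℂ) ^ 2 - 2 * s + 1)) +
      1 / 4 * (∑ l ∈ Finset.univ.erase (1 : S.B →* ℂˣ), S.chZ l x ^ 2 * S.chZ l k) /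
        ((2 * (s : ℂ) ^ 2 - 1) * (2 * (s : ℂ) ^ 2 + 2 * s + 1)) +
      (W₁ x ^ 2 * W₁ k + W₂ x ^ 2 * W₂ k) / ((s : ℂ) * (2 * (s : ℂ) ^ 2 - 1)) := by
  unfold SzChData.fam
  beta_reduce
  rw [S.chOne_eq, S.chSt_one, hW1, hW2]
  simp only [S.chX_one, S.chY_one, S.chZ_one]
  rw [← Finset.sum_div, ← Finset.sum_div, ← Finset.sum_div]
  simp only [Nat.cast_mul, szc_subC1 S.hs, szc_subC2 S.hs]
  push_cast
  ring

/-- the data about an element `k` needed to evaluate the class multiplication coefficients -/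
structure SzChData.Prof (S : SzChData G s) [Fintype (S.D →* ℂˣ)] [Fintype (S.A →* ℂˣ)]
    [Fintype (S.B →* ℂˣ)] (k : G) (t w mX mY mZ pX pY pZ : ℝ) : Prop where
  st : S.chSt k = (t : ℂ)
  w : S.chW k = (w : ℂ)
  bX : ∀ l : S.D →* ℂˣ, ‖S.chX l k‖ ≤ mX
  bY : ∀ l : S.A →* ℂˣ, ‖S.chY l k‖ ≤ mY
  bZ : ∀ l : S.B →* ℂˣ, ‖S.chZ l k‖ ≤ mZ
  sX : ∑ l ∈ Finset.univ.erase (1 : S.D →* ℂˣ), S.chX l k = (pX : ℂ)
  sY : ∑ l ∈ Finset.univ.erase (1 : S.A →* ℂˣ), S.chY l k = (pY : ℂ)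
  sZ : ∑ l ∈ Finset.univ.erase (1 : S.B →* ℂˣ), S.chZ l k = (pZ : ℂ)

theorem SzChData.prof_Z (S : SzChData G s) [Fintype (S.D →* ℂˣ)] [Fintype (S.A →* ℂˣ)]
    [Fintype (S.B →* ℂˣ)] (k : S.U) (hk : k ≠ 1) (hz : (k : G) ∈ S.Z) :
    S.Prof (k : G) 0 (-(2 * (s : ℝ))) 1 (2 * (s : ℝ) - 1) (2 * (s : ℝ) + 1)
      (2 * (s : ℝ) ^ 2 - 2) ((2 * (s : ℝ) ^ 2 + 2 * s) * (2 * (s : ℝ) - 1))
      (-((2 * (s : ℝ) ^ 2 - 2 * s) * (2 * (s : ℝ) + 1))) := by
  have hs := S.rs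
  refine ⟨?_, ?_, ?_, ?_, ?_, ?_, ?_, ?_⟩
  · rw [S.chSt_U k hk, Complex.ofReal_zero]
  · rw [S.chW_UZ k hk hz]
    push_cast
    ring
  · intro l
    rw [S.chX_U l k hk, norm_one]
  · intro l
    rw [S.chY_UZ l k hk hz]
    have h1 : (2 * (s : ℂ) - 1) = ((2 * (s : ℝ) - 1 : ℝ) : ℂ) := by push_cast; ring
    rw [h1, Complex.norm_real, Real.norm_of_nonneg (by linarith)]
  · intro l
    rw [S.chZ_UZ l k hk hz]
    have h1 : (-(2 * (s : ℂ)) - 1) = ((-(2 * (s : ℝ) + 1) : ℝ) : ℂ) := by push_cast; ring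
    rw [h1, Complex.norm_real, Real.norm_eq_abs, abs_neg, abs_of_nonneg (by linarith)]
  · have h1 : ∀ l ∈ Finset.univ.erase (1 : S.D →* ℂˣ), S.chX l (k : G) = 1 :=
      fun l _ => S.chX_U l k hk
    rw [Finset.sum_congr rfl h1, h6_sum_erase_const S.commD, S.cD]
    push_cast
    ring
  · have h1 : ∀ l ∈ Finset.univ.erase (1 : S.A →* ℂˣ), S.chY l (k : G) = 2 * (s : ℂ) - 1 :=
      fun l _ => S.chY_UZ l k hk hz
    rw [Finset.sum_congr rfl h1, h6_sum_erase_const S.commA, S.cA]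
    push_cast
    ring
  · have h1 : ∀ l ∈ Finset.univ.erase (1 : S.B →* ℂˣ), S.chZ l (k : G) = -(2 * (s : ℂ)) - 1 :=
      fun l _ => S.chZ_UZ l k hk hz
    rw [Finset.sum_congr rfl h1, h6_sum_erase_const S.commB, S.cB]
    push_cast
    ring

theorem SzChData.prof_U (S : SzChData G s) [Fintype (S.D →* ℂˣ)] [Fintype (S.A →* ℂˣ)]
    [Fintype (S.B →* ℂˣ)] (k : S.U) (hz : (k : G) ∉ S.Z) :
    S.Prof (k : G) 0 0 1 1 1
      (2 * (s : ℝ) ^ 2 - 2) (-(2 * (s : ℝ) ^ 2 + 2 * s)) (-(2 * (s : ℝ) ^ 2 - 2 * s)) := by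
  have hk : k ≠ 1 := by
    rintro rfl
    exact hz S.Z.one_mem
  refine ⟨?_, ?_, ?_, ?_, ?_, ?_, ?_, ?_⟩
  · rw [S.chSt_U k hk, Complex.ofReal_zero]
  · rw [S.chW_UN k hz, Complex.ofReal_zero]
  · intro l
    rw [S.chX_U l k hk, norm_one]
  · intro l
    rw [S.chY_UN l k hz, norm_neg, norm_one]
  · intro l
    rw [S.chZ_UN l k hz, norm_neg, norm_one]
  · have h1 : ∀ l ∈ Finset.univ.erase (1 : S.D →* ℂˣ), S.chX l (k : G) = 1 :=
      fun l _ => S.chX_U l k hk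
    rw [Finset.sum_congr rfl h1, h6_sum_erase_const S.commD, S.cD]
    push_cast
    ring
  · have h1 : ∀ l ∈ Finset.univ.erase (1 : S.A →* ℂˣ), S.chY l (k : G) = -1 :=
      fun l _ => S.chY_UN l k hz
    rw [Finset.sum_congr rfl h1, h6_sum_erase_const S.commA, S.cA]
    push_cast
    ring
  · have h1 : ∀ l ∈ Finset.univ.erase (1 : S.B →* ℂˣ), S.chZ l (k : G) = -1 :=
      fun l _ => S.chZ_UN l k hz
    rw [Finset.sum_congr rfl h1, h6_sum_erase_const S.commB, S.cB]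
    push_cast
    ring

theorem SzChData.prof_D (S : SzChData G s) [Fintype (S.D →* ℂˣ)] [Fintype (S.A →* ℂˣ)]
    [Fintype (S.B →* ℂˣ)] (k : S.D) (hk : k ≠ 1) :
    S.Prof (k : G) 1 0 2 0 0 (-2) 0 0 := by
  refine ⟨?_, ?_, ?_, ?_, ?_, ?_, ?_, ?_⟩
  · rw [S.chSt_D k hk, Complex.ofReal_one]
  · rw [S.chW_D k hk, Complex.ofReal_zero]
  · intro l
    rw [S.chX_D l k hk]
    have := tiXi_norm_le S.D l k
    rw [S.tq_D] at this
    exact this
  · intro l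
    rw [S.chY_D l k hk, norm_zero]
  · intro l
    rw [S.chZ_D l k hk, norm_zero]
  · have h1 : ∀ l ∈ Finset.univ.erase (1 : S.D →* ℂˣ), S.chX l (k : G) = tiXi S.D l k :=
      fun l _ => S.chX_D l k hk
    rw [Finset.sum_congr rfl h1, tiXi_hom_sum_erase S.D S.commD k hk, S.cND, S.cD, S.qD]
    push_cast
    ring
  · rw [Finset.sum_eq_zero (fun l _ => S.chY_D l k hk), Complex.ofReal_zero]
  · rw [Finset.sum_eq_zero (fun l _ => S.chZ_D l k hk), Complex.ofReal_zero]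

theorem SzChData.prof_A (S : SzChData G s) [Fintype (S.D →* ℂˣ)] [Fintype (S.A →* ℂˣ)]
    [Fintype (S.B →* ℂˣ)] (k : S.A) (hk : k ≠ 1) :
    S.Prof (k : G) (-1) 2 0 4 0 0 4 0 := by
  refine ⟨?_, ?_, ?_, ?_, ?_, ?_, ?_, ?_⟩
  · rw [S.chSt_A k hk]
    push_cast
    ring
  · rw [S.chW_A k hk]
    push_cast
    ring
  · intro l
    rw [S.chX_A l k hk, norm_zero]
  · intro l
    rw [S.chY_A l k hk, norm_neg]
    have := tiXi_norm_le S.A l k
    rw [S.tq_A] at this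
    exact this
  · intro l
    rw [S.chZ_A l k hk, norm_zero]
  · rw [Finset.sum_eq_zero (fun l _ => S.chX_A l k hk), Complex.ofReal_zero]
  · have h1 : ∀ l ∈ Finset.univ.erase (1 : S.A →* ℂˣ), S.chY l (k : G) = -tiXi S.A l k :=
      fun l _ => S.chY_A l k hk
    rw [Finset.sum_congr rfl h1, Finset.sum_neg_distrib, tiXi_hom_sum_erase S.A S.commA k hk,
      S.cNA, S.cA, S.qA]
    push_cast
    ring
  · rw [Finset.sum_eq_zero (fun l _ => S.chZ_A l k hk), Complex.ofReal_zero]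

theorem SzChData.prof_B (S : SzChData G s) [Fintype (S.D →* ℂˣ)] [Fintype (S.A →* ℂˣ)]
    [Fintype (S.B →* ℂˣ)] (k : S.B) (hk : k ≠ 1) :
    S.Prof (k : G) (-1) (-2) 0 0 4 0 0 4 := by
  refine ⟨?_, ?_, ?_, ?_, ?_, ?_, ?_, ?_⟩
  · rw [S.chSt_B k hk]
    push_cast
    ring
  · rw [S.chW_B k hk]
    push_cast
    ring
  · intro l
    rw [S.chX_B l k hk, norm_zero]
  · intro l
    rw [S.chY_B l k hk, norm_zero]
  · intro l
    rw [S.chZ_B l k hk, norm_neg]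
    have := tiXi_norm_le S.B l k
    rw [S.tq_B] at this
    exact this
  · rw [Finset.sum_eq_zero (fun l _ => S.chX_B l k hk), Complex.ofReal_zero]
  · rw [Finset.sum_eq_zero (fun l _ => S.chY_B l k hk), Complex.ofReal_zero]
  · have h1 : ∀ l ∈ Finset.univ.erase (1 : S.B →* ℂˣ), S.chZ l (k : G) = -tiXi S.B l k :=
      fun l _ => S.chZ_B l k hk
    rw [Finset.sum_congr rfl h1, Finset.sum_neg_distrib, tiXi_hom_sum_erase S.B S.commB k hk,
      S.cNB, S.cB, S.qB]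
    push_cast
    ring

end SzCs6

end Cfsg.Agent.Helper6
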