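import Mathlib
import Cfsg.Agent.Helper6.SzCs6

/-!
# Non-vanishing criteria for the class multiplication coefficients of a group with a
Suzuki-type partition
-/

set_option autoImplicit false

namespace Cfsg.Agent.Helper6

open scoped ComplexConjugate
open Classical

section SzCs7

variable {G : Type*} [Group G] [Fintype G] {s : ℕ}

/-- first element in `U`, not central and not conjugate to its inverse -/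
theorem SzChData.tri_U_ne (S : SzChData G s) [Fintype (S.D →* ℂˣ)] [Fintype (S.A →* ℂˣ)]
    [Fintype (S.B →* ℂˣ)] (W₁ W₂ : Cfsg.IrrCharacter G)
    (hW : S.chW = (W₁ : G → ℂ) + (W₂ : G → ℂ))
    (hW1 : (W₁ : G → ℂ) 1 = (s : ℂ) * (2 * (s : ℂ) ^ 2 - 1))
    (hW2 : (W₂ : G → ℂ) 1 = (s : ℂ) * (2 * (s : ℂ) ^ 2 - 1)) (x : S.U)
    (hz : (x : G) ∉ S.Z) (hreal : ¬ IsConj (x : G)⁻¹ (x : G)) (k : G)
    {t w mX mY mZ pX pY pZ : ℝ} (hk : S.Prof k t w mX mY mZ pX pY pZ)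
    (hineq : 0 < 1 + 1 / 2 * pX / (4 * (s : ℝ) ^ 4 + 1) +
      1 / 4 * pY / ((2 * (s : ℝ) ^ 2 - 1) * (2 * (s : ℝ) ^ 2 - 2 * s + 1)) +
      1 / 4 * pZ / ((2 * (s : ℝ) ^ 2 - 1) * (2 * (s : ℝ) ^ 2 + 2 * s + 1)) +
      -((s : ℝ) ^ 2 * w) / ((s : ℝ) * (2 * (s : ℝ) ^ 2 - 1))) :
    S.fam W₁ W₂ (fun ψ => ψ (x : G) ^ 2 * ψ k / ψ 1) ≠ 0 := by
  have hx : x ≠ 1 := by
    rintro rfl
    exact hz S.Z.one_mem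
  rw [S.fam_T W₁ W₂ hW1 hW2]
  obtain ⟨hWx1, hWx2⟩ := S.W_U W₁ W₂ hW hW1 hW2 x hz hreal
  have hwk : (W₁ : G → ℂ) k + (W₂ : G → ℂ) k = (w : ℂ) := by
    have := congrFun hW k
    rw [Pi.add_apply] at this
    rw [← this, hk.w]
  have eX : ∑ l ∈ Finset.univ.erase (1 : S.D →* ℂˣ), S.chX l (x : G) ^ 2 * S.chX l k =
      (pX : ℂ) := by
    rw [← hk.sX]
    exact Finset.sum_congr rfl fun l _ => by rw [S.chX_U l x hx]; ring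
  have eY : ∑ l ∈ Finset.univ.erase (1 : S.A →* ℂˣ), S.chY l (x : G) ^ 2 * S.chY l k =
      (pY : ℂ) := by
    rw [← hk.sY]
    exact Finset.sum_congr rfl fun l _ => by rw [S.chY_UN l x hz]; ring
  have eZ : ∑ l ∈ Finset.univ.erase (1 : S.B →* ℂˣ), S.chZ l (x : G) ^ 2 * S.chZ l k =
      (pZ : ℂ) := by
    rw [← hk.sZ]
    exact Finset.sum_congr rfl fun l _ => by rw [S.chZ_UN l x hz]; ring
  rw [eX, eY, eZ, hWx1, hWx2, S.chSt_U x hx]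
  have e : (1 : ℂ) + 0 ^ 2 * S.chSt k / (4 * (s : ℂ) ^ 4) +
      1 / 2 * (pX : ℂ) / (4 * (s : ℂ) ^ 4 + 1) +
      1 / 4 * (pY : ℂ) / ((2 * (s : ℂ) ^ 2 - 1) * (2 * (s : ℂ) ^ 2 - 2 * s + 1)) +
      1 / 4 * (pZ : ℂ) / ((2 * (s : ℂ) ^ 2 - 1) * (2 * (s : ℂ) ^ 2 + 2 * s + 1)) +
      (-(s : ℂ) ^ 2 * (W₁ : G → ℂ) k + -(s : ℂ) ^ 2 * (W₂ : G → ℂ) k) /
        ((s : ℂ) * (2 * (s : ℂ) ^ 2 - 1)) =
      ((1 + 1 / 2 * pX / (4 * (s : ℝ) ^ 4 + 1) +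
      1 / 4 * pY / ((2 * (s : ℝ) ^ 2 - 1) * (2 * (s : ℝ) ^ 2 - 2 * s + 1)) +
      1 / 4 * pZ / ((2 * (s : ℝ) ^ 2 - 1) * (2 * (s : ℝ) ^ 2 + 2 * s + 1)) +
      -((s : ℝ) ^ 2 * w) / ((s : ℝ) * (2 * (s : ℝ) ^ 2 - 1)) : ℝ) : ℂ) := by
    push_cast
    rw [← hwk]
    ring
  rw [e]
  exact Complex.ofReal_ne_zero.2 hineq.ne'

/-- first element in `D` -/
theorem SzChData.tri_D_ne (S : SzChData G s) [Fintype (S.D →* ℂˣ)] [Fintype (S.A →* ℂˣ)]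
    [Fintype (S.B →* ℂˣ)] (W₁ W₂ : Cfsg.IrrCharacter G)
    (hW : S.chW = (W₁ : G → ℂ) + (W₂ : G → ℂ))
    (hW1 : (W₁ : G → ℂ) 1 = (s : ℂ) * (2 * (s : ℂ) ^ 2 - 1))
    (hW2 : (W₂ : G → ℂ) 1 = (s : ℂ) * (2 * (s : ℂ) ^ 2 - 1)) (x : S.D) (hx : x ≠ 1) (k : G)
    {t w mX mY mZ pX pY pZ : ℝ} (hk : S.Prof k t w mX mY mZ pX pY pZ)
    (hineq : 1 / 2 / (4 * (s : ℝ) ^ 4 + 1) * (mX * (4 * (s : ℝ) ^ 2 - 6)) <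
      1 + t / (4 * (s : ℝ) ^ 4)) :
    S.fam W₁ W₂ (fun ψ => ψ (x : G) ^ 2 * ψ k / ψ 1) ≠ 0 := by
  rw [S.fam_T W₁ W₂ hW1 hW2]
  obtain ⟨hWx1, hWx2⟩ := S.W_D W₁ W₂ hW hW1 hW2 x hx
  have eX : ∑ l ∈ Finset.univ.erase (1 : S.D →* ℂˣ), S.chX l (x : G) ^ 2 * S.chX l k =
      ∑ l ∈ Finset.univ.erase (1 : S.D →* ℂˣ), tiXi S.D l x ^ 2 * S.chX l k :=
    Finset.sum_congr rfl fun l _ => by rw [S.chX_D l x hx]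
  have eY : ∑ l ∈ Finset.univ.erase (1 : S.A →* ℂˣ), S.chY l (x : G) ^ 2 * S.chY l k = 0 :=
    Finset.sum_eq_zero fun l _ => by rw [S.chY_D l x hx]; ring
  have eZ : ∑ l ∈ Finset.univ.erase (1 : S.B →* ℂˣ), S.chZ l (x : G) ^ 2 * S.chZ l k = 0 :=
    Finset.sum_eq_zero fun l _ => by rw [S.chZ_D l x hx]; ring
  have hb := tiXi_erase_norm_bound S.D S.frobD S.commD x hx (fun l => S.chX l k) mX hk.bX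
  rw [S.tb_D] at hb
  rw [eX, eY, eZ, hWx1, hWx2, S.chSt_D x hx, hk.st]
  have e : (1 : ℂ) + 1 ^ 2 * (t : ℂ) / (4 * (s : ℂ) ^ 4) +
      1 / 2 * (∑ l ∈ Finset.univ.erase (1 : S.D →* ℂˣ), tiXi S.D l x ^ 2 * S.chX l k) /
        (4 * (s : ℂ) ^ 4 + 1) +
      1 / 4 * 0 / ((2 * (s : ℂ) ^ 2 - 1) * (2 * (s : ℂ) ^ 2 - 2 * s + 1)) +
      1 / 4 * 0 / ((2 * (s : ℂ) ^ 2 - 1) * (2 * (s : ℂ) ^ 2 + 2 * s + 1)) +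
      (0 ^ 2 * (W₁ : G → ℂ) k + 0 ^ 2 * (W₂ : G → ℂ) k) /
        ((s : ℂ) * (2 * (s : ℂ) ^ 2 - 1)) =
      ((1 + t / (4 * (s : ℝ) ^ 4) : ℝ) : ℂ) + ((1 / 2 / (4 * (s : ℝ) ^ 4 + 1) : ℝ) : ℂ) *
        (∑ l ∈ Finset.univ.erase (1 : S.D →* ℂˣ), tiXi S.D l x ^ 2 * S.chX l k) := by
    push_cast
    ring
  rw [e]
  exact h6_ne_zero_of_bound _ _ _ _ (by positivity) hb hineq

/-- first element in `A` -/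
theorem SzChData.tri_A_ne (S : SzChData G s) [Fintype (S.D →* ℂˣ)] [Fintype (S.A →* ℂˣ)]
    [Fintype (S.B →* ℂˣ)] (W₁ W₂ : Cfsg.IrrCharacter G)
    (hW : S.chW = (W₁ : G → ℂ) + (W₂ : G → ℂ))
    (hW1 : (W₁ : G → ℂ) 1 = (s : ℂ) * (2 * (s : ℂ) ^ 2 - 1))
    (hW2 : (W₂ : G → ℂ) 1 = (s : ℂ) * (2 * (s : ℂ) ^ 2 - 1)) (x : S.A) (hx : x ≠ 1) (k : G)
    {t w mX mY mZ pX pY pZ : ℝ} (hk : S.Prof k t w mX mY mZ pX pY pZ)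
    (hineq : 1 / 4 / ((2 * (s : ℝ) ^ 2 - 1) * (2 * (s : ℝ) ^ 2 - 2 * s + 1)) *
        (mY * (8 * (s : ℝ) ^ 2 + 8 * s - 12)) <
      1 + t / (4 * (s : ℝ) ^ 4) + w / ((s : ℝ) * (2 * (s : ℝ) ^ 2 - 1))) :
    S.fam W₁ W₂ (fun ψ => ψ (x : G) ^ 2 * ψ k / ψ 1) ≠ 0 := by
  rw [S.fam_T W₁ W₂ hW1 hW2]
  obtain ⟨hWx1, hWx2⟩ := S.W_A W₁ W₂ hW hW1 hW2 x hx
  have hwk : (W₁ : G → ℂ) k + (W₂ : G → ℂ) k = (w : ℂ) := by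
    have := congrFun hW k
    rw [Pi.add_apply] at this
    rw [← this, hk.w]
  have eX : ∑ l ∈ Finset.univ.erase (1 : S.D →* ℂˣ), S.chX l (x : G) ^ 2 * S.chX l k = 0 :=
    Finset.sum_eq_zero fun l _ => by rw [S.chX_A l x hx]; ring
  have eY : ∑ l ∈ Finset.univ.erase (1 : S.A →* ℂˣ), S.chY l (x : G) ^ 2 * S.chY l k =
      ∑ l ∈ Finset.univ.erase (1 : S.A →* ℂˣ), tiXi S.A l x ^ 2 * S.chY l k :=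
    Finset.sum_congr rfl fun l _ => by rw [S.chY_A l x hx]; ring
  have eZ : ∑ l ∈ Finset.univ.erase (1 : S.B →* ℂˣ), S.chZ l (x : G) ^ 2 * S.chZ l k = 0 :=
    Finset.sum_eq_zero fun l _ => by rw [S.chZ_A l x hx]; ring
  have hb := tiXi_erase_norm_bound S.A S.frobA S.commA x hx (fun l => S.chY l k) mY hk.bY
  rw [S.tb_A] at hb
  have hd := S.rd_pos
  have hb2 := S.rb_pos
  rw [eX, eY, eZ, hWx1, hWx2, S.chSt_A x hx, hk.st]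
  have e : (1 : ℂ) + (-1) ^ 2 * (t : ℂ) / (4 * (s : ℂ) ^ 4) +
      1 / 2 * 0 / (4 * (s : ℂ) ^ 4 + 1) +
      1 / 4 * (∑ l ∈ Finset.univ.erase (1 : S.A →* ℂˣ), tiXi S.A l x ^ 2 * S.chY l k) /
        ((2 * (s : ℂ) ^ 2 - 1) * (2 * (s : ℂ) ^ 2 - 2 * s + 1)) +
      1 / 4 * 0 / ((2 * (s : ℂ) ^ 2 - 1) * (2 * (s : ℂ) ^ 2 + 2 * s + 1)) +
      (1 ^ 2 * (W₁ : G → ℂ) k + 1 ^ 2 * (W₂ : G → ℂ) k) /
        ((s : ℂ) * (2 * (s : ℂ) ^ 2 - 1)) =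
      ((1 + t / (4 * (s : ℝ) ^ 4) + w / ((s : ℝ) * (2 * (s : ℝ) ^ 2 - 1)) : ℝ) : ℂ) +
        ((1 / 4 / ((2 * (s : ℝ) ^ 2 - 1) * (2 * (s : ℝ) ^ 2 - 2 * s + 1)) : ℝ) : ℂ) *
        (∑ l ∈ Finset.univ.erase (1 : S.A →* ℂˣ), tiXi S.A l x ^ 2 * S.chY l k) := by
    push_cast
    rw [← hwk]
    ring
  rw [e]
  exact h6_ne_zero_of_bound _ _ _ _ (div_nonneg (by norm_num) (mul_pos hd hb2).le) hb hineq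

/-- first element in `A`, the characters `chY` being constant at the second element -/
theorem SzChData.tri_A_ne' (S : SzChData G s) [Fintype (S.D →* ℂˣ)] [Fintype (S.A →* ℂˣ)]
    [Fintype (S.B →* ℂˣ)] (W₁ W₂ : Cfsg.IrrCharacter G)
    (hW : S.chW = (W₁ : G → ℂ) + (W₂ : G → ℂ))
    (hW1 : (W₁ : G → ℂ) 1 = (s : ℂ) * (2 * (s : ℂ) ^ 2 - 1))
    (hW2 : (W₂ : G → ℂ) 1 = (s : ℂ) * (2 * (s : ℂ) ^ 2 - 1)) (x : S.A) (hx : x ≠ 1) (k : G)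
    {t w mX mY mZ pX pY pZ : ℝ} (hk : S.Prof k t w mX mY mZ pX pY pZ) (y : ℝ) (hy : 0 ≤ y)
    (hY : ∀ l : S.A →* ℂˣ, S.chY l k = (y : ℂ))
    (hineq : 1 / 4 / ((2 * (s : ℝ) ^ 2 - 1) * (2 * (s : ℝ) ^ 2 - 2 * s + 1)) * y * 16 <
      1 + t / (4 * (s : ℝ) ^ 4) + w / ((s : ℝ) * (2 * (s : ℝ) ^ 2 - 1))) :
    S.fam W₁ W₂ (fun ψ => ψ (x : G) ^ 2 * ψ k / ψ 1) ≠ 0 := by
  rw [S.fam_T W₁ W₂ hW1 hW2]
  obtain ⟨hWx1, hWx2⟩ := S.W_A W₁ W₂ hW hW1 hW2 x hx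
  have hwk : (W₁ : G → ℂ) k + (W₂ : G → ℂ) k = (w : ℂ) := by
    have := congrFun hW k
    rw [Pi.add_apply] at this
    rw [← this, hk.w]
  have eX : ∑ l ∈ Finset.univ.erase (1 : S.D →* ℂˣ), S.chX l (x : G) ^ 2 * S.chX l k = 0 :=
    Finset.sum_eq_zero fun l _ => by rw [S.chX_A l x hx]; ring
  have eY : ∑ l ∈ Finset.univ.erase (1 : S.A →* ℂˣ), S.chY l (x : G) ^ 2 * S.chY l k =
      (∑ l ∈ Finset.univ.erase (1 : S.A →* ℂˣ), tiXi S.A l x ^ 2) * (y : ℂ) := by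
    rw [Finset.sum_mul]
    exact Finset.sum_congr rfl fun l _ => by rw [S.chY_A l x hx, hY l]; ring
  have eZ : ∑ l ∈ Finset.univ.erase (1 : S.B →* ℂˣ), S.chZ l (x : G) ^ 2 * S.chZ l k = 0 :=
    Finset.sum_eq_zero fun l _ => by rw [S.chZ_A l x hx]; ring
  have hb := tiXi_erase_sq_re S.A S.commA x
  rw [S.tq_A] at hb
  have hd := S.rd_pos
  have hb2 := S.rb_pos
  rw [eX, eY, eZ, hWx1, hWx2, S.chSt_A x hx, hk.st]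
  have e : (1 : ℂ) + (-1) ^ 2 * (t : ℂ) / (4 * (s : ℂ) ^ 4) +
      1 / 2 * 0 / (4 * (s : ℂ) ^ 4 + 1) +
      1 / 4 * ((∑ l ∈ Finset.univ.erase (1 : S.A →* ℂˣ), tiXi S.A l x ^ 2) * (y : ℂ)) /
        ((2 * (s : ℂ) ^ 2 - 1) * (2 * (s : ℂ) ^ 2 - 2 * s + 1)) +
      1 / 4 * 0 / ((2 * (s : ℂ) ^ 2 - 1) * (2 * (s : ℂ) ^ 2 + 2 * s + 1)) +
      (1 ^ 2 * (W₁ : G → ℂ) k + 1 ^ 2 * (W₂ : G → ℂ) k) /
        ((s : ℂ) * (2 * (s : ℂ) ^ 2 - 1)) =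
      ((1 + t / (4 * (s : ℝ) ^ 4) + w / ((s : ℝ) * (2 * (s : ℝ) ^ 2 - 1)) : ℝ) : ℂ) +
        ((1 / 4 / ((2 * (s : ℝ) ^ 2 - 1) * (2 * (s : ℝ) ^ 2 - 2 * s + 1)) * y : ℝ) : ℂ) *
        (∑ l ∈ Finset.univ.erase (1 : S.A →* ℂˣ), tiXi S.A l x ^ 2) := by
    push_cast
    rw [← hwk]
    ring
  rw [e]
  refine h6_ne_zero_of_re_bound _ _ 16 _
    (mul_nonneg (div_nonneg (by norm_num) (mul_pos hd hb2).le) hy) ?_ hineq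
  have h16 : (4 : ℝ) ^ 2 = 16 := by norm_num
  rw [h16] at hb
  exact hb

/-- first element in `B` -/
theorem SzChData.tri_B_ne (S : SzChData G s) [Fintype (S.D →* ℂˣ)] [Fintype (S.A →* ℂˣ)]
    [Fintype (S.B →* ℂˣ)] (W₁ W₂ : Cfsg.IrrCharacter G)
    (hW : S.chW = (W₁ : G → ℂ) + (W₂ : G → ℂ))
    (hW1 : (W₁ : G → ℂ) 1 = (s : ℂ) * (2 * (s : ℂ) ^ 2 - 1))
    (hW2 : (W₂ : G → ℂ) 1 = (s : ℂ) * (2 * (s : ℂ) ^ 2 - 1)) (x : S.B) (hx : x ≠ 1) (k : G)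
    {t w mX mY mZ pX pY pZ : ℝ} (hk : S.Prof k t w mX mY mZ pX pY pZ)
    (hineq : 1 / 4 / ((2 * (s : ℝ) ^ 2 - 1) * (2 * (s : ℝ) ^ 2 + 2 * s + 1)) *
        (mZ * (8 * (s : ℝ) ^ 2 - 8 * s - 12)) <
      1 + t / (4 * (s : ℝ) ^ 4) + w / ((s : ℝ) * (2 * (s : ℝ) ^ 2 - 1))) :
    S.fam W₁ W₂ (fun ψ => ψ (x : G) ^ 2 * ψ k / ψ 1) ≠ 0 := by
  rw [S.fam_T W₁ W₂ hW1 hW2]
  obtain ⟨hWx1, hWx2⟩ := S.W_B W₁ W₂ hW hW1 hW2 x hx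
  have hwk : (W₁ : G → ℂ) k + (W₂ : G → ℂ) k = (w : ℂ) := by
    have := congrFun hW k
    rw [Pi.add_apply] at this
    rw [← this, hk.w]
  have eX : ∑ l ∈ Finset.univ.erase (1 : S.D →* ℂˣ), S.chX l (x : G) ^ 2 * S.chX l k = 0 :=
    Finset.sum_eq_zero fun l _ => by rw [S.chX_B l x hx]; ring
  have eY : ∑ l ∈ Finset.univ.erase (1 : S.A →* ℂˣ), S.chY l (x : G) ^ 2 * S.chY l k = 0 :=
    Finset.sum_eq_zero fun l _ => by rw [S.chY_B l x hx]; ring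
  have eZ : ∑ l ∈ Finset.univ.erase (1 : S.B →* ℂˣ), S.chZ l (x : G) ^ 2 * S.chZ l k =
      ∑ l ∈ Finset.univ.erase (1 : S.B →* ℂˣ), tiXi S.B l x ^ 2 * S.chZ l k :=
    Finset.sum_congr rfl fun l _ => by rw [S.chZ_B l x hx]; ring
  have hb := tiXi_erase_norm_bound S.B S.frobB S.commB x hx (fun l => S.chZ l k) mZ hk.bZ
  rw [S.tb_B] at hb
  have hd := S.rd_pos
  have hb2 := S.ra_pos
  rw [eX, eY, eZ, hWx1, hWx2, S.chSt_B x hx, hk.st]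
  have e : (1 : ℂ) + (-1) ^ 2 * (t : ℂ) / (4 * (s : ℂ) ^ 4) +
      1 / 2 * 0 / (4 * (s : ℂ) ^ 4 + 1) +
      1 / 4 * 0 / ((2 * (s : ℂ) ^ 2 - 1) * (2 * (s : ℂ) ^ 2 - 2 * s + 1)) +
      1 / 4 * (∑ l ∈ Finset.univ.erase (1 : S.B →* ℂˣ), tiXi S.B l x ^ 2 * S.chZ l k) /
        ((2 * (s : ℂ) ^ 2 - 1) * (2 * (s : ℂ) ^ 2 + 2 * s + 1)) +
      ((-1) ^ 2 * (W₁ : G → ℂ) k + (-1) ^ 2 * (W₂ : G → ℂ) k) /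
        ((s : ℂ) * (2 * (s : ℂ) ^ 2 - 1)) =
      ((1 + t / (4 * (s : ℝ) ^ 4) + w / ((s : ℝ) * (2 * (s : ℝ) ^ 2 - 1)) : ℝ) : ℂ) +
        ((1 / 4 / ((2 * (s : ℝ) ^ 2 - 1) * (2 * (s : ℝ) ^ 2 + 2 * s + 1)) : ℝ) : ℂ) *
        (∑ l ∈ Finset.univ.erase (1 : S.B →* ℂˣ), tiXi S.B l x ^ 2 * S.chZ l k) := by
    push_cast
    rw [← hwk]
    ring
  rw [e]
  exact h6_ne_zero_of_bound _ _ _ _ (div_nonneg (by norm_num) (mul_pos hd hb2).le) hb hineq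

end SzCs7

end Cfsg.Agent.Helper6
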