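import Mathlib

/-!
# Numerical inequalities for the class multiplication coefficients of the Suzuki groups
-/

set_option autoImplicit false

namespace Cfsg.Agent.Helper6

theorem h6_szineq_UZ (σ : ℝ) (hσ : 2 ≤ σ) :
    0 <
      ((((1 + (((1 / 2) * ((2 * (σ ^ 2)) - 2)) / ((4 * (σ ^ 4)) + 1))) + (((1 / 4) * (((2 * (σ ^ 2)) + (2 * σ)) * ((2 * σ) - 1))) / (((2 * (σ ^ 2)) - 1) * (((2 * (σ ^ 2)) - (2 * σ)) + 1)))) + (((1 / 4) * (-(((2 * (σ ^ 2)) - (2 * σ)) * ((2 * σ) + 1)))) / (((2 * (σ ^ 2)) - 1) * (((2 * (σ ^ 2)) + (2 * σ)) + 1)))) + ((-((σ ^ 2) * (-(2 * σ)))) / (σ * ((2 * (σ ^ 2)) - 1)))) := by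
  obtain ⟨t, ht, rfl⟩ : ∃ t : ℝ, 0 ≤ t ∧ σ = t + 2 := ⟨σ - 2, by linarith, by ring⟩
  have e1 : (2 * (t + 2) ^ 2 - 1 : ℝ) = 2 * t ^ 2 + 8 * t + 7 := by ring
  have e2 : (2 * (t + 2) ^ 2 + 2 * (t + 2) + 1 : ℝ) = 2 * t ^ 2 + 10 * t + 13 := by ring
  have e3 : (2 * (t + 2) ^ 2 - 2 * (t + 2) + 1 : ℝ) = 2 * t ^ 2 + 6 * t + 5 := by ring
  have key : ((((1 + (((1 / 2) * ((2 * ((t + 2) ^ 2)) - 2)) / ((4 * ((t + 2) ^ 4)) + 1))) + (((1 / 4) * (((2 * ((t + 2) ^ 2)) + (2 * (t + 2))) * ((2 * (t + 2)) - 1))) / ((2 * t ^ 2 + 8 * t + 7) * (2 * t ^ 2 + 6 * t + 5)))) + (((1 / 4) * (-(((2 * ((t + 2) ^ 2)) - (2 * (t + 2))) * ((2 * (t + 2)) + 1)))) / ((2 * t ^ 2 + 8 * t + 7) * (2 * t ^ 2 + 10 * t + 13)))) + ((-(((t + 2) ^ 2) * (-(2 * (t + 2))))) / ((t + 2) * (2 * t ^ 2 + 8 * t + 7)))) -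
      0 =
      (1088 + 3200 * t + 3936 * t ^ 2 + 2592 * t ^ 3 + 964 * t ^ 4 + 192 * t ^ 5 + 16 * t ^ 6) /
        (((4 * ((t + 2) ^ 4)) + 1) * (2 * t ^ 2 + 8 * t + 7)) := by
    field_simp
    ring
  have hpos : (0 : ℝ) < (1088 + 3200 * t + 3936 * t ^ 2 + 2592 * t ^ 3 + 964 * t ^ 4 + 192 * t ^ 5 + 16 * t ^ 6) /
        (((4 * ((t + 2) ^ 4)) + 1) * (2 * t ^ 2 + 8 * t + 7)) := by positivity
  rw [← key] at hpos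
  have h := sub_pos.1 hpos
  try simp only [e1, e2, e3]
  exact h

theorem h6_szineq_UU (σ : ℝ) (hσ : 2 ≤ σ) :
    0 <
      ((((1 + (((1 / 2) * ((2 * (σ ^ 2)) - 2)) / ((4 * (σ ^ 4)) + 1))) + (((1 / 4) * (-((2 * (σ ^ 2)) + (2 * σ)))) / (((2 * (σ ^ 2)) - 1) * (((2 * (σ ^ 2)) - (2 * σ)) + 1)))) + (((1 / 4) * (-((2 * (σ ^ 2)) - (2 * σ)))) / (((2 * (σ ^ 2)) - 1) * (((2 * (σ ^ 2)) + (2 * σ)) + 1)))) + ((-((σ ^ 2) * 0)) / (σ * ((2 * (σ ^ 2)) - 1)))) := by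
  obtain ⟨t, ht, rfl⟩ : ∃ t : ℝ, 0 ≤ t ∧ σ = t + 2 := ⟨σ - 2, by linarith, by ring⟩
  have e1 : (2 * (t + 2) ^ 2 - 1 : ℝ) = 2 * t ^ 2 + 8 * t + 7 := by ring
  have e2 : (2 * (t + 2) ^ 2 + 2 * (t + 2) + 1 : ℝ) = 2 * t ^ 2 + 10 * t + 13 := by ring
  have e3 : (2 * (t + 2) ^ 2 - 2 * (t + 2) + 1 : ℝ) = 2 * t ^ 2 + 6 * t + 5 := by ring
  have key : ((((1 + (((1 / 2) * ((2 * ((t + 2) ^ 2)) - 2)) / ((4 * ((t + 2) ^ 4)) + 1))) + (((1 / 4) * (-((2 * ((t + 2) ^ 2)) + (2 * (t + 2))))) / ((2 * t ^ 2 + 8 * t + 7) * (2 * t ^ 2 + 6 * t + 5)))) + (((1 / 4) * (-((2 * ((t + 2) ^ 2)) - (2 * (t + 2))))) / ((2 * t ^ 2 + 8 * t + 7) * (2 * t ^ 2 + 10 * t + 13)))) + ((-(((t + 2) ^ 2) * 0)) / ((t + 2) * (2 * t ^ 2 + 8 * t + 7)))) -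
      0 =
      (432 + 1392 * t + 1820 * t ^ 2 + 1248 * t ^ 3 + 476 * t ^ 4 + 96 * t ^ 5 + 8 * t ^ 6) /
        (((4 * ((t + 2) ^ 4)) + 1) * (2 * t ^ 2 + 8 * t + 7)) := by
    field_simp
    ring
  have hpos : (0 : ℝ) < (432 + 1392 * t + 1820 * t ^ 2 + 1248 * t ^ 3 + 476 * t ^ 4 + 96 * t ^ 5 + 8 * t ^ 6) /
        (((4 * ((t + 2) ^ 4)) + 1) * (2 * t ^ 2 + 8 * t + 7)) := by positivity
  rw [← key] at hpos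
  have h := sub_pos.1 hpos
  try simp only [e1, e2, e3]
  exact h

theorem h6_szineq_UD (σ : ℝ) (hσ : 2 ≤ σ) :
    0 <
      ((((1 + (((1 / 2) * (-2)) / ((4 * (σ ^ 4)) + 1))) + (((1 / 4) * 0) / (((2 * (σ ^ 2)) - 1) * (((2 * (σ ^ 2)) - (2 * σ)) + 1)))) + (((1 / 4) * 0) / (((2 * (σ ^ 2)) - 1) * (((2 * (σ ^ 2)) + (2 * σ)) + 1)))) + ((-((σ ^ 2) * 0)) / (σ * ((2 * (σ ^ 2)) - 1)))) := by
  obtain ⟨t, ht, rfl⟩ : ∃ t : ℝ, 0 ≤ t ∧ σ = t + 2 := ⟨σ - 2, by linarith, by ring⟩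
  have e1 : (2 * (t + 2) ^ 2 - 1 : ℝ) = 2 * t ^ 2 + 8 * t + 7 := by ring
  have e2 : (2 * (t + 2) ^ 2 + 2 * (t + 2) + 1 : ℝ) = 2 * t ^ 2 + 10 * t + 13 := by ring
  have e3 : (2 * (t + 2) ^ 2 - 2 * (t + 2) + 1 : ℝ) = 2 * t ^ 2 + 6 * t + 5 := by ring
  have key : ((((1 + (((1 / 2) * (-2)) / ((4 * ((t + 2) ^ 4)) + 1))) + (((1 / 4) * 0) / ((2 * t ^ 2 + 8 * t + 7) * (2 * t ^ 2 + 6 * t + 5)))) + (((1 / 4) * 0) / ((2 * t ^ 2 + 8 * t + 7) * (2 * t ^ 2 + 10 * t + 13)))) + ((-(((t + 2) ^ 2) * 0)) / ((t + 2) * (2 * t ^ 2 + 8 * t + 7)))) -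
      0 =
      (64 + 128 * t + 96 * t ^ 2 + 32 * t ^ 3 + 4 * t ^ 4) /
        (((4 * ((t + 2) ^ 4)) + 1)) := by
    field_simp
    ring
  have hpos : (0 : ℝ) < (64 + 128 * t + 96 * t ^ 2 + 32 * t ^ 3 + 4 * t ^ 4) /
        (((4 * ((t + 2) ^ 4)) + 1)) := by positivity
  rw [← key] at hpos
  have h := sub_pos.1 hpos
  try simp only [e1, e2, e3]
  exact h

theorem h6_szineq_UA (σ : ℝ) (hσ : 2 ≤ σ) :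
    0 <
      ((((1 + (((1 / 2) * 0) / ((4 * (σ ^ 4)) + 1))) + (((1 / 4) * 4) / (((2 * (σ ^ 2)) - 1) * (((2 * (σ ^ 2)) - (2 * σ)) + 1)))) + (((1 / 4) * 0) / (((2 * (σ ^ 2)) - 1) * (((2 * (σ ^ 2)) + (2 * σ)) + 1)))) + ((-((σ ^ 2) * 2)) / (σ * ((2 * (σ ^ 2)) - 1)))) := by
  obtain ⟨t, ht, rfl⟩ : ∃ t : ℝ, 0 ≤ t ∧ σ = t + 2 := ⟨σ - 2, by linarith, by ring⟩
  have e1 : (2 * (t + 2) ^ 2 - 1 : ℝ) = 2 * t ^ 2 + 8 * t + 7 := by ring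
  have e2 : (2 * (t + 2) ^ 2 + 2 * (t + 2) + 1 : ℝ) = 2 * t ^ 2 + 10 * t + 13 := by ring
  have e3 : (2 * (t + 2) ^ 2 - 2 * (t + 2) + 1 : ℝ) = 2 * t ^ 2 + 6 * t + 5 := by ring
  have key : ((((1 + (((1 / 2) * 0) / ((4 * ((t + 2) ^ 4)) + 1))) + (((1 / 4) * 4) / ((2 * t ^ 2 + 8 * t + 7) * (2 * t ^ 2 + 6 * t + 5)))) + (((1 / 4) * 0) / ((2 * t ^ 2 + 8 * t + 7) * (2 * t ^ 2 + 10 * t + 13)))) + ((-(((t + 2) ^ 2) * 2)) / ((t + 2) * (2 * t ^ 2 + 8 * t + 7)))) -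
      0 =
      (16 + 48 * t + 52 * t ^ 2 + 24 * t ^ 3 + 4 * t ^ 4) /
        ((2 * t ^ 2 + 8 * t + 7) * (2 * t ^ 2 + 6 * t + 5)) := by
    field_simp
    ring
  have hpos : (0 : ℝ) < (16 + 48 * t + 52 * t ^ 2 + 24 * t ^ 3 + 4 * t ^ 4) /
        ((2 * t ^ 2 + 8 * t + 7) * (2 * t ^ 2 + 6 * t + 5)) := by positivity
  rw [← key] at hpos
  have h := sub_pos.1 hpos
  try simp only [e1, e2, e3]
  exact h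

theorem h6_szineq_UB (σ : ℝ) (hσ : 2 ≤ σ) :
    0 <
      ((((1 + (((1 / 2) * 0) / ((4 * (σ ^ 4)) + 1))) + (((1 / 4) * 0) / (((2 * (σ ^ 2)) - 1) * (((2 * (σ ^ 2)) - (2 * σ)) + 1)))) + (((1 / 4) * 4) / (((2 * (σ ^ 2)) - 1) * (((2 * (σ ^ 2)) + (2 * σ)) + 1)))) + ((-((σ ^ 2) * (-2))) / (σ * ((2 * (σ ^ 2)) - 1)))) := by
  obtain ⟨t, ht, rfl⟩ : ∃ t : ℝ, 0 ≤ t ∧ σ = t + 2 := ⟨σ - 2, by linarith, by ring⟩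
  have e1 : (2 * (t + 2) ^ 2 - 1 : ℝ) = 2 * t ^ 2 + 8 * t + 7 := by ring
  have e2 : (2 * (t + 2) ^ 2 + 2 * (t + 2) + 1 : ℝ) = 2 * t ^ 2 + 10 * t + 13 := by ring
  have e3 : (2 * (t + 2) ^ 2 - 2 * (t + 2) + 1 : ℝ) = 2 * t ^ 2 + 6 * t + 5 := by ring
  have key : ((((1 + (((1 / 2) * 0) / ((4 * ((t + 2) ^ 4)) + 1))) + (((1 / 4) * 0) / ((2 * t ^ 2 + 8 * t + 7) * (2 * t ^ 2 + 6 * t + 5)))) + (((1 / 4) * 4) / ((2 * t ^ 2 + 8 * t + 7) * (2 * t ^ 2 + 10 * t + 13)))) + ((-(((t + 2) ^ 2) * (-2))) / ((t + 2) * (2 * t ^ 2 + 8 * t + 7)))) -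
      0 =
      (144 + 240 * t + 148 * t ^ 2 + 40 * t ^ 3 + 4 * t ^ 4) /
        ((2 * t ^ 2 + 8 * t + 7) * (2 * t ^ 2 + 10 * t + 13)) := by
    field_simp
    ring
  have hpos : (0 : ℝ) < (144 + 240 * t + 148 * t ^ 2 + 40 * t ^ 3 + 4 * t ^ 4) /
        ((2 * t ^ 2 + 8 * t + 7) * (2 * t ^ 2 + 10 * t + 13)) := by positivity
  rw [← key] at hpos
  have h := sub_pos.1 hpos
  try simp only [e1, e2, e3]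
  exact h

theorem h6_szineq_DZ (σ : ℝ) (hσ : 2 ≤ σ) :
    (((1 / 2) / ((4 * (σ ^ 4)) + 1)) * (1 * ((4 * (σ ^ 2)) - 6))) <
      (1 + (0 / (4 * (σ ^ 4)))) := by
  obtain ⟨t, ht, rfl⟩ : ∃ t : ℝ, 0 ≤ t ∧ σ = t + 2 := ⟨σ - 2, by linarith, by ring⟩
  have e1 : (2 * (t + 2) ^ 2 - 1 : ℝ) = 2 * t ^ 2 + 8 * t + 7 := by ring
  have e2 : (2 * (t + 2) ^ 2 + 2 * (t + 2) + 1 : ℝ) = 2 * t ^ 2 + 10 * t + 13 := by ring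
  have e3 : (2 * (t + 2) ^ 2 - 2 * (t + 2) + 1 : ℝ) = 2 * t ^ 2 + 6 * t + 5 := by ring
  have key : (1 + (0 / (4 * ((t + 2) ^ 4)))) -
      (((1 / 2) / ((4 * ((t + 2) ^ 4)) + 1)) * (1 * ((4 * ((t + 2) ^ 2)) - 6))) =
      (60 + 120 * t + 94 * t ^ 2 + 32 * t ^ 3 + 4 * t ^ 4) /
        (((4 * ((t + 2) ^ 4)) + 1)) := by
    field_simp
    ring
  have hpos : (0 : ℝ) < (60 + 120 * t + 94 * t ^ 2 + 32 * t ^ 3 + 4 * t ^ 4) /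
        (((4 * ((t + 2) ^ 4)) + 1)) := by positivity
  rw [← key] at hpos
  have h := sub_pos.1 hpos
  try simp only [e1, e2, e3]
  exact h

theorem h6_szineq_DU (σ : ℝ) (hσ : 2 ≤ σ) :
    (((1 / 2) / ((4 * (σ ^ 4)) + 1)) * (1 * ((4 * (σ ^ 2)) - 6))) <
      (1 + (0 / (4 * (σ ^ 4)))) := by
  obtain ⟨t, ht, rfl⟩ : ∃ t : ℝ, 0 ≤ t ∧ σ = t + 2 := ⟨σ - 2, by linarith, by ring⟩
  have e1 : (2 * (t + 2) ^ 2 - 1 : ℝ) = 2 * t ^ 2 + 8 * t + 7 := by ring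
  have e2 : (2 * (t + 2) ^ 2 + 2 * (t + 2) + 1 : ℝ) = 2 * t ^ 2 + 10 * t + 13 := by ring
  have e3 : (2 * (t + 2) ^ 2 - 2 * (t + 2) + 1 : ℝ) = 2 * t ^ 2 + 6 * t + 5 := by ring
  have key : (1 + (0 / (4 * ((t + 2) ^ 4)))) -
      (((1 / 2) / ((4 * ((t + 2) ^ 4)) + 1)) * (1 * ((4 * ((t + 2) ^ 2)) - 6))) =
      (60 + 120 * t + 94 * t ^ 2 + 32 * t ^ 3 + 4 * t ^ 4) /
        (((4 * ((t + 2) ^ 4)) + 1)) := by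
    field_simp
    ring
  have hpos : (0 : ℝ) < (60 + 120 * t + 94 * t ^ 2 + 32 * t ^ 3 + 4 * t ^ 4) /
        (((4 * ((t + 2) ^ 4)) + 1)) := by positivity
  rw [← key] at hpos
  have h := sub_pos.1 hpos
  try simp only [e1, e2, e3]
  exact h

theorem h6_szineq_DD (σ : ℝ) (hσ : 2 ≤ σ) :
    (((1 / 2) / ((4 * (σ ^ 4)) + 1)) * (2 * ((4 * (σ ^ 2)) - 6))) <
      (1 + (1 / (4 * (σ ^ 4)))) := by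
  obtain ⟨t, ht, rfl⟩ : ∃ t : ℝ, 0 ≤ t ∧ σ = t + 2 := ⟨σ - 2, by linarith, by ring⟩
  have e1 : (2 * (t + 2) ^ 2 - 1 : ℝ) = 2 * t ^ 2 + 8 * t + 7 := by ring
  have e2 : (2 * (t + 2) ^ 2 + 2 * (t + 2) + 1 : ℝ) = 2 * t ^ 2 + 10 * t + 13 := by ring
  have e3 : (2 * (t + 2) ^ 2 - 2 * (t + 2) + 1 : ℝ) = 2 * t ^ 2 + 6 * t + 5 := by ring
  have key : (1 + (1 / (4 * ((t + 2) ^ 4)))) -
      (((1 / 2) / ((4 * ((t + 2) ^ 4)) + 1)) * (2 * ((4 * ((t + 2) ^ 2)) - 6))) =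
      (3585 + 14336 * t + 25600 * t ^ 2 + 26368 * t ^ 3 + 16992 * t ^ 4 + 6976 * t ^ 5 + 1776 * t ^ 6 + 256 * t ^ 7 + 16 * t ^ 8) /
        ((4 * ((t + 2) ^ 4)) * ((4 * ((t + 2) ^ 4)) + 1)) := by
    field_simp
    ring
  have hpos : (0 : ℝ) < (3585 + 14336 * t + 25600 * t ^ 2 + 26368 * t ^ 3 + 16992 * t ^ 4 + 6976 * t ^ 5 + 1776 * t ^ 6 + 256 * t ^ 7 + 16 * t ^ 8) /
        ((4 * ((t + 2) ^ 4)) * ((4 * ((t + 2) ^ 4)) + 1)) := by positivity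
  rw [← key] at hpos
  have h := sub_pos.1 hpos
  try simp only [e1, e2, e3]
  exact h

theorem h6_szineq_DA (σ : ℝ) (hσ : 2 ≤ σ) :
    (((1 / 2) / ((4 * (σ ^ 4)) + 1)) * (0 * ((4 * (σ ^ 2)) - 6))) <
      (1 + ((-1) / (4 * (σ ^ 4)))) := by
  obtain ⟨t, ht, rfl⟩ : ∃ t : ℝ, 0 ≤ t ∧ σ = t + 2 := ⟨σ - 2, by linarith, by ring⟩
  have e1 : (2 * (t + 2) ^ 2 - 1 : ℝ) = 2 * t ^ 2 + 8 * t + 7 := by ring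
  have e2 : (2 * (t + 2) ^ 2 + 2 * (t + 2) + 1 : ℝ) = 2 * t ^ 2 + 10 * t + 13 := by ring
  have e3 : (2 * (t + 2) ^ 2 - 2 * (t + 2) + 1 : ℝ) = 2 * t ^ 2 + 6 * t + 5 := by ring
  have key : (1 + ((-1) / (4 * ((t + 2) ^ 4)))) -
      (((1 / 2) / ((4 * ((t + 2) ^ 4)) + 1)) * (0 * ((4 * ((t + 2) ^ 2)) - 6))) =
      (63 + 128 * t + 96 * t ^ 2 + 32 * t ^ 3 + 4 * t ^ 4) /
        ((4 * ((t + 2) ^ 4))) := by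
    field_simp
    ring
  have hpos : (0 : ℝ) < (63 + 128 * t + 96 * t ^ 2 + 32 * t ^ 3 + 4 * t ^ 4) /
        ((4 * ((t + 2) ^ 4))) := by positivity
  rw [← key] at hpos
  have h := sub_pos.1 hpos
  try simp only [e1, e2, e3]
  exact h

theorem h6_szineq_DB (σ : ℝ) (hσ : 2 ≤ σ) :
    (((1 / 2) / ((4 * (σ ^ 4)) + 1)) * (0 * ((4 * (σ ^ 2)) - 6))) <
      (1 + ((-1) / (4 * (σ ^ 4)))) := by
  obtain ⟨t, ht, rfl⟩ : ∃ t : ℝ, 0 ≤ t ∧ σ = t + 2 := ⟨σ - 2, by linarith, by ring⟩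
  have e1 : (2 * (t + 2) ^ 2 - 1 : ℝ) = 2 * t ^ 2 + 8 * t + 7 := by ring
  have e2 : (2 * (t + 2) ^ 2 + 2 * (t + 2) + 1 : ℝ) = 2 * t ^ 2 + 10 * t + 13 := by ring
  have e3 : (2 * (t + 2) ^ 2 - 2 * (t + 2) + 1 : ℝ) = 2 * t ^ 2 + 6 * t + 5 := by ring
  have key : (1 + ((-1) / (4 * ((t + 2) ^ 4)))) -
      (((1 / 2) / ((4 * ((t + 2) ^ 4)) + 1)) * (0 * ((4 * ((t + 2) ^ 2)) - 6))) =
      (63 + 128 * t + 96 * t ^ 2 + 32 * t ^ 3 + 4 * t ^ 4) /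
        ((4 * ((t + 2) ^ 4))) := by
    field_simp
    ring
  have hpos : (0 : ℝ) < (63 + 128 * t + 96 * t ^ 2 + 32 * t ^ 3 + 4 * t ^ 4) /
        ((4 * ((t + 2) ^ 4))) := by positivity
  rw [← key] at hpos
  have h := sub_pos.1 hpos
  try simp only [e1, e2, e3]
  exact h

theorem h6_szineq_AZ (σ : ℝ) (hσ : 2 ≤ σ) :
    ((((1 / 4) / (((2 * (σ ^ 2)) - 1) * (((2 * (σ ^ 2)) - (2 * σ)) + 1))) * ((2 * σ) - 1)) * 16) <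
      ((1 + (0 / (4 * (σ ^ 4)))) + ((-(2 * σ)) / (σ * ((2 * (σ ^ 2)) - 1)))) := by
  obtain ⟨t, ht, rfl⟩ : ∃ t : ℝ, 0 ≤ t ∧ σ = t + 2 := ⟨σ - 2, by linarith, by ring⟩
  have e1 : (2 * (t + 2) ^ 2 - 1 : ℝ) = 2 * t ^ 2 + 8 * t + 7 := by ring
  have e2 : (2 * (t + 2) ^ 2 + 2 * (t + 2) + 1 : ℝ) = 2 * t ^ 2 + 10 * t + 13 := by ring
  have e3 : (2 * (t + 2) ^ 2 - 2 * (t + 2) + 1 : ℝ) = 2 * t ^ 2 + 6 * t + 5 := by ring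
  have key : ((1 + (0 / (4 * ((t + 2) ^ 4)))) + ((-(2 * (t + 2))) / ((t + 2) * (2 * t ^ 2 + 8 * t + 7)))) -
      ((((1 / 4) / ((2 * t ^ 2 + 8 * t + 7) * (2 * t ^ 2 + 6 * t + 5))) * ((2 * (t + 2)) - 1)) * 16) =
      (13 + 62 * t + 68 * t ^ 2 + 28 * t ^ 3 + 4 * t ^ 4) /
        ((2 * t ^ 2 + 8 * t + 7) * (2 * t ^ 2 + 6 * t + 5)) := by
    field_simp
    ring
  have hpos : (0 : ℝ) < (13 + 62 * t + 68 * t ^ 2 + 28 * t ^ 3 + 4 * t ^ 4) /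
        ((2 * t ^ 2 + 8 * t + 7) * (2 * t ^ 2 + 6 * t + 5)) := by positivity
  rw [← key] at hpos
  have h := sub_pos.1 hpos
  try simp only [e1, e2, e3]
  exact h

theorem h6_szineq_AU (σ : ℝ) (hσ : 2 ≤ σ) :
    (((1 / 4) / (((2 * (σ ^ 2)) - 1) * (((2 * (σ ^ 2)) - (2 * σ)) + 1))) * (1 * (((8 * (σ ^ 2)) + (8 * σ)) - 12))) <
      ((1 + (0 / (4 * (σ ^ 4)))) + (0 / (σ * ((2 * (σ ^ 2)) - 1)))) := by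
  obtain ⟨t, ht, rfl⟩ : ∃ t : ℝ, 0 ≤ t ∧ σ = t + 2 := ⟨σ - 2, by linarith, by ring⟩
  have e1 : (2 * (t + 2) ^ 2 - 1 : ℝ) = 2 * t ^ 2 + 8 * t + 7 := by ring
  have e2 : (2 * (t + 2) ^ 2 + 2 * (t + 2) + 1 : ℝ) = 2 * t ^ 2 + 10 * t + 13 := by ring
  have e3 : (2 * (t + 2) ^ 2 - 2 * (t + 2) + 1 : ℝ) = 2 * t ^ 2 + 6 * t + 5 := by ring
  have key : ((1 + (0 / (4 * ((t + 2) ^ 4)))) + (0 / ((t + 2) * (2 * t ^ 2 + 8 * t + 7)))) -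
      (((1 / 4) / ((2 * t ^ 2 + 8 * t + 7) * (2 * t ^ 2 + 6 * t + 5))) * (1 * (((8 * ((t + 2) ^ 2)) + (8 * (t + 2))) - 12))) =
      (26 + 72 * t + 70 * t ^ 2 + 28 * t ^ 3 + 4 * t ^ 4) /
        ((2 * t ^ 2 + 8 * t + 7) * (2 * t ^ 2 + 6 * t + 5)) := by
    field_simp
    ring
  have hpos : (0 : ℝ) < (26 + 72 * t + 70 * t ^ 2 + 28 * t ^ 3 + 4 * t ^ 4) /
        ((2 * t ^ 2 + 8 * t + 7) * (2 * t ^ 2 + 6 * t + 5)) := by positivity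
  rw [← key] at hpos
  have h := sub_pos.1 hpos
  try simp only [e1, e2, e3]
  exact h

theorem h6_szineq_AD (σ : ℝ) (hσ : 2 ≤ σ) :
    (((1 / 4) / (((2 * (σ ^ 2)) - 1) * (((2 * (σ ^ 2)) - (2 * σ)) + 1))) * (0 * (((8 * (σ ^ 2)) + (8 * σ)) - 12))) <
      ((1 + (1 / (4 * (σ ^ 4)))) + (0 / (σ * ((2 * (σ ^ 2)) - 1)))) := by
  obtain ⟨t, ht, rfl⟩ : ∃ t : ℝ, 0 ≤ t ∧ σ = t + 2 := ⟨σ - 2, by linarith, by ring⟩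
  have e1 : (2 * (t + 2) ^ 2 - 1 : ℝ) = 2 * t ^ 2 + 8 * t + 7 := by ring
  have e2 : (2 * (t + 2) ^ 2 + 2 * (t + 2) + 1 : ℝ) = 2 * t ^ 2 + 10 * t + 13 := by ring
  have e3 : (2 * (t + 2) ^ 2 - 2 * (t + 2) + 1 : ℝ) = 2 * t ^ 2 + 6 * t + 5 := by ring
  have key : ((1 + (1 / (4 * ((t + 2) ^ 4)))) + (0 / ((t + 2) * (2 * t ^ 2 + 8 * t + 7)))) -
      (((1 / 4) / ((2 * t ^ 2 + 8 * t + 7) * (2 * t ^ 2 + 6 * t + 5))) * (0 * (((8 * ((t + 2) ^ 2)) + (8 * (t + 2))) - 12))) =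
      (65 + 128 * t + 96 * t ^ 2 + 32 * t ^ 3 + 4 * t ^ 4) /
        ((4 * ((t + 2) ^ 4))) := by
    field_simp
    ring
  have hpos : (0 : ℝ) < (65 + 128 * t + 96 * t ^ 2 + 32 * t ^ 3 + 4 * t ^ 4) /
        ((4 * ((t + 2) ^ 4))) := by positivity
  rw [← key] at hpos
  have h := sub_pos.1 hpos
  try simp only [e1, e2, e3]
  exact h

theorem h6_szineq_AA (σ : ℝ) (hσ : 2 ≤ σ) :
    (((1 / 4) / (((2 * (σ ^ 2)) - 1) * (((2 * (σ ^ 2)) - (2 * σ)) + 1))) * (4 * (((8 * (σ ^ 2)) + (8 * σ)) - 12))) <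
      ((1 + ((-1) / (4 * (σ ^ 4)))) + (2 / (σ * ((2 * (σ ^ 2)) - 1)))) := by
  obtain ⟨t, ht, rfl⟩ : ∃ t : ℝ, 0 ≤ t ∧ σ = t + 2 := ⟨σ - 2, by linarith, by ring⟩
  have e1 : (2 * (t + 2) ^ 2 - 1 : ℝ) = 2 * t ^ 2 + 8 * t + 7 := by ring
  have e2 : (2 * (t + 2) ^ 2 + 2 * (t + 2) + 1 : ℝ) = 2 * t ^ 2 + 10 * t + 13 := by ring
  have e3 : (2 * (t + 2) ^ 2 - 2 * (t + 2) + 1 : ℝ) = 2 * t ^ 2 + 6 * t + 5 := by ring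
  have key : ((1 + ((-1) / (4 * ((t + 2) ^ 4)))) + (2 / ((t + 2) * (2 * t ^ 2 + 8 * t + 7)))) -
      (((1 / 4) / ((2 * t ^ 2 + 8 * t + 7) * (2 * t ^ 2 + 6 * t + 5))) * (4 * (((8 * ((t + 2) ^ 2)) + (8 * (t + 2))) - 12))) =
      (221 + 3342 * t + 10248 * t ^ 2 + 14476 * t ^ 3 + 11464 * t ^ 4 + 5432 * t ^ 5 + 1536 * t ^ 6 + 240 * t ^ 7 + 16 * t ^ 8) /
        ((4 * ((t + 2) ^ 4)) * (2 * t ^ 2 + 8 * t + 7) * (2 * t ^ 2 + 6 * t + 5)) := by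
    field_simp
    ring
  have hpos : (0 : ℝ) < (221 + 3342 * t + 10248 * t ^ 2 + 14476 * t ^ 3 + 11464 * t ^ 4 + 5432 * t ^ 5 + 1536 * t ^ 6 + 240 * t ^ 7 + 16 * t ^ 8) /
        ((4 * ((t + 2) ^ 4)) * (2 * t ^ 2 + 8 * t + 7) * (2 * t ^ 2 + 6 * t + 5)) := by positivity
  rw [← key] at hpos
  have h := sub_pos.1 hpos
  try simp only [e1, e2, e3]
  exact h

theorem h6_szineq_AB (σ : ℝ) (hσ : 2 ≤ σ) :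
    (((1 / 4) / (((2 * (σ ^ 2)) - 1) * (((2 * (σ ^ 2)) - (2 * σ)) + 1))) * (0 * (((8 * (σ ^ 2)) + (8 * σ)) - 12))) <
      ((1 + ((-1) / (4 * (σ ^ 4)))) + ((-2) / (σ * ((2 * (σ ^ 2)) - 1)))) := by
  obtain ⟨t, ht, rfl⟩ : ∃ t : ℝ, 0 ≤ t ∧ σ = t + 2 := ⟨σ - 2, by linarith, by ring⟩
  have e1 : (2 * (t + 2) ^ 2 - 1 : ℝ) = 2 * t ^ 2 + 8 * t + 7 := by ring
  have e2 : (2 * (t + 2) ^ 2 + 2 * (t + 2) + 1 : ℝ) = 2 * t ^ 2 + 10 * t + 13 := by ring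
  have e3 : (2 * (t + 2) ^ 2 - 2 * (t + 2) + 1 : ℝ) = 2 * t ^ 2 + 6 * t + 5 := by ring
  have key : ((1 + ((-1) / (4 * ((t + 2) ^ 4)))) + ((-2) / ((t + 2) * (2 * t ^ 2 + 8 * t + 7)))) -
      (((1 / 4) / ((2 * t ^ 2 + 8 * t + 7) * (2 * t ^ 2 + 6 * t + 5))) * (0 * (((8 * ((t + 2) ^ 2)) + (8 * (t + 2))) - 12))) =
      (377 + 1304 * t + 1774 * t ^ 2 + 1240 * t ^ 3 + 476 * t ^ 4 + 96 * t ^ 5 + 8 * t ^ 6) /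
        ((4 * ((t + 2) ^ 4)) * (2 * t ^ 2 + 8 * t + 7)) := by
    field_simp
    ring
  have hpos : (0 : ℝ) < (377 + 1304 * t + 1774 * t ^ 2 + 1240 * t ^ 3 + 476 * t ^ 4 + 96 * t ^ 5 + 8 * t ^ 6) /
        ((4 * ((t + 2) ^ 4)) * (2 * t ^ 2 + 8 * t + 7)) := by positivity
  rw [← key] at hpos
  have h := sub_pos.1 hpos
  try simp only [e1, e2, e3]
  exact h

theorem h6_szineq_BZ (σ : ℝ) (hσ : 2 ≤ σ) :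
    (((1 / 4) / (((2 * (σ ^ 2)) - 1) * (((2 * (σ ^ 2)) + (2 * σ)) + 1))) * (((2 * σ) + 1) * (((8 * (σ ^ 2)) - (8 * σ)) - 12))) <
      ((1 + (0 / (4 * (σ ^ 4)))) + ((-(2 * σ)) / (σ * ((2 * (σ ^ 2)) - 1)))) := by
  obtain ⟨t, ht, rfl⟩ : ∃ t : ℝ, 0 ≤ t ∧ σ = t + 2 := ⟨σ - 2, by linarith, by ring⟩
  have e1 : (2 * (t + 2) ^ 2 - 1 : ℝ) = 2 * t ^ 2 + 8 * t + 7 := by ring
  have e2 : (2 * (t + 2) ^ 2 + 2 * (t + 2) + 1 : ℝ) = 2 * t ^ 2 + 10 * t + 13 := by ring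
  have e3 : (2 * (t + 2) ^ 2 - 2 * (t + 2) + 1 : ℝ) = 2 * t ^ 2 + 6 * t + 5 := by ring
  have key : ((1 + (0 / (4 * ((t + 2) ^ 4)))) + ((-(2 * (t + 2))) / ((t + 2) * (2 * t ^ 2 + 8 * t + 7)))) -
      (((1 / 4) / ((2 * t ^ 2 + 8 * t + 7) * (2 * t ^ 2 + 10 * t + 13))) * (((2 * (t + 2)) + 1) * (((8 * ((t + 2) ^ 2)) - (8 * (t + 2))) - 12))) =
      (60 + 122 * t + 94 * t ^ 2 + 32 * t ^ 3 + 4 * t ^ 4) /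
        ((2 * t ^ 2 + 8 * t + 7) * (2 * t ^ 2 + 10 * t + 13)) := by
    field_simp
    ring
  have hpos : (0 : ℝ) < (60 + 122 * t + 94 * t ^ 2 + 32 * t ^ 3 + 4 * t ^ 4) /
        ((2 * t ^ 2 + 8 * t + 7) * (2 * t ^ 2 + 10 * t + 13)) := by positivity
  rw [← key] at hpos
  have h := sub_pos.1 hpos
  try simp only [e1, e2, e3]
  exact h

theorem h6_szineq_BU (σ : ℝ) (hσ : 2 ≤ σ) :
    (((1 / 4) / (((2 * (σ ^ 2)) - 1) * (((2 * (σ ^ 2)) + (2 * σ)) + 1))) * (1 * (((8 * (σ ^ 2)) - (8 * σ)) - 12))) <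
      ((1 + (0 / (4 * (σ ^ 4)))) + (0 / (σ * ((2 * (σ ^ 2)) - 1)))) := by
  obtain ⟨t, ht, rfl⟩ : ∃ t : ℝ, 0 ≤ t ∧ σ = t + 2 := ⟨σ - 2, by linarith, by ring⟩
  have e1 : (2 * (t + 2) ^ 2 - 1 : ℝ) = 2 * t ^ 2 + 8 * t + 7 := by ring
  have e2 : (2 * (t + 2) ^ 2 + 2 * (t + 2) + 1 : ℝ) = 2 * t ^ 2 + 10 * t + 13 := by ring
  have e3 : (2 * (t + 2) ^ 2 - 2 * (t + 2) + 1 : ℝ) = 2 * t ^ 2 + 6 * t + 5 := by ring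
  have key : ((1 + (0 / (4 * ((t + 2) ^ 4)))) + (0 / ((t + 2) * (2 * t ^ 2 + 8 * t + 7)))) -
      (((1 / 4) / ((2 * t ^ 2 + 8 * t + 7) * (2 * t ^ 2 + 10 * t + 13))) * (1 * (((8 * ((t + 2) ^ 2)) - (8 * (t + 2))) - 12))) =
      (90 + 168 * t + 118 * t ^ 2 + 36 * t ^ 3 + 4 * t ^ 4) /
        ((2 * t ^ 2 + 8 * t + 7) * (2 * t ^ 2 + 10 * t + 13)) := by
    field_simp
    ring
  have hpos : (0 : ℝ) < (90 + 168 * t + 118 * t ^ 2 + 36 * t ^ 3 + 4 * t ^ 4) /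
        ((2 * t ^ 2 + 8 * t + 7) * (2 * t ^ 2 + 10 * t + 13)) := by positivity
  rw [← key] at hpos
  have h := sub_pos.1 hpos
  try simp only [e1, e2, e3]
  exact h

theorem h6_szineq_BD (σ : ℝ) (hσ : 2 ≤ σ) :
    (((1 / 4) / (((2 * (σ ^ 2)) - 1) * (((2 * (σ ^ 2)) + (2 * σ)) + 1))) * (0 * (((8 * (σ ^ 2)) - (8 * σ)) - 12))) <
      ((1 + (1 / (4 * (σ ^ 4)))) + (0 / (σ * ((2 * (σ ^ 2)) - 1)))) := by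
  obtain ⟨t, ht, rfl⟩ : ∃ t : ℝ, 0 ≤ t ∧ σ = t + 2 := ⟨σ - 2, by linarith, by ring⟩
  have e1 : (2 * (t + 2) ^ 2 - 1 : ℝ) = 2 * t ^ 2 + 8 * t + 7 := by ring
  have e2 : (2 * (t + 2) ^ 2 + 2 * (t + 2) + 1 : ℝ) = 2 * t ^ 2 + 10 * t + 13 := by ring
  have e3 : (2 * (t + 2) ^ 2 - 2 * (t + 2) + 1 : ℝ) = 2 * t ^ 2 + 6 * t + 5 := by ring
  have key : ((1 + (1 / (4 * ((t + 2) ^ 4)))) + (0 / ((t + 2) * (2 * t ^ 2 + 8 * t + 7)))) -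
      (((1 / 4) / ((2 * t ^ 2 + 8 * t + 7) * (2 * t ^ 2 + 10 * t + 13))) * (0 * (((8 * ((t + 2) ^ 2)) - (8 * (t + 2))) - 12))) =
      (65 + 128 * t + 96 * t ^ 2 + 32 * t ^ 3 + 4 * t ^ 4) /
        ((4 * ((t + 2) ^ 4))) := by
    field_simp
    ring
  have hpos : (0 : ℝ) < (65 + 128 * t + 96 * t ^ 2 + 32 * t ^ 3 + 4 * t ^ 4) /
        ((4 * ((t + 2) ^ 4))) := by positivity
  rw [← key] at hpos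
  have h := sub_pos.1 hpos
  try simp only [e1, e2, e3]
  exact h

theorem h6_szineq_BA (σ : ℝ) (hσ : 2 ≤ σ) :
    (((1 / 4) / (((2 * (σ ^ 2)) - 1) * (((2 * (σ ^ 2)) + (2 * σ)) + 1))) * (0 * (((8 * (σ ^ 2)) - (8 * σ)) - 12))) <
      ((1 + ((-1) / (4 * (σ ^ 4)))) + (2 / (σ * ((2 * (σ ^ 2)) - 1)))) := by
  obtain ⟨t, ht, rfl⟩ : ∃ t : ℝ, 0 ≤ t ∧ σ = t + 2 := ⟨σ - 2, by linarith, by ring⟩
  have e1 : (2 * (t + 2) ^ 2 - 1 : ℝ) = 2 * t ^ 2 + 8 * t + 7 := by ring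
  have e2 : (2 * (t + 2) ^ 2 + 2 * (t + 2) + 1 : ℝ) = 2 * t ^ 2 + 10 * t + 13 := by ring
  have e3 : (2 * (t + 2) ^ 2 - 2 * (t + 2) + 1 : ℝ) = 2 * t ^ 2 + 6 * t + 5 := by ring
  have key : ((1 + ((-1) / (4 * ((t + 2) ^ 4)))) + (2 / ((t + 2) * (2 * t ^ 2 + 8 * t + 7)))) -
      (((1 / 4) / ((2 * t ^ 2 + 8 * t + 7) * (2 * t ^ 2 + 10 * t + 13))) * (0 * (((8 * ((t + 2) ^ 2)) - (8 * (t + 2))) - 12))) =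
      (505 + 1496 * t + 1870 * t ^ 2 + 1256 * t ^ 3 + 476 * t ^ 4 + 96 * t ^ 5 + 8 * t ^ 6) /
        ((4 * ((t + 2) ^ 4)) * (2 * t ^ 2 + 8 * t + 7)) := by
    field_simp
    ring
  have hpos : (0 : ℝ) < (505 + 1496 * t + 1870 * t ^ 2 + 1256 * t ^ 3 + 476 * t ^ 4 + 96 * t ^ 5 + 8 * t ^ 6) /
        ((4 * ((t + 2) ^ 4)) * (2 * t ^ 2 + 8 * t + 7)) := by positivity
  rw [← key] at hpos
  have h := sub_pos.1 hpos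
  try simp only [e1, e2, e3]
  exact h

theorem h6_szineq_BB (σ : ℝ) (hσ : 2 ≤ σ) :
    (((1 / 4) / (((2 * (σ ^ 2)) - 1) * (((2 * (σ ^ 2)) + (2 * σ)) + 1))) * (4 * (((8 * (σ ^ 2)) - (8 * σ)) - 12))) <
      ((1 + ((-1) / (4 * (σ ^ 4)))) + ((-2) / (σ * ((2 * (σ ^ 2)) - 1)))) := by
  obtain ⟨t, ht, rfl⟩ : ∃ t : ℝ, 0 ≤ t ∧ σ = t + 2 := ⟨σ - 2, by linarith, by ring⟩
  have e1 : (2 * (t + 2) ^ 2 - 1 : ℝ) = 2 * t ^ 2 + 8 * t + 7 := by ring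
  have e2 : (2 * (t + 2) ^ 2 + 2 * (t + 2) + 1 : ℝ) = 2 * t ^ 2 + 10 * t + 13 := by ring
  have e3 : (2 * (t + 2) ^ 2 - 2 * (t + 2) + 1 : ℝ) = 2 * t ^ 2 + 6 * t + 5 := by ring
  have key : ((1 + ((-1) / (4 * ((t + 2) ^ 4)))) + ((-2) / ((t + 2) * (2 * t ^ 2 + 8 * t + 7)))) -
      (((1 / 4) / ((2 * t ^ 2 + 8 * t + 7) * (2 * t ^ 2 + 10 * t + 13))) * (4 * (((8 * ((t + 2) ^ 2)) - (8 * (t + 2))) - 12))) =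
      (4645 + 18674 * t + 32888 * t ^ 2 + 33012 * t ^ 3 + 20584 * t ^ 4 + 8136 * t ^ 5 + 1984 * t ^ 6 + 272 * t ^ 7 + 16 * t ^ 8) /
        ((4 * ((t + 2) ^ 4)) * (2 * t ^ 2 + 8 * t + 7) * (2 * t ^ 2 + 10 * t + 13)) := by
    field_simp
    ring
  have hpos : (0 : ℝ) < (4645 + 18674 * t + 32888 * t ^ 2 + 33012 * t ^ 3 + 20584 * t ^ 4 + 8136 * t ^ 5 + 1984 * t ^ 6 + 272 * t ^ 7 + 16 * t ^ 8) /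
        ((4 * ((t + 2) ^ 4)) * (2 * t ^ 2 + 8 * t + 7) * (2 * t ^ 2 + 10 * t + 13)) := by positivity
  rw [← key] at hpos
  have h := sub_pos.1 hpos
  try simp only [e1, e2, e3]
  exact h

end Cfsg.Agent.Helper6
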