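import Mathlib
import Cfsg.Agent.Helper6.SzCs7
import Cfsg.Agent.Helper6.SzCs8

/-!
# Products of two conjugates in a group with a Suzuki-type partition

In a group with a Suzuki-type partition whose non-central elements of `U` are not conjugate to
their inverses and whose subgroup `Z` has exponent two, every nonidentity element is a product of
two conjugates of any given element of order greater than two.
-/

set_option autoImplicit false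

namespace Cfsg.Agent.Helper6

open scoped ComplexConjugate
open Classical

section SzCs9

variable {G : Type*} [Group G] [Fintype G] {s : ℕ}

/-- the class multiplication coefficient does not vanish -/
theorem SzChData.tri_ne (S : SzChData G s) [Fintype (S.D →* ℂˣ)] [Fintype (S.A →* ℂˣ)]
    [Fintype (S.B →* ℂˣ)] (W₁ W₂ : Cfsg.IrrCharacter G)
    (hW : S.chW = (W₁ : G → ℂ) + (W₂ : G → ℂ))
    (hW1 : (W₁ : G → ℂ) 1 = (s : ℂ) * (2 * (s : ℂ) ^ 2 - 1))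
    (hW2 : (W₂ : G → ℂ) 1 = (s : ℂ) * (2 * (s : ℂ) ^ 2 - 1))
    (hreal : ∀ u : G, u ∈ S.U → u ∉ S.Z → ¬ IsConj u⁻¹ u) (x k : G)
    (hx : (x ∈ S.U ∧ x ∉ S.Z) ∨ (x ∈ S.D ∧ x ≠ 1) ∨ (x ∈ S.A ∧ x ≠ 1) ∨ (x ∈ S.B ∧ x ≠ 1))
    (hk : k ≠ 1) (hk' : k ∈ S.U ∨ k ∈ S.D ∨ k ∈ S.A ∨ k ∈ S.B) :
    S.fam W₁ W₂ (fun ψ => ψ x ^ 2 * ψ k / ψ 1) ≠ 0 := by
  have hs := S.rs
  rcases hk' with hkU | hkD | hkA | hkB
  · by_cases hz : k ∈ S.Z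
    · have hk1 : (⟨k, hkU⟩ : S.U) ≠ 1 := fun e => hk (congrArg Subtype.val e)
      have hp := S.prof_Z ⟨k, hkU⟩ hk1 hz
      rcases hx with ⟨h1, h2⟩ | ⟨h1, h2⟩ | ⟨h1, h2⟩ | ⟨h1, h2⟩
      · exact S.tri_U_ne W₁ W₂ hW hW1 hW2 ⟨x, h1⟩ h2 (hreal x h1 h2) k hp (h6_szineq_UZ _ hs)
      · exact S.tri_D_ne W₁ W₂ hW hW1 hW2 ⟨x, h1⟩ (fun e => h2 (congrArg Subtype.val e)) k hp
          (h6_szineq_DZ _ hs)
      · refine S.tri_A_ne' W₁ W₂ hW hW1 hW2 ⟨x, h1⟩ (fun e => h2 (congrArg Subtype.val e)) k hp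
          (2 * (s : ℝ) - 1) (by linarith) (fun l => ?_) (h6_szineq_AZ _ hs)
        rw [S.chY_UZ l ⟨k, hkU⟩ hk1 hz]
        push_cast
        ring
      · exact S.tri_B_ne W₁ W₂ hW hW1 hW2 ⟨x, h1⟩ (fun e => h2 (congrArg Subtype.val e)) k hp
          (h6_szineq_BZ _ hs)
    · have hp := S.prof_U ⟨k, hkU⟩ hz
      rcases hx with ⟨h1, h2⟩ | ⟨h1, h2⟩ | ⟨h1, h2⟩ | ⟨h1, h2⟩
      · exact S.tri_U_ne W₁ W₂ hW hW1 hW2 ⟨x, h1⟩ h2 (hreal x h1 h2) k hp (h6_szineq_UU _ hs)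
      · exact S.tri_D_ne W₁ W₂ hW hW1 hW2 ⟨x, h1⟩ (fun e => h2 (congrArg Subtype.val e)) k hp
          (h6_szineq_DU _ hs)
      · exact S.tri_A_ne W₁ W₂ hW hW1 hW2 ⟨x, h1⟩ (fun e => h2 (congrArg Subtype.val e)) k hp
          (h6_szineq_AU _ hs)
      · exact S.tri_B_ne W₁ W₂ hW hW1 hW2 ⟨x, h1⟩ (fun e => h2 (congrArg Subtype.val e)) k hp
          (h6_szineq_BU _ hs)
  · have hk1 : (⟨k, hkD⟩ : S.D) ≠ 1 := fun e => hk (congrArg Subtype.val e)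
    have hp := S.prof_D ⟨k, hkD⟩ hk1
    rcases hx with ⟨h1, h2⟩ | ⟨h1, h2⟩ | ⟨h1, h2⟩ | ⟨h1, h2⟩
    · exact S.tri_U_ne W₁ W₂ hW hW1 hW2 ⟨x, h1⟩ h2 (hreal x h1 h2) k hp (h6_szineq_UD _ hs)
    · exact S.tri_D_ne W₁ W₂ hW hW1 hW2 ⟨x, h1⟩ (fun e => h2 (congrArg Subtype.val e)) k hp
        (h6_szineq_DD _ hs)
    · exact S.tri_A_ne W₁ W₂ hW hW1 hW2 ⟨x, h1⟩ (fun e => h2 (congrArg Subtype.val e)) k hp
        (h6_szineq_AD _ hs)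
    · exact S.tri_B_ne W₁ W₂ hW hW1 hW2 ⟨x, h1⟩ (fun e => h2 (congrArg Subtype.val e)) k hp
        (h6_szineq_BD _ hs)
  · have hk1 : (⟨k, hkA⟩ : S.A) ≠ 1 := fun e => hk (congrArg Subtype.val e)
    have hp := S.prof_A ⟨k, hkA⟩ hk1
    rcases hx with ⟨h1, h2⟩ | ⟨h1, h2⟩ | ⟨h1, h2⟩ | ⟨h1, h2⟩
    · exact S.tri_U_ne W₁ W₂ hW hW1 hW2 ⟨x, h1⟩ h2 (hreal x h1 h2) k hp (h6_szineq_UA _ hs)
    · exact S.tri_D_ne W₁ W₂ hW hW1 hW2 ⟨x, h1⟩ (fun e => h2 (congrArg Subtype.val e)) k hp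
        (h6_szineq_DA _ hs)
    · exact S.tri_A_ne W₁ W₂ hW hW1 hW2 ⟨x, h1⟩ (fun e => h2 (congrArg Subtype.val e)) k hp
        (h6_szineq_AA _ hs)
    · exact S.tri_B_ne W₁ W₂ hW hW1 hW2 ⟨x, h1⟩ (fun e => h2 (congrArg Subtype.val e)) k hp
        (h6_szineq_BA _ hs)
  · have hk1 : (⟨k, hkB⟩ : S.B) ≠ 1 := fun e => hk (congrArg Subtype.val e)
    have hp := S.prof_B ⟨k, hkB⟩ hk1
    rcases hx with ⟨h1, h2⟩ | ⟨h1, h2⟩ | ⟨h1, h2⟩ | ⟨h1, h2⟩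
    · exact S.tri_U_ne W₁ W₂ hW hW1 hW2 ⟨x, h1⟩ h2 (hreal x h1 h2) k hp (h6_szineq_UB _ hs)
    · exact S.tri_D_ne W₁ W₂ hW hW1 hW2 ⟨x, h1⟩ (fun e => h2 (congrArg Subtype.val e)) k hp
        (h6_szineq_DB _ hs)
    · exact S.tri_A_ne W₁ W₂ hW hW1 hW2 ⟨x, h1⟩ (fun e => h2 (congrArg Subtype.val e)) k hp
        (h6_szineq_AB _ hs)
    · exact S.tri_B_ne W₁ W₂ hW hW1 hW2 ⟨x, h1⟩ (fun e => h2 (congrArg Subtype.val e)) k hp
        (h6_szineq_BB _ hs)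

/-- every nonidentity element is a product of two conjugates of any element of order greater
than two -/
theorem SzChData.class_square (S : SzChData G s)
    (hreal : ∀ u : G, u ∈ S.U → u ∉ S.Z → ¬ IsConj u⁻¹ u)
    (hZ2 : ∀ z ∈ S.Z, z * z = 1) (x : G) (hx : 2 < orderOf x) (g : G) (hg : g ≠ 1) :
    ∃ u v : G, g = (u * x * u⁻¹) * (v * x * v⁻¹) := by
  have : Finite (S.D →* ℂˣ) := Helper80.finite_hom
  have : Finite (S.A →* ℂˣ) := Helper80.finite_hom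
  have : Finite (S.B →* ℂˣ) := Helper80.finite_hom
  let _ : Fintype (S.D →* ℂˣ) := Fintype.ofFinite _
  let _ : Fintype (S.A →* ℂˣ) := Fintype.ofFinite _
  let _ : Fintype (S.B →* ℂˣ) := Fintype.ofFinite _
  obtain ⟨W₁, W₂, hW, hW1, hW2⟩ := S.exists_W
  have hx1 : x ≠ 1 := by
    rintro rfl
    rw [orderOf_one] at hx
    omega
  obtain ⟨a, ha⟩ := S.cover x hx1
  obtain ⟨b, hb⟩ := S.cover g⁻¹ (inv_ne_one.2 hg)
  have hx'1 : a * x * a⁻¹ ≠ 1 := by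
    intro e
    apply hx1
    have : x = a⁻¹ * (a * x * a⁻¹) * a := by group
    rw [this, e]
    group
  have hk'1 : b * g⁻¹ * b⁻¹ ≠ 1 := by
    intro e
    apply hg
    have : g⁻¹ = b⁻¹ * (b * g⁻¹ * b⁻¹) * b := by group
    rw [e] at this
    have h2 : g⁻¹ = 1 := by rw [this]; group
    exact inv_eq_one.1 h2
  have hxt : (a * x * a⁻¹ ∈ S.U ∧ a * x * a⁻¹ ∉ S.Z) ∨ (a * x * a⁻¹ ∈ S.D ∧ a * x * a⁻¹ ≠ 1) ∨
      (a * x * a⁻¹ ∈ S.A ∧ a * x * a⁻¹ ≠ 1) ∨ (a * x * a⁻¹ ∈ S.B ∧ a * x * a⁻¹ ≠ 1) := by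
    rcases ha with h | h | h | h
    · left
      refine ⟨h, fun hz => ?_⟩
      have h1 := hZ2 _ hz
      have h2 : x ^ 2 = 1 := by
        have : x * x = a⁻¹ * ((a * x * a⁻¹) * (a * x * a⁻¹)) * a := by group
        rw [sq, this, h1]
        group
      have h3 := Nat.le_of_dvd (by norm_num) (orderOf_dvd_of_pow_eq_one h2)
      omega
    · right; left; exact ⟨h, hx'1⟩
    · right; right; left; exact ⟨h, hx'1⟩
    · right; right; right; exact ⟨h, hx'1⟩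
  have hT := S.tri_ne W₁ W₂ hW hW1 hW2 hreal (a * x * a⁻¹) (b * g⁻¹ * b⁻¹) hxt hk'1 hb
  have hconv : Helper81.conv (Helper81.conv (Helper81.classInd (a * x * a⁻¹))
      (Helper81.classInd (a * x * a⁻¹))) (Helper81.classInd (b * g⁻¹ * b⁻¹)) 1 ≠ 0 := by
    intro h0
    have h1 := S.fam_tri W₁ W₂ hW hW1 hW2 (a * x * a⁻¹) (b * g⁻¹ * b⁻¹)
    rw [h0, mul_zero] at h1
    rcases mul_eq_zero.1 h1.symm with h2 | h2
    · exact (mul_ne_zero (pow_ne_zero 2 (h6_index_ne_zero (a * x * a⁻¹)))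
        (h6_index_ne_zero (b * g⁻¹ * b⁻¹))) h2
    · exact hT h2
  have hk'' : b * g⁻¹ * b⁻¹ = (b * g * b⁻¹)⁻¹ := by group
  rw [hk''] at hconv
  obtain ⟨u, v, huv⟩ := h6_conv3_one_ne (a * x * a⁻¹) (b * g * b⁻¹) hconv
  refine ⟨b⁻¹ * u * a, b⁻¹ * v * a, ?_⟩
  have h1 : g = b⁻¹ * (b * g * b⁻¹) * b := by group
  rw [h1, huv]
  group

end SzCs9

end Cfsg.Agent.Helper6
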