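import Mathlib
import Cfsg.Agent.Helper6.SzCh13
import Cfsg.Agent.Helper6.SzCs9

/-!
# Products of two conjugates in the Suzuki groups

Every nonidentity element of a Suzuki group is a product of two conjugates of any given element
of order greater than two.
-/

set_option autoImplicit false

namespace Cfsg.Agent.Helper6

open scoped ComplexConjugate
open Classical

universe v

section SzCs10

variable {F : Type v} [Field F] [Fintype F] {m : ℕ} [CharP F 2]

/-- the Suzuki-type partition of the Suzuki group, with its first two subgroups made explicit -/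
theorem sz_chData' (hm : 1 ≤ m) (hF : Fintype.card F = 2 ^ (2 * m + 1))
    [Fintype (Cfsg.Sz F m)] : ∃ S : SzChData (Cfsg.Sz F m) (2 ^ m),
      S.U = Helper60.Uo hF ∧ S.Z = szZs hF := by
  obtain ⟨g₁, g₂, hg₁, hg₂, hc₁, hc₂, hN₁, hN₂, hall⟩ := sz_tori_main hm hF
  have hti := szE_tiData hm hF
  have hs2 : 2 ≤ 2 ^ m := by
    calc 2 = 2 ^ 1 := by norm_num
      _ ≤ 2 ^ m := Nat.pow_le_pow_right (by norm_num) hm
  have hcA : ∀ z ∈ Subgroup.centralizer ({g₁} : Set (Cfsg.Sz F m)), z ≠ 1 →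
      Subgroup.centralizer ({z} : Set (Cfsg.Sz F m)) =
        Subgroup.centralizer ({g₁} : Set (Cfsg.Sz F m)) :=
    fun z hz hz1 => ti_cent_eq hti hg₁ hz hz1
  have hcB : ∀ z ∈ Subgroup.centralizer ({g₂} : Set (Cfsg.Sz F m)), z ≠ 1 →
      Subgroup.centralizer ({z} : Set (Cfsg.Sz F m)) =
        Subgroup.centralizer ({g₂} : Set (Cfsg.Sz F m)) :=
    fun z hz hz1 => ti_cent_eq hti hg₂ hz hz1
  refine ⟨{
    U := Helper60.Uo hF
    Z := szZs hF
    D := (szDG hF).range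
    A := Subgroup.centralizer ({g₁} : Set (Cfsg.Sz F m))
    B := Subgroup.centralizer ({g₂} : Set (Cfsg.Sz F m))
    hs := hs2
    cardG := ?_
    cardU := ?_
    cardZ := ?_
    cardD := ?_
    cardA := ?_
    cardB := ?_
    cardNU := ?_
    cardND := ?_
    cardNA := ?_
    cardNB := ?_
    tiU := sz_ti_Uo hm hF
    tiD := h6_ti_of_cent _ (sz_cent_DG hm hF)
    tiA := h6_ti_of_cent _ hcA
    tiB := h6_ti_of_cent _ hcB
    ZU := szZs_le hF
    Znorm := ?_
    centU := sz_cent_Uo hm hF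
    centD := fun z hz hz1 => le_of_eq (sz_cent_DG hm hF z hz hz1)
    centA := fun z hz hz1 => le_of_eq (hcA z hz hz1)
    centB := fun z hz hz1 => le_of_eq (hcB z hz hz1)
    commD := ?_
    commA := ?_
    commB := ?_
    cover := ?_
    genZ := uo_genZ hF
    genT := uo_genT hF }, rfl, rfl⟩
  · rw [sz_card hm hF, hF, sz_pow_eq]
    ring
  · rw [Helper60.card_Uo, hF, sz_pow_eq]
    ring
  · rw [szZs_card, hF, sz_pow_eq]
  · rw [szDG_range_card, sz_pow_eq]
  · rw [hc₁, sz_pow_eq]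
    ring
  · rw [hc₂, sz_pow_eq]
    congr 2
    ring
  · rw [Helper60.normalizer_Uo hF hm, card_Bo hm hF, hF, sz_pow_eq]
    ring
  · rw [sz_normalizer_D_card hm hF, sz_pow_eq]
  · rw [hN₁, hc₁, sz_pow_eq]
    ring
  · rw [hN₂, hc₂, sz_pow_eq]
    congr 3
    ring
  · intro x hx z hz
    rw [Helper60.normalizer_Uo hF hm] at hx
    obtain ⟨c, d, t, rfl⟩ := (Helper60.mem_Bo_iff hF hm).1 hx
    obtain ⟨y, rfl⟩ := hz
    rw [Helper60.Bo_conj_center']
    exact ⟨_, rfl⟩
  · rintro ⟨a, s, rfl⟩ ⟨b, t, rfl⟩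
    apply Subtype.ext
    show szDG hF s * szDG hF t = szDG hF t * szDG hF s
    rw [← map_mul, ← map_mul, mul_comm]
  · rintro ⟨a, ha⟩ ⟨b, hb⟩
    apply Subtype.ext
    exact hti.cent_comm g₁ hg₁ a b (Subgroup.mem_centralizer_singleton_iff.1 ha)
      (Subgroup.mem_centralizer_singleton_iff.1 hb)
  · rintro ⟨a, ha⟩ ⟨b, hb⟩
    apply Subtype.ext
    exact hti.cent_comm g₂ hg₂ a b (Subgroup.mem_centralizer_singleton_iff.1 ha)
      (Subgroup.mem_centralizer_singleton_iff.1 hb)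
  · intro g hg
    rcases sz_trichotomy hm hF hg with hE | ⟨y, a, b, hab, e⟩ | ⟨y, t, ht, e⟩
    · rcases hall g hE with h | h
      · obtain ⟨x, c, hc, hc1, rfl⟩ := (ti_mem_cl_iff hti hg₁).1 h
        refine ⟨x⁻¹, Or.inr (Or.inr (Or.inl ?_))⟩
        have e : x⁻¹ * (x * c * x⁻¹) * x⁻¹⁻¹ = c := by group
        rw [e]
        exact hc
      · obtain ⟨x, c, hc, hc1, rfl⟩ := (ti_mem_cl_iff hti hg₂).1 h
        refine ⟨x⁻¹, Or.inr (Or.inr (Or.inr ?_))⟩
        have e : x⁻¹ * (x * c * x⁻¹) * x⁻¹⁻¹ = c := by group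
        rw [e]
        exact hc
    · exact ⟨y, Or.inl (by rw [e]; exact Helper60.tG_mem_Uo hF a b)⟩
    · exact ⟨y, Or.inr (Or.inl (by rw [e]; exact ⟨t, rfl⟩))⟩

/-- every nonidentity element of the Suzuki group is a product of two conjugates of any element
of order greater than two -/
theorem sz_class_square (hm : 1 ≤ m) (hF : Fintype.card F = 2 ^ (2 * m + 1))
    (x : Cfsg.Sz F m) (hx : 2 < orderOf x) (g : Cfsg.Sz F m) (hg : g ≠ 1) :
    ∃ u v : Cfsg.Sz F m, g = (u * x * u⁻¹) * (v * x * v⁻¹) := by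
  let _ : Fintype (Cfsg.Sz F m) := Fintype.ofFinite _
  obtain ⟨S, hU, hZ⟩ := sz_chData' hm hF
  refine S.class_square ?_ ?_ x hx g hg
  · intro u huU huZ hconj
    rw [hU] at huU
    rw [hZ] at huZ
    obtain ⟨a, b, rfl⟩ := huU
    rw [mem_szZs_iff] at huZ
    obtain ⟨h, hh⟩ := isConj_iff.1 hconj
    have hc : h * Helper60.tG hF a b * h⁻¹ = (Helper60.tG hF a b)⁻¹ := by
      have h1 : h * Helper60.tG hF a b * h⁻¹ = (h * (Helper60.tG hF a b)⁻¹ * h⁻¹)⁻¹ := by group
      rw [h1, hh]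
    exact huZ (Helper60.ov_real hF hm hc (fun hab => huZ hab.1))
  · intro z hz
    rw [hZ] at hz
    obtain ⟨b, rfl⟩ := hz
    rw [Helper60.tG_sq, mul_zero, Helper60.tG_zero]

end SzCs10

end Cfsg.Agent.Helper6
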