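import Mathlib
import Cfsg.Prelude.Def_LieExceptional
import Cfsg.Agent.Helper6.SzSol4

set_option autoImplicit false

universe v

namespace Cfsg.Agent.Helper6

open Matrix
open scoped Pointwise

section SzSol5
variable {F : Type v} [Field F] [Fintype F] {m : ℕ} [CharP F 2]

/-- the stabiliser of two points of the ovoid is a conjugate of the diagonal torus -/
theorem sz_two_stab (hm : 1 ≤ m) (hF : Fintype.card F = 2 ^ (2 * m + 1))
    {p p' : Projectivization F (Fin 4 → F)} (hp : p ∈ Cfsg.suzukiOvoid F m)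
    (hp' : p' ∈ Cfsg.suzukiOvoid F m) (hne : p ≠ p') :
    ∃ g : Cfsg.Sz F m, ∀ c : Cfsg.Sz F m,
      ((c : SpecialLinearGroup (Fin 4) F) • p = p ∧
        (c : SpecialLinearGroup (Fin 4) F) • p' = p') ↔
        ∃ s : Fˣ, c = g⁻¹ * Helper60.dG hF s * g := by
  obtain ⟨g, hg, hgp, hgp'⟩ := sz_two_trans hF hp hp' hne
  refine ⟨⟨g, hg⟩, fun c => ?_⟩
  constructor
  · rintro ⟨h1, h2⟩
    have hinf : (g * (c : SpecialLinearGroup (Fin 4) F) * g⁻¹) • Cfsg.suzukiPointInfinity F =
        Cfsg.suzukiPointInfinity F := by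
      rw [mul_smul, mul_smul, ← hgp, inv_smul_smul, h1]
    have h0 : (g * (c : SpecialLinearGroup (Fin 4) F) * g⁻¹) • szP m (0 : F) 0 = szP m 0 0 := by
      rw [mul_smul, mul_smul, ← hgp', inv_smul_smul, h2]
    obtain ⟨s, hs⟩ := sz_fix_two hm hF (mul_mem (mul_mem hg c.2) (inv_mem hg)) hinf h0
    refine ⟨s, ?_⟩
    apply Subtype.ext
    show (c : SpecialLinearGroup (Fin 4) F) = g⁻¹ * szD m s * g
    rw [← hs]
    group
  · rintro ⟨s, rfl⟩
    constructor
    · show (g⁻¹ * szD m s * g) • p = p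
      rw [mul_smul, mul_smul, hgp, szD_smul_inf, ← hgp, inv_smul_smul]
    · show (g⁻¹ * szD m s * g) • p' = p'
      rw [mul_smul, mul_smul, hgp', szD_smul_zero hF, ← hgp', inv_smul_smul]

theorem szT_center_smul (hF : Fintype.card F = 2 ^ (2 * m + 1)) (b x y : F) :
    szT m 0 b • szP m x y = szP m x (y + b) := by
  rw [szT_smul_szP hF]
  simp

theorem szT_center_smul' (hF : Fintype.card F = 2 ^ (2 * m + 1)) (b x y : F) :
    szT m 0 b • szP m x (y + b) = szP m x y := by
  rw [szT_smul_szP hF]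
  have h2 : (2 : F) = 0 := sz_two
  congr 1
  · simp
  · simp
    linear_combination b * h2

/-- a non-identity element fixing `p` and `z • p` is a torus element inverted by `z` -/
theorem szD_two_fix (hm : 1 ≤ m) (hF : Fintype.card F = 2 ^ (2 * m + 1)) {b : F} (hb : b ≠ 0)
    {x y : F} {c : Cfsg.Sz F m} (hc1 : c ≠ 1)
    (h1 : (c : SpecialLinearGroup (Fin 4) F) • szP m x y = szP m x y)
    (h2 : (c : SpecialLinearGroup (Fin 4) F) • szP m x (y + b) = szP m x (y + b)) :
    c ∈ szI (szDE hF) (Helper60.tG hF 0 b) := by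
  have hne : szP m x y ≠ szP m x (y + b) := by
    intro h
    have := (szP_inj h).2
    apply hb
    linear_combination -this
  obtain ⟨g, hg⟩ := sz_two_stab hm hF (szP_mem_ovoid x y) (szP_mem_ovoid x (y + b)) hne
  obtain ⟨s, hcs⟩ := (hg c).1 ⟨h1, h2⟩
  have hs : s ≠ 1 := by
    rintro rfl
    apply hc1
    rw [hcs, Helper60.dG_one]
    group
  have hDE : c ∈ szDE hF := ⟨g, s, hs, by rw [hcs]; group⟩
  refine ⟨hDE, ?_⟩
  have hzi : (Helper60.tG hF 0 b)⁻¹ = (Helper60.tG hF 0 b : Cfsg.Sz F m) := tG_center_inv hF b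
  obtain ⟨s', hs'⟩ := (hg (Helper60.tG hF 0 b * c * (Helper60.tG hF 0 b)⁻¹)).1 (by
    rw [hzi]
    constructor
    · show (szT m 0 b * (c : SpecialLinearGroup (Fin 4) F) * szT m 0 b) • szP m x y = szP m x y
      rw [mul_smul, mul_smul, szT_center_smul hF, h2, szT_center_smul' hF]
    · show (szT m 0 b * (c : SpecialLinearGroup (Fin 4) F) * szT m 0 b) • szP m x (y + b) =
        szP m x (y + b)
      rw [mul_smul, mul_smul, szT_center_smul' hF, h1, szT_center_smul hF])
  apply ti_mem_normalizer (szDE_tiData hm hF) hDE (szTor_self_mem _) hc1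
  rw [hs', Subgroup.mem_centralizer_singleton_iff, hcs]
  have hcomm : Helper60.dG hF s' * Helper60.dG hF s =
      (Helper60.dG hF s * Helper60.dG hF s' : Cfsg.Sz F m) := by
    rw [← Helper60.dG_mul, ← Helper60.dG_mul, mul_comm]
  calc g⁻¹ * Helper60.dG hF s' * g * (g⁻¹ * Helper60.dG hF s * g)
      = g⁻¹ * (Helper60.dG hF s' * Helper60.dG hF s) * g := by group
    _ = g⁻¹ * (Helper60.dG hF s * Helper60.dG hF s') * g := by rw [hcomm]
    _ = g⁻¹ * Helper60.dG hF s * g * (g⁻¹ * Helper60.dG hF s' * g) := by group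

theorem sz_card_units_ne_one (F : Type*) [Field F] [Fintype F] :
    Nat.card {s : Fˣ // s ≠ 1} = Fintype.card F - 2 := by
  have h1 : {s : Fˣ | s ≠ 1} = ({1} : Set Fˣ)ᶜ := by
    ext s
    simp
  rw [← Set.coe_ofPred, Nat.card_coe_set_eq, h1, Set.ncard_compl, Set.ncard_singleton,
    Nat.card_units, Nat.card_eq_fintype_card]
  omega

/-- the number of diagonal-type torus elements inverted by a central involution of `Uo` -/
theorem szI_D_card (hm : 1 ≤ m) (hF : Fintype.card F = 2 ^ (2 * m + 1)) {b : F} (hb : b ≠ 0) :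
    2 * (szI (szDE hF) (Helper60.tG hF 0 b)).ncard =
      Fintype.card F ^ 2 * (Fintype.card F - 2) := by
  have hz2 : Helper60.tG hF 0 b * Helper60.tG hF 0 b = (1 : Cfsg.Sz F m) := tG_center_sq hF b
  have hzi : (Helper60.tG hF 0 b)⁻¹ = (Helper60.tG hF 0 b : Cfsg.Sz F m) := tG_center_inv hF b
  have hz1 : (Helper60.tG hF 0 b : Cfsg.Sz F m) ≠ 1 := tG_center_ne_one hF hb
  have hfix2 : ∀ c ∈ szI (szDE hF) (Helper60.tG hF 0 b), ∀ x y : F,
      (c : SpecialLinearGroup (Fin 4) F) • szP m x y = szP m x y →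
      (c : SpecialLinearGroup (Fin 4) F) • szP m x (y + b) = szP m x (y + b) := by
    intro c hc x y h
    have hinv := szTor_invol_inverts hm hF (Or.inr hc.1) hc.2 hz2 hz1 (szTor_self_mem c)
    rw [hzi] at hinv
    have hc' : c = Helper60.tG hF 0 b * c⁻¹ * Helper60.tG hF 0 b := by
      rw [← hinv]
      calc c = (Helper60.tG hF 0 b * Helper60.tG hF 0 b) * c *
            (Helper60.tG hF 0 b * Helper60.tG hF 0 b) := by rw [hz2, one_mul, mul_one]
        _ = _ := by group
    have e : (c : SpecialLinearGroup (Fin 4) F) =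
        szT m 0 b * (c : SpecialLinearGroup (Fin 4) F)⁻¹ * szT m 0 b :=
      congrArg Subtype.val hc'
    rw [e, mul_smul, mul_smul, szT_center_smul' hF, inv_smul_eq_iff.2 h.symm, szT_center_smul hF]
  have key := h6_double_count (A := F × F) (B := szI (szDE hF) (Helper60.tG hF 0 b))
    (fun xy c => (c.1 : SpecialLinearGroup (Fin 4) F) • szP m xy.1 xy.2 = szP m xy.1 xy.2)
    (Fintype.card F - 2) 2 ?_ ?_
  · rw [Nat.card_prod, Nat.card_eq_fintype_card, Nat.card_coe_set_eq] at key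
    rw [← key]
    ring
  · rintro ⟨x, y⟩
    have hne : szP m x y ≠ szP m x (y + b) := by
      intro h
      have := (szP_inj h).2
      apply hb
      linear_combination -this
    obtain ⟨g, hg⟩ := sz_two_stab hm hF (szP_mem_ovoid x y) (szP_mem_ovoid x (y + b)) hne
    have hne1 : ∀ s : {s : Fˣ // s ≠ 1}, g⁻¹ * Helper60.dG hF s.1 * g ≠ 1 := by
      intro s h
      apply s.2
      apply (dG_eq_one_iff hF).1
      calc Helper60.dG hF s.1 = g * (g⁻¹ * Helper60.dG hF s.1 * g) * g⁻¹ := by group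
        _ = 1 := by rw [h]; group
    rw [← sz_card_units_ne_one F]
    symm
    apply Nat.card_congr
    refine Equiv.ofBijective (fun s => ⟨⟨g⁻¹ * Helper60.dG hF s.1 * g,
      szD_two_fix hm hF hb (hne1 s) ((hg _).2 ⟨s.1, rfl⟩).1 ((hg _).2 ⟨s.1, rfl⟩).2⟩,
      ((hg _).2 ⟨s.1, rfl⟩).1⟩) ⟨?_, ?_⟩
    · intro s s' h
      have h' : g⁻¹ * Helper60.dG hF s.1 * g = g⁻¹ * Helper60.dG hF s'.1 * g :=
        congrArg (fun c => c.1.1) h
      exact Subtype.ext (Helper60.dG_inj hF (mul_left_cancel (mul_right_cancel h')))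
    · rintro ⟨⟨c, hc⟩, hcfix⟩
      obtain ⟨s, hs⟩ := (hg c).1 ⟨hcfix, hfix2 c hc x y hcfix⟩
      have hs1 : s ≠ 1 := by
        rintro rfl
        apply szTor_ne_one hm hF (Or.inr hc.1)
        rw [hs, Helper60.dG_one]
        group
      exact ⟨⟨s, hs1⟩, Subtype.ext (Subtype.ext hs.symm)⟩
  · rintro ⟨c, hc⟩
    obtain ⟨g, s, hs, e⟩ := hc.1
    have hfix : (c : SpecialLinearGroup (Fin 4) F) •
        ((g : SpecialLinearGroup (Fin 4) F)⁻¹ • Cfsg.suzukiPointInfinity F) =
        (g : SpecialLinearGroup (Fin 4) F)⁻¹ • Cfsg.suzukiPointInfinity F := by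
      have h3 : c = g⁻¹ * Helper60.dG hF s * g := by rw [← e]; group
      rw [h3]
      show ((g : SpecialLinearGroup (Fin 4) F)⁻¹ * szD m s *
        (g : SpecialLinearGroup (Fin 4) F)) • ((g : SpecialLinearGroup (Fin 4) F)⁻¹ •
          Cfsg.suzukiPointInfinity F) = _
      rw [mul_smul, mul_smul, smul_inv_smul, szD_smul_inf]
    have hmem : (g : SpecialLinearGroup (Fin 4) F)⁻¹ • Cfsg.suzukiPointInfinity F ∈
        Cfsg.suzukiOvoid F m := sz_mem_smul_mem (inv_mem g.2) inf_mem_ovoid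
    rcases (mem_ovoid_iff _).1 hmem with h | ⟨x₁, y₁, h⟩
    · exfalso
      rw [h] at hfix
      exact szTor_ne_one hm hF (Or.inr hc.1) (szTor_inter_Bo hm hF (Or.inr hc.1) hb hc.2
        (szTor_self_mem c) (Helper60.mem_Bo.2 hfix))
    · rw [h] at hfix
      have hfix' := hfix2 c hc x₁ y₁ hfix
      have hset : {xy : F × F | (c : SpecialLinearGroup (Fin 4) F) • szP m xy.1 xy.2 =
          szP m xy.1 xy.2} = {(x₁, y₁), (x₁, y₁ + b)} := by
        ext ⟨x, y⟩
        simp only [Set.mem_ofPred_eq, Set.mem_insert_iff, Set.mem_singleton_iff, Prod.mk.injEq]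
        constructor
        · intro hxy
          by_contra hcon
          push Not at hcon
          apply szTor_ne_one hm hF (Or.inr hc.1)
          apply Subtype.ext
          apply sz_fix_three hm hF c.2 (szP_mem_ovoid x y) (szP_mem_ovoid x₁ y₁)
            (szP_mem_ovoid x₁ (y₁ + b)) _ _ _ hxy hfix hfix'
          · intro h'
            obtain ⟨h1, h2⟩ := szP_inj h'
            exact hcon.1 h1 h2
          · intro h'
            have := (szP_inj h').2
            apply hb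
            linear_combination -this
          · intro h'
            obtain ⟨h1, h2⟩ := szP_inj h'
            exact hcon.2 h1 h2
        · rintro (⟨rfl, rfl⟩ | ⟨rfl, rfl⟩)
          · exact hfix
          · exact hfix'
      rw [← Set.coe_ofPred, Nat.card_coe_set_eq, hset, Set.ncard_pair]
      intro h'
      have := (Prod.mk.injEq _ _ _ _ ▸ h').2
      apply hb
      linear_combination -this

theorem szE_relIndex (hm : 1 ≤ m) (hF : Fintype.card F = 2 ^ (2 * m + 1)) {u : Cfsg.Sz F m}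
    (hu : u ∈ szE F m) :
    (Subgroup.centralizer ({u} : Set (Cfsg.Sz F m))).relIndex (szNC u) = 4 := by
  have h1 := h6_card_eq_card_mul_relIndex
    (Subgroup.le_normalizer : Subgroup.centralizer ({u} : Set (Cfsg.Sz F m)) ≤ szNC u)
  have h2 : Nat.card (szNC u) = 4 * Nat.card (Subgroup.centralizer ({u} : Set (Cfsg.Sz F m))) :=
    szEnorm_card hm hF hu
  have hpos : 0 < Nat.card (Subgroup.centralizer ({u} : Set (Cfsg.Sz F m))) := Nat.card_pos
  have h3 : Nat.card (Subgroup.centralizer ({u} : Set (Cfsg.Sz F m))) *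
      (Subgroup.centralizer ({u} : Set (Cfsg.Sz F m))).relIndex (szNC u) =
      Nat.card (Subgroup.centralizer ({u} : Set (Cfsg.Sz F m))) * 4 := by
    rw [← h1, h2, mul_comm]
  exact Nat.eq_of_mul_eq_mul_left hpos h3

theorem szDE_relIndex (hm : 1 ≤ m) (hF : Fintype.card F = 2 ^ (2 * m + 1)) {u : Cfsg.Sz F m}
    (hu : u ∈ szDE hF) :
    (Subgroup.centralizer ({u} : Set (Cfsg.Sz F m))).relIndex (szNC u) = 2 := by
  have h1 := h6_card_eq_card_mul_relIndex
    (Subgroup.le_normalizer : Subgroup.centralizer ({u} : Set (Cfsg.Sz F m)) ≤ szNC u)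
  have h2 : Nat.card (szNC u) = 2 * (2 ^ (2 * m + 1) - 1) := szDnorm_card hm hF hu
  have h4 := (szDtor hm hF hu).2
  have hpos : 0 < Nat.card (Subgroup.centralizer ({u} : Set (Cfsg.Sz F m))) := Nat.card_pos
  have h3 : Nat.card (Subgroup.centralizer ({u} : Set (Cfsg.Sz F m))) *
      (Subgroup.centralizer ({u} : Set (Cfsg.Sz F m))).relIndex (szNC u) =
      Nat.card (Subgroup.centralizer ({u} : Set (Cfsg.Sz F m))) * 2 := by
    rw [← h1, h2, h4, mul_comm]
  exact Nat.eq_of_mul_eq_mul_left hpos h3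

theorem szp_arith {q : ℕ} (hq : 8 ≤ q) :
    5 * (q ^ 2 * (q - 1)) = q ^ 2 * (4 * q - 3) + q ^ 2 * (q - 2) ∧
      2 * (q ^ 2 * (q - 1)) = q ^ 2 * (q - 2) + q ^ 3 := by
  obtain ⟨k, rfl⟩ : ∃ k, q = k + 8 := ⟨q - 8, by omega⟩
  have e1 : k + 8 - 1 = k + 7 := by omega
  have e2 : k + 8 - 2 = k + 6 := by omega
  have e3 : 4 * (k + 8) - 3 = 4 * k + 29 := by omega
  rw [e1, e2, e3]
  constructor <;> ring

/-- the numbers of torus elements of the two kinds inverted by a central involution of `Uo` -/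
theorem szI_cards (hm : 1 ≤ m) (hF : Fintype.card F = 2 ^ (2 * m + 1)) {b : F} (hb : b ≠ 0) :
    (szI (szE F m) (Helper60.tG hF 0 b)).ncard + (szI (szDE hF) (Helper60.tG hF 0 b)).ncard =
      Fintype.card F ^ 2 * (Fintype.card F - 1) ∧
    2 * (szI (szDE hF) (Helper60.tG hF 0 b)).ncard = Fintype.card F ^ 2 * (Fintype.card F - 2) ∧
    2 * (szI (szE F m) (Helper60.tG hF 0 b)).ncard = Fintype.card F ^ 3 := by
  have hdisj : Disjoint (szI (szE F m) (Helper60.tG hF 0 b))
      (szI (szDE hF) (Helper60.tG hF 0 b)) := by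
    rw [Set.disjoint_left]
    intro c h1 h2
    exact szE_szDE_disjoint hF h1.1 h2.1
  have hsum : (szI (szE F m) (Helper60.tG hF 0 b)).ncard +
      (szI (szDE hF) (Helper60.tG hF 0 b)).ncard =
      Fintype.card F ^ 2 * (Fintype.card F - 1) := by
    rw [← Set.ncard_union_eq hdisj, szI_union_eq hm hF hb,
      Set.ncard_image_of_injective _ (mul_right_injective _), sz_invol_out_card hm hF]
  have hD := szI_D_card hm hF hb
  refine ⟨hsum, hD, ?_⟩
  have h2 := (szp_arith (sz_q_ge hm hF)).2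
  omega

/-- solubilizer of an involution -/
theorem szSol_T2 (hm : 1 ≤ m) (hp : (2 * m + 1).Prime)
    (hF : Fintype.card F = 2 ^ (2 * m + 1)) (hsub : SzSubHyp F m) {b : F} (hb : b ≠ 0) :
    Nat.card {y : Cfsg.Sz F m //
        Group.IsSolvable (Subgroup.closure ({Helper60.tG hF 0 b, y} : Set (Cfsg.Sz F m)))} =
      Fintype.card F ^ 2 * (4 * Fintype.card F - 3) := by
  have hset : {y : Cfsg.Sz F m |
      Group.IsSolvable (Subgroup.closure ({Helper60.tG hF 0 b, y} : Set (Cfsg.Sz F m)))} =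
      (Helper60.Bo F m : Set (Cfsg.Sz F m)) ∪
        (szA (szE F m) (Helper60.tG hF 0 b) ∪ szA (szDE hF) (Helper60.tG hF 0 b)) := by
    ext y
    simp only [Set.mem_ofPred_eq, Set.mem_union, SetLike.mem_coe]
    rw [szSol_mem_iff hm hp hF hsub]
    constructor
    · rintro (⟨p, hp', hzp, hyp⟩ | ⟨u, hu, hzu, hyu⟩)
      · have := Helper60.ov_fix_T hF (a := 0) (b := b) (fun h => hb h.2) hp' hzp
        subst this
        exact Or.inl (Helper60.mem_Bo.2 hyp)
      · by_cases hyB : y ∈ Helper60.Bo F m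
        · exact Or.inl hyB
        · rcases hu with hu | hu
          · exact Or.inr (Or.inl ⟨hyB, u, hu, hzu, hyu⟩)
          · exact Or.inr (Or.inr ⟨hyB, u, hu, hzu, hyu⟩)
    · rintro (hy | ⟨_, u, hu, hzu, hyu⟩ | ⟨_, u, hu, hzu, hyu⟩)
      · exact Or.inl ⟨_, inf_mem_ovoid, szT_smul_inf 0 b, Helper60.mem_Bo.1 hy⟩
      · exact Or.inr ⟨u, Or.inl hu, hzu, hyu⟩
      · exact Or.inr ⟨u, Or.inr hu, hzu, hyu⟩
  have hd1 : Disjoint (Helper60.Bo F m : Set (Cfsg.Sz F m))
      (szA (szE F m) (Helper60.tG hF 0 b) ∪ szA (szDE hF) (Helper60.tG hF 0 b)) := by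
    rw [Set.disjoint_left]
    rintro y hy (h | h)
    · exact h.1 hy
    · exact h.1 hy
  have hd2 : Disjoint (szA (szE F m) (Helper60.tG hF 0 b))
      (szA (szDE hF) (Helper60.tG hF 0 b)) := by
    rw [Set.disjoint_left]
    rintro y ⟨hyB, u, hu, hzu, hyu⟩ ⟨_, u', hu', hzu', hyu'⟩
    obtain ⟨c, hc, s, hsU, hsN, rfl⟩ := (szTor_decomp hm hF (Or.inl hu) hb hzu).2 y hyu
    obtain ⟨c', hc', s', hsU', hsN', e⟩ := (szTor_decomp hm hF (Or.inr hu') hb hzu').2 _ hyu'
    have hc1 : c ≠ 1 := by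
      rintro rfl
      apply hyB
      rw [one_mul]
      exact Helper60.Uo_le_Bo hF hsU
    have hc1' : c' ≠ 1 := by
      rintro rfl
      apply hyB
      rw [e, one_mul]
      exact Helper60.Uo_le_Bo hF hsU'
    obtain ⟨h1, h2, _⟩ := szTor_cent_eq hm hF (Or.inl hu) hc hc1
    obtain ⟨h1', _, h2'⟩ := szTor_cent_eq hm hF (Or.inr hu') hc' hc1'
    have hzc : Helper60.tG hF 0 b ∈ szNC c := by
      unfold szNC
      rw [h1]
      exact hzu
    have hzc' : Helper60.tG hF 0 b ∈ szNC c' := by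
      unfold szNC
      rw [h1']
      exact hzu'
    obtain ⟨rfl, _⟩ := szZtor_inj hm hF hb (Or.inl (h2 hu)) (Or.inr (h2' hu')) hzc hzc' hsU hsU' e
    exact szE_szDE_disjoint hF (h2 hu) (h2' hu')
  have hcE := szA_card hm hF (Or.inl rfl) 4 (fun u hu => szE_relIndex hm hF hu) hb
    (Helper60.tG hF 0 b) (fun u h => h)
  have hcD := szA_card hm hF (Or.inr rfl) 2 (fun u hu => szDE_relIndex hm hF hu) hb
    (Helper60.tG hF 0 b) (fun u h => h)
  obtain ⟨hsum, hD, _⟩ := szI_cards hm hF hb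
  have hB : (Helper60.Bo F m : Set (Cfsg.Sz F m)).ncard =
      Fintype.card F ^ 2 * (Fintype.card F - 1) := by
    rw [← Nat.card_coe_set_eq]
    exact card_Bo hm hF
  rw [← Set.coe_ofPred, Nat.card_coe_set_eq, hset, Set.ncard_union_eq hd1,
    Set.ncard_union_eq hd2, hcE, hcD, hB]
  have h1 := (szp_arith (sz_q_ge hm hF)).1
  omega

end SzSol5

end Cfsg.Agent.Helper6
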