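import Mathlib
import Cfsg.Prelude.Def_LieExceptional
import Cfsg.Agent.Helper6.SzSol5

set_option autoImplicit false

universe v

namespace Cfsg.Agent.Helper6

open Matrix
open scoped Pointwise

section GenericSol6

theorem h6_mem_normalizer_centralizer_conj {G : Type*} [Group G] (g x c : G) :
    g * x * g⁻¹ ∈ Subgroup.normalizer
        ((Subgroup.centralizer ({g * c * g⁻¹} : Set G) : Subgroup G) : Set G) ↔
      x ∈ Subgroup.normalizer ((Subgroup.centralizer ({c} : Set G) : Subgroup G) : Set G) := by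
  have hC : ∀ h : G, h ∈ Subgroup.centralizer ({g * c * g⁻¹} : Set G) ↔
      g⁻¹ * h * g ∈ Subgroup.centralizer ({c} : Set G) := by
    intro h
    rw [Subgroup.mem_centralizer_singleton_iff, Subgroup.mem_centralizer_singleton_iff]
    constructor
    · intro e
      calc g⁻¹ * h * g * c = g⁻¹ * (h * (g * c * g⁻¹)) * g := by group
        _ = g⁻¹ * ((g * c * g⁻¹) * h) * g := by rw [e]
        _ = c * (g⁻¹ * h * g) := by group
    · intro e
      calc h * (g * c * g⁻¹) = g * ((g⁻¹ * h * g) * c) * g⁻¹ := by group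
        _ = g * (c * (g⁻¹ * h * g)) * g⁻¹ := by rw [e]
        _ = g * c * g⁻¹ * h := by group
  rw [Subgroup.mem_normalizer_iff, Subgroup.mem_normalizer_iff]
  constructor
  · intro H h
    have := H (g * h * g⁻¹)
    rw [hC, hC] at this
    have e1 : g⁻¹ * (g * h * g⁻¹) * g = h := by group
    have e2 : g⁻¹ * (g * x * g⁻¹ * (g * h * g⁻¹) * (g * x * g⁻¹)⁻¹) * g = x * h * x⁻¹ := by group
    rwa [e1, e2] at this
  · intro H h
    rw [hC, hC]
    have := H (g⁻¹ * h * g)
    have e2 : g⁻¹ * (g * x * g⁻¹ * h * (g * x * g⁻¹)⁻¹) * g = x * (g⁻¹ * h * g) * x⁻¹ := by group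
    rwa [e2]

end GenericSol6

section SzSol6
variable {F : Type v} [Field F] [Fintype F] {m : ℕ} [CharP F 2]

theorem szI_conj_card (hm : 1 ≤ m) (hF : Fintype.card F = 2 ^ (2 * m + 1)) (g x : Cfsg.Sz F m) :
    (szI (szE F m) (g * x * g⁻¹)).ncard = (szI (szE F m) x).ncard := by
  have h : szI (szE F m) (g * x * g⁻¹) = (fun c => g * c * g⁻¹) '' szI (szE F m) x := by
    ext c
    simp only [szI, Set.mem_ofPred_eq, Set.mem_image]
    constructor
    · rintro ⟨hcE, hN⟩
      refine ⟨g⁻¹ * c * g, ⟨?_, ?_⟩, by group⟩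
      · have := (szE_tiData hm hF).conj_mem c hcE g⁻¹
        rwa [inv_inv] at this
      · have e : g * (g⁻¹ * c * g) * g⁻¹ = c := by group
        exact (h6_mem_normalizer_centralizer_conj g x (g⁻¹ * c * g)).1 (by rw [e]; exact hN)
    · rintro ⟨c₀, ⟨hE, hN⟩, rfl⟩
      exact ⟨(szE_tiData hm hF).conj_mem c₀ hE g,
        (h6_mem_normalizer_centralizer_conj g x c₀).2 hN⟩
  rw [h, Set.ncard_image_of_injective]
  intro a b hab
  exact mul_left_cancel (mul_right_cancel hab)

omit [Fintype F] [CharP F 2] in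
theorem szI_inv (T : Set (Cfsg.Sz F m)) (x : Cfsg.Sz F m) : szI T x⁻¹ = szI T x := by
  ext c
  simp only [szI, Set.mem_ofPred_eq, inv_mem_iff]

/-- the square roots in `Uo` of a central involution are conjugate under `Uo` up to inversion -/
theorem sz_roots_conj (hF : Fintype.card F = 2 ^ (2 * m + 1)) {a : F} (ha : a ≠ 0)
    (b₀ b' : F) :
    ∃ c : F, Helper60.tG hF c 0 * Helper60.tG hF a b₀ * (Helper60.tG hF c 0)⁻¹ =
        (Helper60.tG hF a b' : Cfsg.Sz F m) ∨
      Helper60.tG hF c 0 * (Helper60.tG hF a b₀)⁻¹ * (Helper60.tG hF c 0)⁻¹ =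
        (Helper60.tG hF a b' : Cfsg.Sz F m) := by
  have h2 : (2 : F) = 0 := sz_two
  have hσa : szS F m a ≠ 0 := (map_ne_zero (szS F m)).2 ha
  have hconj : ∀ c b : F, Helper60.tG hF c 0 * Helper60.tG hF a b * (Helper60.tG hF c 0)⁻¹ =
      (Helper60.tG hF a (b + szS F m c * a + szS F m a * c) : Cfsg.Sz F m) := by
    intro c b
    rw [Helper60.tG_inv, Helper60.tG_mul, Helper60.tG_mul]
    congr 1
    · linear_combination c * h2
    · simp only [map_add]
      linear_combination (szS F m c * c) * h2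
  let lam : F →+ F := AddMonoidHom.mk' (fun c => szS F m c * a + szS F m a * c) (by
    intro x y
    simp only [map_add]
    ring)
  have hlam : ∀ c, lam c = szS F m c * a + szS F m a * c := fun c => rfl
  have hroot : ∀ c r : F, szS F m c * a + szS F m a * c = r → (r = 0 ∨ r = szS F m a * a) →
      c = 0 ∨ c = a := by
    intro c r hc hr
    have hσ := congrArg (szS F m) hc
    simp only [map_add, map_mul, szS_szS hF] at hσ
    have h3 : szS F m a * (c * (c + a)) = 0 := by
      rcases hr with rfl | rfl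
      · rw [map_zero] at hσ
        linear_combination hσ - a * hc + (szS F m a * c * a) * h2
      · simp only [map_mul, szS_szS hF] at hσ
        linear_combination hσ - a * hc + (szS F m a * c * a) * h2
    rcases mul_eq_zero.1 h3 with h | h
    · exact absurd h hσa
    · rcases mul_eq_zero.1 h with h | h
      · exact Or.inl h
      · right
        linear_combination h - a * h2
  have hker : ∀ c, lam c = 0 ↔ c = 0 ∨ c = a := by
    intro c
    constructor
    · intro h
      exact hroot c 0 h (Or.inl rfl)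
    · rintro (rfl | rfl)
      · exact map_zero lam
      · rw [hlam]
        linear_combination (szS F m c * c) * h2
  have hcard_ker : Nat.card lam.ker = 2 := by
    have hset : (lam.ker : Set F) = {0, a} := by
      ext c
      simp only [SetLike.mem_coe, AddMonoidHom.mem_ker, hker, Set.mem_insert_iff,
        Set.mem_singleton_iff]
    rw [← SetLike.coe_sort_coe, Nat.card_coe_set_eq, hset, Set.ncard_pair ha.symm]
  have hidx : lam.range.index = 2 := by
    have h1 := AddSubgroup.card_mul_index lam.ker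
    have h3 := AddSubgroup.card_mul_index lam.range
    rw [hcard_ker, AddSubgroup.index_ker] at h1
    have hpos : 0 < Nat.card lam.range := Nat.card_pos
    exact Nat.eq_of_mul_eq_mul_left hpos (by rw [h3, ← h1, mul_comm])
  have hnot : szS F m a * a ∉ lam.range := by
    rintro ⟨c, hc⟩
    rw [hlam] at hc
    have h0 : lam c = 0 := (hker c).2 (hroot c _ hc (Or.inr rfl))
    rw [hlam, hc] at h0
    rcases mul_eq_zero.1 h0 with h | h
    · exact hσa h
    · exact ha h
  obtain ⟨a₀, ha₀⟩ := AddSubgroup.index_eq_two_iff.1 hidx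
  have key : ∀ y : F, ∃ c, lam c = y ∨ lam c = y + szS F m a * a := by
    intro y
    by_cases hy : y ∈ lam.range
    · obtain ⟨c, hc⟩ := hy
      exact ⟨c, Or.inl hc⟩
    · have h1 : y + a₀ ∈ lam.range := by
        rcases ha₀ y with ⟨h, _⟩ | ⟨h, _⟩
        · exact h
        · exact absurd h hy
      have h1' : szS F m a * a + a₀ ∈ lam.range := by
        rcases ha₀ (szS F m a * a) with ⟨h, _⟩ | ⟨h, _⟩
        · exact h
        · exact absurd h hnot
      obtain ⟨c, hc⟩ := add_mem h1 h1'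
      exact ⟨c, Or.inr (hc.trans (by linear_combination a₀ * h2))⟩
  obtain ⟨c, hc | hc⟩ := key (b' + b₀)
  · refine ⟨c, Or.inl ?_⟩
    rw [hconj]
    congr 1
    rw [hlam] at hc
    linear_combination hc + b₀ * h2
  · refine ⟨c, Or.inr ?_⟩
    rw [Helper60.tG_inv, hconj]
    congr 1
    rw [hlam] at hc
    linear_combination hc + (b₀ + szS F m a * a) * h2

/-- for a fixed-point-free torus element `c` inverted by the square `z` of elements of order `4`
in `Uo`, exactly two square roots of `z` normalise the torus of `c` -/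
theorem szI_root_two (hm : 1 ≤ m) (hF : Fintype.card F = 2 ^ (2 * m + 1)) {a : F} (ha : a ≠ 0)
    {c : Cfsg.Sz F m} (hc : c ∈ szI (szE F m) (Helper60.tG hF 0 (szS F m a * a))) :
    Nat.card {b' : F // Helper60.tG hF a b' ∈ szNC c} = 2 := by
  have h2 : (2 : F) = 0 := sz_two
  have hσa : szS F m a ≠ 0 := (map_ne_zero (szS F m)).2 ha
  have hβ : szS F m a * a ≠ 0 := mul_ne_zero hσa ha
  have hcT : c ∈ szE F m ∨ c ∈ szDE hF := Or.inl hc.1
  have hinv := szTor_invol_inverts hm hF hcT hc.2 (tG_center_sq hF _) (tG_center_ne_one hF hβ)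
    (szTor_self_mem c)
  have claim1 : ∀ b₁ : F, b₁ ≠ 0 → Helper60.tG hF 0 b₁ ∈ szNC c → b₁ = szS F m a * a := by
    intro b₁ hb₁ hmem
    have hinv₁ := szTor_invol_inverts hm hF hcT hmem (tG_center_sq hF _)
      (tG_center_ne_one hF hb₁) (szTor_self_mem c)
    have hcomm : (Helper60.tG hF 0 (szS F m a * a) * Helper60.tG hF 0 b₁) * c =
        c * (Helper60.tG hF 0 (szS F m a * a) * Helper60.tG hF 0 b₁) := by
      have e1 : Helper60.tG hF 0 b₁ * c = c⁻¹ * Helper60.tG hF 0 b₁ := by
        rw [← hinv₁]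
        group
      have e2 : Helper60.tG hF 0 (szS F m a * a) * c⁻¹ =
          c * Helper60.tG hF 0 (szS F m a * a) := by
        have : c = (Helper60.tG hF 0 (szS F m a * a) * c *
            (Helper60.tG hF 0 (szS F m a * a))⁻¹)⁻¹ := by rw [hinv, inv_inv]
        conv_rhs => rw [this]
        group
      calc (Helper60.tG hF 0 (szS F m a * a) * Helper60.tG hF 0 b₁) * c
          = Helper60.tG hF 0 (szS F m a * a) * (Helper60.tG hF 0 b₁ * c) := by rw [mul_assoc]
        _ = (Helper60.tG hF 0 (szS F m a * a) * c⁻¹) * Helper60.tG hF 0 b₁ := by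
          rw [e1, mul_assoc]
        _ = c * (Helper60.tG hF 0 (szS F m a * a) * Helper60.tG hF 0 b₁) := by
          rw [e2, mul_assoc]
    have h1 : Helper60.tG hF 0 (szS F m a * a) * Helper60.tG hF 0 b₁ = (1 : Cfsg.Sz F m) :=
      szTor_inter_Bo hm hF hcT hβ hc.2 (Subgroup.mem_centralizer_singleton_iff.2 hcomm)
        (mul_mem (Helper60.tG_mem_Bo hF _ _) (Helper60.tG_mem_Bo hF _ _))
    rw [Helper60.tG_mul, ← Helper60.tG_zero hF] at h1
    have h3 := (Helper60.tG_inj hF h1).2
    simp only [map_zero, zero_mul, add_zero] at h3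
    linear_combination -h3 + b₁ * h2 + 0 * h2
  have claim2 : ∀ a₁ b₁ : F, Helper60.tG hF a₁ b₁ ∈ szNC c →
      Helper60.tG hF a₁ b₁ ≠ (1 : Cfsg.Sz F m) →
      Helper60.tG hF a₁ b₁ ≠ (Helper60.tG hF 0 (szS F m a * a) : Cfsg.Sz F m) → a₁ = a := by
    intro a₁ b₁ hmem hne1 hnez
    by_cases ha₁ : a₁ = 0
    · subst ha₁
      exfalso
      have hb₁ : b₁ ≠ 0 := by
        rintro rfl
        exact hne1 (Helper60.tG_zero hF)
      exact hnez (by rw [claim1 b₁ hb₁ hmem])
    · have hsq : Helper60.tG hF 0 (szS F m a₁ * a₁) ∈ szNC c := by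
        rw [← tG_sq hF a₁ b₁]
        exact mul_mem hmem hmem
      have hne : szS F m a₁ * a₁ ≠ 0 := mul_ne_zero ((map_ne_zero (szS F m)).2 ha₁) ha₁
      exact sz_sigma_mul_inj hF (claim1 _ hne hsq)
  have hS : Nat.card (szNC c ⊓ Helper60.Uo hF : Subgroup (Cfsg.Sz F m)) = 4 := by
    rw [(szTor_decomp hm hF hcT hβ hc.2).1]
    exact szE_relIndex hm hF hc.1
  have hsetS : (fun b' : F => (Helper60.tG hF a b' : Cfsg.Sz F m)) ''
      {b' : F | Helper60.tG hF a b' ∈ szNC c} =
      ((szNC c ⊓ Helper60.Uo hF : Subgroup (Cfsg.Sz F m)) : Set (Cfsg.Sz F m)) \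
        {1, Helper60.tG hF 0 (szS F m a * a)} := by
    ext s
    simp only [Set.mem_image, Set.mem_ofPred_eq, Set.mem_sdiff, SetLike.mem_coe,
      Subgroup.mem_inf, Set.mem_insert_iff, Set.mem_singleton_iff]
    constructor
    · rintro ⟨b', hb', rfl⟩
      refine ⟨⟨hb', Helper60.tG_mem_Uo hF a b'⟩, ?_⟩
      rintro (h | h)
      · exact ha ((Helper60.tG_eq_one_iff hF).1 h).1
      · exact ha (Helper60.tG_inj hF h).1
    · rintro ⟨⟨hsN, ⟨a₁, b₁, rfl⟩⟩, hne⟩
      push Not at hne
      have := claim2 a₁ b₁ hsN hne.1 hne.2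
      subst this
      exact ⟨b₁, hsN, rfl⟩
  have hpair : ({1, Helper60.tG hF 0 (szS F m a * a)} : Set (Cfsg.Sz F m)) ⊆
      ((szNC c ⊓ Helper60.Uo hF : Subgroup (Cfsg.Sz F m)) : Set (Cfsg.Sz F m)) := by
    rintro s (rfl | rfl)
    · exact one_mem _
    · exact Subgroup.mem_inf.2 ⟨hc.2, Helper60.tG_mem_Uo hF _ _⟩
  rw [← Set.coe_ofPred, Nat.card_coe_set_eq,
    ← Set.ncard_image_of_injective _ (fun x y h => (Helper60.tG_inj hF h).2), hsetS,
    Set.ncard_sdiff hpair, Set.ncard_pair (Ne.symm (tG_center_ne_one hF hβ)),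
    ← Nat.card_coe_set_eq, SetLike.coe_sort_coe, hS]

theorem szI_E4_fiber (hF : Fintype.card F = 2 ^ (2 * m + 1)) (a b' : F) :
    Nat.card {c : szI (szE F m) (Helper60.tG hF 0 (szS F m a * a)) //
        Helper60.tG hF a b' ∈ szNC c.1} = (szI (szE F m) (Helper60.tG hF a b')).ncard := by
  rw [← Nat.card_coe_set_eq]
  apply Nat.card_congr
  refine (Equiv.subtypeSubtypeEquivSubtypeInter
    (fun c : Cfsg.Sz F m => c ∈ szI (szE F m) (Helper60.tG hF 0 (szS F m a * a)))
    (fun c : Cfsg.Sz F m => Helper60.tG hF a b' ∈ szNC c)).trans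
    (Equiv.subtypeEquivRight (q := fun c => c ∈ szI (szE F m) (Helper60.tG hF a b')) ?_)
  intro c
  constructor
  · rintro ⟨h1, h2⟩
    exact ⟨h1.1, h2⟩
  · intro h
    refine ⟨⟨h.1, ?_⟩, h.2⟩
    have h3 := mul_mem h.2 h.2
    rw [tG_sq hF a b'] at h3
    exact h3

/-- the number of fixed-point-free torus elements whose torus is normalised by a given element
of order `4` of `Uo` -/
theorem szI_E4_card (hm : 1 ≤ m) (hF : Fintype.card F = 2 ^ (2 * m + 1)) {a : F} (ha : a ≠ 0)
    (b₀ : F) : (szI (szE F m) (Helper60.tG hF a b₀)).ncard = Fintype.card F ^ 2 := by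
  have hσa : szS F m a ≠ 0 := (map_ne_zero (szS F m)).2 ha
  have hβ : szS F m a * a ≠ 0 := mul_ne_zero hσa ha
  have key := h6_double_count (A := F) (B := szI (szE F m) (Helper60.tG hF 0 (szS F m a * a)))
    (fun b' c => Helper60.tG hF a b' ∈ szNC c.1)
    (szI (szE F m) (Helper60.tG hF a b₀)).ncard 2 ?_ ?_
  · rw [Nat.card_eq_fintype_card, Nat.card_coe_set_eq, (szI_cards hm hF hβ).2.2] at key
    have hq : 0 < Fintype.card F := Fintype.card_pos
    exact Nat.eq_of_mul_eq_mul_right hq (by rw [key]; ring)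
  · intro b'
    rw [szI_E4_fiber hF a b']
    obtain ⟨c₀, h | h⟩ := sz_roots_conj hF ha b₀ b'
    · rw [← h, szI_conj_card hm hF]
    · rw [← h, szI_conj_card hm hF, szI_inv]
  · rintro ⟨c, hc⟩
    exact szI_root_two hm hF ha hc

/-- solubilizer of an element of order `4` -/
theorem szSol_T4 (hm : 1 ≤ m) (hp : (2 * m + 1).Prime)
    (hF : Fintype.card F = 2 ^ (2 * m + 1)) (hsub : SzSubHyp F m) {a : F} (ha : a ≠ 0)
    (b₀ : F) :
    Nat.card {y : Cfsg.Sz F m //
        Group.IsSolvable (Subgroup.closure ({Helper60.tG hF a b₀, y} : Set (Cfsg.Sz F m)))} =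
      Fintype.card F ^ 2 * (Fintype.card F + 3) := by
  have hσa : szS F m a ≠ 0 := (map_ne_zero (szS F m)).2 ha
  have hβ : szS F m a * a ≠ 0 := mul_ne_zero hσa ha
  have hx : ∀ u : Cfsg.Sz F m, Helper60.tG hF a b₀ ∈ szNC u →
      Helper60.tG hF 0 (szS F m a * a) ∈ szNC u := by
    intro u h
    rw [← tG_sq hF a b₀]
    exact mul_mem h h
  have hset : {y : Cfsg.Sz F m |
      Group.IsSolvable (Subgroup.closure ({Helper60.tG hF a b₀, y} : Set (Cfsg.Sz F m)))} =
      (Helper60.Bo F m : Set (Cfsg.Sz F m)) ∪ szA (szE F m) (Helper60.tG hF a b₀) := by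
    ext y
    simp only [Set.mem_ofPred_eq, Set.mem_union, SetLike.mem_coe]
    rw [szSol_mem_iff hm hp hF hsub]
    constructor
    · rintro (⟨p, hp', hzp, hyp⟩ | ⟨u, hu, hzu, hyu⟩)
      · have := Helper60.ov_fix_T hF (a := a) (b := b₀) (fun h => ha h.1) hp' hzp
        subst this
        exact Or.inl (Helper60.mem_Bo.2 hyp)
      · by_cases hyB : y ∈ Helper60.Bo F m
        · exact Or.inl hyB
        · rcases hu with hu | hu
          · exact Or.inr ⟨hyB, u, hu, hzu, hyu⟩
          · exfalso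
            have hcard : Nat.card (szNC u ⊓ Helper60.Uo hF : Subgroup (Cfsg.Sz F m)) = 2 := by
              rw [(szTor_decomp hm hF (Or.inr hu) hβ (hx u hzu)).1]
              exact szDE_relIndex hm hF hu
            have h1 := h6_pow_card_subgroup (V := szNC u ⊓ Helper60.Uo hF)
              (Subgroup.mem_inf.2 ⟨hzu, Helper60.tG_mem_Uo hF a b₀⟩)
            rw [hcard, pow_two] at h1
            exact ha (Helper60.tG_involution hF h1)
    · rintro (hy | ⟨_, u, hu, hzu, hyu⟩)
      · exact Or.inl ⟨_, inf_mem_ovoid, szT_smul_inf a b₀, Helper60.mem_Bo.1 hy⟩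
      · exact Or.inr ⟨u, Or.inl hu, hzu, hyu⟩
  have hd1 : Disjoint (Helper60.Bo F m : Set (Cfsg.Sz F m))
      (szA (szE F m) (Helper60.tG hF a b₀)) := by
    rw [Set.disjoint_left]
    intro y hy h
    exact h.1 hy
  have hcE := szA_card hm hF (Or.inl rfl) 4 (fun u hu => szE_relIndex hm hF hu) hβ
    (Helper60.tG hF a b₀) hx
  have hB : (Helper60.Bo F m : Set (Cfsg.Sz F m)).ncard =
      Fintype.card F ^ 2 * (Fintype.card F - 1) := by
    rw [← Nat.card_coe_set_eq]
    exact card_Bo hm hF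
  rw [← Set.coe_ofPred, Nat.card_coe_set_eq, hset, Set.ncard_union_eq hd1, hcE, hB,
    szI_E4_card hm hF ha]
  have hq : 0 < Fintype.card F := Fintype.card_pos
  obtain ⟨k, hk⟩ : ∃ k, Fintype.card F = k + 1 := ⟨Fintype.card F - 1, by omega⟩
  rw [hk, Nat.add_sub_cancel]
  ring

end SzSol6

end Cfsg.Agent.Helper6
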