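import Mathlib
import Cfsg.Prelude.Def_LieExceptional
import Cfsg.Agent.Helper6.SzSol6

set_option autoImplicit false

universe v

namespace Cfsg.Agent.Helper6

open Matrix
open scoped Pointwise

theorem szp_coprime {m : ℕ} (hm : 1 ≤ m) :
    Nat.Coprime (2 ^ (2 * m + 1) - 1) (2 ^ (2 * m + 1) + 2 ^ (m + 1) + 1) ∧
    Nat.Coprime (2 ^ (2 * m + 1) - 1) (2 ^ (2 * m + 1) - 2 ^ (m + 1) + 1) ∧
    Nat.Coprime (2 ^ (2 * m + 1) + 2 ^ (m + 1) + 1) (2 ^ (2 * m + 1) - 2 ^ (m + 1) + 1) := by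
  obtain ⟨h1, h2, h3, h4, h5⟩ := szp_num hm
  have hprod := szp_prod h1 h3
  have hodd1 : Odd (2 ^ (2 * m + 1) - 1) := szp_odd hm (by simp)
  have hodd3 : Odd (2 ^ (2 * m + 1) - 2 ^ (m + 1) + 1) := szp_odd hm (by simp)
  have hq1 : 1 ≤ 2 ^ (2 * m + 1) := Nat.one_le_two_pow
  have hsq : (2 ^ (2 * m + 1)) ^ 2 + 1 = 2 + (2 ^ (2 * m + 1) - 1) * (2 ^ (2 * m + 1) + 1) := by
    obtain ⟨k, hk⟩ : ∃ k, 2 ^ (2 * m + 1) = k + 1 := ⟨2 ^ (2 * m + 1) - 1, by omega⟩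
    rw [hk, Nat.add_sub_cancel]
    ring
  have hc : Nat.Coprime (2 ^ (2 * m + 1) - 1) ((2 ^ (2 * m + 1)) ^ 2 + 1) := by
    rw [hsq, Nat.coprime_add_mul_left_right]
    exact (Nat.coprime_two_left.2 hodd1).symm
  refine ⟨?_, ?_, ?_⟩
  · exact Nat.Coprime.coprime_dvd_right (Dvd.intro _ hprod) hc
  · exact Nat.Coprime.coprime_dvd_right (Dvd.intro_left _ hprod) hc
  · have e : 2 ^ (2 * m + 1) + 2 ^ (m + 1) + 1 =
        2 ^ (m + 2) + (2 ^ (2 * m + 1) - 2 ^ (m + 1) + 1) := by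
      have : 2 ^ (m + 2) = 2 * 2 ^ (m + 1) := by ring
      omega
    rw [e, Nat.coprime_add_self_left]
    exact Nat.Coprime.pow_left _ (Nat.coprime_two_left.2 hodd3)

section SzSol7
variable {F : Type v} [Field F] [Fintype F] {m : ℕ} [CharP F 2]

theorem dG_orderOf_dvd (hF : Fintype.card F = 2 ^ (2 * m + 1)) (t : Fˣ) :
    orderOf (Helper60.dG hF t : Cfsg.Sz F m) ∣ 2 ^ (2 * m + 1) - 1 := by
  have h1 : orderOf (szDG hF t : Cfsg.Sz F m) ∣ orderOf t := orderOf_map_dvd _ t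
  have h2 : orderOf t ∣ Nat.card Fˣ := orderOf_dvd_natCard t
  rw [Nat.card_units, Nat.card_eq_fintype_card, hF] at h2
  exact h1.trans h2

/-- the sizes of the solubilizers in the Suzuki group (ovoid model), `2m+1` prime -/
theorem szSol_main (hm : 1 ≤ m) (hp : (2 * m + 1).Prime)
    (hF : Fintype.card F = 2 ^ (2 * m + 1)) (hsub : SzSubHyp F m) (x : Cfsg.Sz F m) :
    (orderOf x = 2 → Nat.card {y : Cfsg.Sz F m //
        Group.IsSolvable (Subgroup.closure ({x, y} : Set (Cfsg.Sz F m)))} =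
      (2 ^ (2 * m + 1)) ^ 2 * (4 * 2 ^ (2 * m + 1) - 3)) ∧
    (orderOf x = 4 → Nat.card {y : Cfsg.Sz F m //
        Group.IsSolvable (Subgroup.closure ({x, y} : Set (Cfsg.Sz F m)))} =
      (2 ^ (2 * m + 1)) ^ 2 * (2 ^ (2 * m + 1) + 3)) ∧
    (x ≠ 1 → orderOf x ∣ 2 ^ (2 * m + 1) - 1 → Nat.card {y : Cfsg.Sz F m //
        Group.IsSolvable (Subgroup.closure ({x, y} : Set (Cfsg.Sz F m)))} =
      2 * (2 ^ (2 * m + 1)) ^ 2 * (2 ^ (2 * m + 1) - 1)) ∧
    (x ≠ 1 → orderOf x ∣ 2 ^ (2 * m + 1) + 2 ^ (m + 1) + 1 → Nat.card {y : Cfsg.Sz F m //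
        Group.IsSolvable (Subgroup.closure ({x, y} : Set (Cfsg.Sz F m)))} =
      4 * (2 ^ (2 * m + 1) + 2 ^ (m + 1) + 1)) ∧
    (x ≠ 1 → orderOf x ∣ 2 ^ (2 * m + 1) - 2 ^ (m + 1) + 1 → Nat.card {y : Cfsg.Sz F m //
        Group.IsSolvable (Subgroup.closure ({x, y} : Set (Cfsg.Sz F m)))} =
      4 * (2 ^ (2 * m + 1) - 2 ^ (m + 1) + 1)) := by
  obtain ⟨hcop1, hcop2, hcop3⟩ := szp_coprime hm
  have hoddq : Odd (2 ^ (2 * m + 1) - 1) := szp_odd hm (by simp)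
  have hoddp : Odd (2 ^ (2 * m + 1) + 2 ^ (m + 1) + 1) := szp_odd hm (by simp)
  have hoddm : Odd (2 ^ (2 * m + 1) - 2 ^ (m + 1) + 1) := szp_odd hm (by simp)
  have hconjord : ∀ g : Cfsg.Sz F m, orderOf (g * x * g⁻¹) = orderOf x := fun g =>
    (MulAut.conj g).orderOf_eq x
  -- elements of even order are conjugate into `Uo`
  have hT : ¬ Odd (orderOf x) → x ≠ 1 → ∃ (g : Cfsg.Sz F m) (a b : F), ¬ (a = 0 ∧ b = 0) ∧
      g * x * g⁻¹ = Helper60.tG hF a b := by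
    intro hodd hx1
    rcases sz_trichotomy hm hF hx1 with hE | ⟨g, a, b, hab, e⟩ | ⟨g, t, ht, e⟩
    · exact absurd (szTor_odd hm hF (Or.inl hE) (szTor_self_mem x)) hodd
    · exact ⟨g, a, b, hab, e⟩
    · exact absurd (szTor_odd hm hF (Or.inr ⟨g, t, ht, e⟩) (szTor_self_mem x)) hodd
  have hEcase : x ≠ 1 → ∀ n : ℕ, Odd n → Nat.Coprime (2 ^ (2 * m + 1) - 1) n → orderOf x ∣ n →
      x ∈ szE F m := by
    intro hx1 n hn hcop hdvd
    rcases sz_trichotomy hm hF hx1 with hE | ⟨g, a, b, hab, e⟩ | ⟨g, t, ht, e⟩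
    · exact hE
    · exact absurd (tG_conj_odd hF e (Odd.of_dvd_nat hn hdvd)) hx1
    · exfalso
      have h1 : orderOf x ∣ 2 ^ (2 * m + 1) - 1 := by
        rw [← hconjord g, e]
        exact dG_orderOf_dvd hF t
      have h2 : orderOf x = 1 := Nat.Coprime.eq_one_of_dvd (hcop.symm.coprime_dvd_left hdvd) h1
      exact hx1 (orderOf_eq_one_iff.1 h2)
  have hCdvd : orderOf x ∣ Nat.card (Subgroup.centralizer ({x} : Set (Cfsg.Sz F m))) := by
    have := orderOf_dvd_natCard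
      (⟨x, szTor_self_mem x⟩ : Subgroup.centralizer ({x} : Set (Cfsg.Sz F m)))
    rwa [Subgroup.orderOf_mk] at this
  refine ⟨?_, ?_, ?_, ?_, ?_⟩
  · intro h2
    have hx1 : x ≠ 1 := by
      rintro rfl
      rw [orderOf_one] at h2
      omega
    obtain ⟨g, a, b, hab, e⟩ := hT (by rw [h2]; decide) hx1
    have hsq : Helper60.tG hF a b * Helper60.tG hF a b = (1 : Cfsg.Sz F m) := by
      rw [← e, ← pow_two, ← orderOf_dvd_iff_pow_eq_one, hconjord, h2]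
    have ha : a = 0 := Helper60.tG_involution hF hsq
    subst ha
    have hb : b ≠ 0 := fun h => hab ⟨rfl, h⟩
    rw [szSol_conj g x, e, szSol_T2 hm hp hF hsub hb, hF]
  · intro h4
    have hx1 : x ≠ 1 := by
      rintro rfl
      rw [orderOf_one] at h4
      omega
    obtain ⟨g, a, b, hab, e⟩ := hT (by rw [h4]; decide) hx1
    have ha : a ≠ 0 := by
      rintro rfl
      have h1 : (g * x * g⁻¹) ^ 2 = 1 := by
        rw [e, pow_two, tG_center_sq]
      rw [← orderOf_dvd_iff_pow_eq_one, hconjord, h4] at h1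
      omega
    rw [szSol_conj g x, e, szSol_T4 hm hp hF hsub ha, hF]
  · intro hx1 hdvd
    rcases sz_trichotomy hm hF hx1 with hE | ⟨g, a, b, hab, e⟩ | ⟨g, t, ht, e⟩
    · exfalso
      have h2 : orderOf x = 1 := by
        rcases szTor_card hm hF hE with h | h
        · rw [h] at hCdvd
          exact Nat.Coprime.eq_one_of_dvd (hcop1.coprime_dvd_left hdvd) hCdvd
        · rw [h] at hCdvd
          exact Nat.Coprime.eq_one_of_dvd (hcop2.coprime_dvd_left hdvd) hCdvd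
      exact hx1 (orderOf_eq_one_iff.1 h2)
    · exact absurd (tG_conj_odd hF e (Odd.of_dvd_nat hoddq hdvd)) hx1
    · rw [szSol_conj g x, e, szSol_D hm hp hF hsub ht, hF]
  · intro hx1 hdvd
    have hE := hEcase hx1 _ hoddp hcop1 hdvd
    rw [szSol_E hm hp hF hsub hE]
    rcases szTor_card hm hF hE with h | h
    · rw [h]
    · exfalso
      rw [h] at hCdvd
      have h2 : orderOf x = 1 := Nat.Coprime.eq_one_of_dvd (hcop3.coprime_dvd_left hdvd) hCdvd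
      exact hx1 (orderOf_eq_one_iff.1 h2)
  · intro hx1 hdvd
    have hE := hEcase hx1 _ hoddm hcop2 hdvd
    rw [szSol_E hm hp hF hsub hE]
    rcases szTor_card hm hF hE with h | h
    · exfalso
      rw [h] at hCdvd
      have h2 : orderOf x = 1 :=
        Nat.Coprime.eq_one_of_dvd (hcop3.symm.coprime_dvd_left hdvd) hCdvd
      exact hx1 (orderOf_eq_one_iff.1 h2)
    · rw [h]

end SzSol7

end Cfsg.Agent.Helper6
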