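import Mathlib
import Cfsg.Prelude.Def_LieExceptional
import Cfsg.Agent.Helper15.Zassenhaus
import Cfsg.Agent.Helper60.Zass
import Cfsg.Agent.Helper6.Zass

set_option autoImplicit false

namespace Cfsg.Agent.Helper6

open MulAction
open scoped Pointwise

section ZassOdd

variable {G Ω : Type*} [Group G] [MulAction G Ω]

/-- in a Zassenhaus group of odd degree every involution has exactly one fixed point -/
theorem zs_involution_unique_fixed [Finite Ω] (hZ : Cfsg.IsZassenhausGroup G Ω)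
    (hodd : Odd (Nat.card Ω)) {v : G} (hv : v * v = 1) (hv1 : v ≠ 1) :
    ∃ c₀ : Ω, v • c₀ = c₀ ∧ ∀ c : Ω, v • c = c → c = c₀ := by
  classical
  have := Fintype.ofFinite Ω
  let f : Function.End Ω := fun x => v • x
  have h := Equiv.Perm.card_fixedPoints_modEq (f := f) (p := 2) (n := 1) (by
    exact funext fun x => by
      show v • v • x = x
      rw [← mul_smul, hv, one_smul])
  rw [Nat.card_eq_fintype_card] at hodd
  have hoddF : Odd (Fintype.card (Function.fixedPoints f)) := by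
    rw [Nat.odd_iff] at hodd ⊢
    unfold Nat.ModEq at h
    omega
  have hpos : 0 < Fintype.card (Function.fixedPoints f) := hoddF.pos
  obtain ⟨⟨c₀, hc₀⟩⟩ := Fintype.card_pos_iff.1 hpos
  refine ⟨c₀, hc₀, ?_⟩
  intro c hc
  by_contra hne
  have h1 : 1 < Fintype.card (Function.fixedPoints f) :=
    Fintype.one_lt_card_iff.2 ⟨⟨c, hc⟩, ⟨c₀, hc₀⟩, fun h => hne (congrArg Subtype.val h)⟩
  have h2 : 2 < Fintype.card (Function.fixedPoints f) := by
    rcases hoddF with ⟨k, hk⟩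
    omega
  obtain ⟨x, y, z, hxy, hxz, hyz⟩ := Fintype.two_lt_card_iff.1 h2
  exact hv1 (hZ.2.2.1 v x.1 y.1 z.1 (fun h => hxy (Subtype.ext h)) (fun h => hyz (Subtype.ext h))
    (fun h => hxz (Subtype.ext h)) x.2 y.2 z.2)

/-- a non-trivial normal subgroup of a Zassenhaus group of odd degree is the whole group -/
theorem zs_odd_normal_eq_top [Finite Ω] (hZ : Cfsg.IsZassenhausGroup G Ω)
    (hodd : Odd (Nat.card Ω)) (N : Subgroup G) [hNn : N.Normal] (hN : N ≠ ⊥) : N = ⊤ := by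
  have hfin := zs_finite hZ
  have hfaith := hZ.1
  obtain ⟨g₀, hg₀, a, b, hab, -, -⟩ := hZ.2.2.2.1
  obtain ⟨n, hn, hna, hnb⟩ := zs_normal_two_trans hZ N hN hab (Ne.symm hab)
  -- an involution in `N`
  have hn2a : (n ^ 2) • a = a := by rw [pow_two, mul_smul, hna, hnb]
  have hpowa : ∀ j : ℕ, (n ^ (2 * j)) • a = a := by
    intro j
    rw [pow_mul]
    have : n ^ 2 ∈ stabilizer G a := hn2a
    exact pow_mem this j
  have heven : 2 ∣ orderOf n := by
    by_contra hodd'
    obtain ⟨j, hj⟩ : ∃ j, orderOf n = 2 * j + 1 := by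
      have := Nat.odd_iff.2 (Nat.two_dvd_ne_zero.1 hodd')
      exact this
    have h1 : (n ^ orderOf n) • a = a := by rw [pow_orderOf_eq_one, one_smul]
    rw [hj, pow_succ, mul_smul, hna] at h1
    have h2 := hpowa j
    have h3 : n ^ (2 * j) ∈ stabilizer G a := h2
    have h4 : (n ^ (2 * j))⁻¹ • a = a := (inv_mem h3 : _)
    have : b = a := by
      rw [← h4, ← h1, inv_smul_smul]
    exact hab this.symm
  have hord0 : orderOf n ≠ 0 := (orderOf_pos n).ne'
  have hu : orderOf (n ^ (orderOf n / 2)) = 2 := orderOf_pow_orderOf_div hord0 heven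
  set u := n ^ (orderOf n / 2) with hu_def
  have huN : u ∈ N := pow_mem hn _
  have hu2 : u * u = 1 := by
    rw [← pow_two, ← hu]
    exact pow_orderOf_eq_one u
  have hu1 : u ≠ 1 := by
    intro h
    rw [h, orderOf_one] at hu
    omega
  obtain ⟨c, hc⟩ := Cfsg.Agent.Helper15.zass_exists_moved hZ hu1
  obtain ⟨g, hg1, hg2⟩ := Cfsg.Agent.Helper15.zass_two_trans hZ (fun h => hc h.symm) hab
  have hvN : g * u * g⁻¹ ∈ N := hNn.conj_mem u huN g
  have hva : (g * u * g⁻¹) • a = b := by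
    rw [mul_smul, mul_smul, ← hg1, inv_smul_smul, hg2]
  have hvb : (g * u * g⁻¹) • b = a := by
    have huu : u • u • c = c := by rw [← mul_smul, hu2, one_smul]
    rw [mul_smul, mul_smul, ← hg2, inv_smul_smul, huu, hg1]
  have hv2 : (g * u * g⁻¹) * (g * u * g⁻¹) = 1 := by
    have : (g * u * g⁻¹) * (g * u * g⁻¹) = g * (u * u) * g⁻¹ := by group
    rw [this, hu2, mul_one, mul_inv_cancel]
  have hv1 : g * u * g⁻¹ ≠ 1 := fun h => hu1 (conj_eq_one_iff.1 h)
  generalize g * u * g⁻¹ = v at hvN hva hvb hv2 hv1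
  have hvinv : v⁻¹ = v := inv_eq_of_mul_eq_one_right hv2
  obtain ⟨c₀, hc₀, huniq⟩ := zs_involution_unique_fixed hZ hodd hv2 hv1
  have hc₀a : a ≠ c₀ := by
    rintro rfl
    exact hab (hc₀.symm.trans hva)
  have hc₀b : b ≠ c₀ := by
    rintro rfl
    exact hab (hvb.symm.trans hc₀)
  -- the two-point stabiliser lies in `N`
  have hH : ∀ h : G, h • a = a → h • b = b → h ∈ N := by
    let H : Subgroup G := stabilizer G a ⊓ stabilizer G b
    let ψ : H → H := fun h => ⟨h.1⁻¹ * v * h.1 * v⁻¹, by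
      have ha : h.1 • a = a := h.2.1
      have hb : h.1 • b = b := h.2.2
      have ha' : h.1⁻¹ • a = a := inv_smul_eq_iff.2 ha.symm
      have hb' : h.1⁻¹ • b = b := inv_smul_eq_iff.2 hb.symm
      constructor
      · show (h.1⁻¹ * v * h.1 * v⁻¹) • a = a
        rw [hvinv, mul_smul, mul_smul, mul_smul, hva, hb, hvb, ha']
      · show (h.1⁻¹ * v * h.1 * v⁻¹) • b = b
        rw [hvinv, mul_smul, mul_smul, mul_smul, hvb, ha, hva, hb']⟩
    have hinj : Function.Injective ψ := by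
      intro h h' e
      have e' : h.1⁻¹ * v * h.1 * v⁻¹ = h'.1⁻¹ * v * h'.1 * v⁻¹ := congrArg Subtype.val e
      have e'' := mul_right_cancel e'
      have hd : (h'.1 * h.1⁻¹) * v = v * (h'.1 * h.1⁻¹) := by
        calc h'.1 * h.1⁻¹ * v = h'.1 * (h.1⁻¹ * v * h.1) * h.1⁻¹ := by group
          _ = h'.1 * (h'.1⁻¹ * v * h'.1) * h.1⁻¹ := by rw [e'']
          _ = v * (h'.1 * h.1⁻¹) := by group
      have hdH : h'.1 * h.1⁻¹ ∈ H := H.mul_mem h'.2 (H.inv_mem h.2)
      have hdc : (h'.1 * h.1⁻¹) • c₀ = c₀ := by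
        apply huniq
        rw [← mul_smul, ← hd, mul_smul, hc₀]
      have hd1 : h'.1 * h.1⁻¹ = 1 :=
        hZ.2.2.1 _ a b c₀ hab hc₀b hc₀a hdH.1 hdH.2 hdc
      exact Subtype.ext (mul_inv_eq_one.1 hd1).symm
    have hsurj := Finite.injective_iff_surjective.1 hinj
    intro h ha hb
    obtain ⟨h₀, e⟩ := hsurj ⟨h, ⟨ha, hb⟩⟩
    have e' : h = h₀.1⁻¹ * v * h₀.1 * v⁻¹ := (congrArg Subtype.val e).symm
    rw [e']
    have : h₀.1⁻¹ * v * h₀.1⁻¹⁻¹ ∈ N := hNn.conj_mem v hvN h₀.1⁻¹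
    rw [inv_inv] at this
    exact N.mul_mem this (N.inv_mem hvN)
  -- the point stabiliser lies in `N`
  obtain ⟨K, hKa, hKn, hKf, hKt⟩ := zs_kernel hZ a
  have hKN := zs_kernel_le hZ N hN a K hKa hKn hKf
  have hGa : ∀ g : G, g • a = a → g ∈ N := by
    intro g hg
    have hgb : g • b ≠ a := by
      intro h
      rw [← hg] at h
      exact hab (smul_left_cancel _ h).symm
    obtain ⟨k, hk, hkb⟩ := hKt b (g • b) (Ne.symm hab) hgb
    have h1 : (k⁻¹ * g) • a = a := by
      rw [mul_smul, hg, inv_smul_eq_iff, hKa k hk]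
    have h2 : (k⁻¹ * g) • b = b := by
      rw [mul_smul, inv_smul_eq_iff, hkb]
    have := N.mul_mem (hKN hk) (hH _ h1 h2)
    rwa [mul_inv_cancel_left] at this
  rw [eq_top_iff]
  intro g _
  obtain ⟨n', hn', h⟩ := zs_normal_trans hZ N hN a (g • a)
  have h1 : (n'⁻¹ * g) • a = a := by rw [mul_smul, inv_smul_eq_iff, h]
  have := N.mul_mem hn' (hGa _ h1)
  rwa [mul_inv_cancel_left] at this

end ZassOdd

end Cfsg.Agent.Helper6
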